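import Mathlib

set_option autoImplicit false

namespace Cfsg.Agent.Lib.Helper10.Camina

variable {G : Type*} [Group G] [Finite G] (N : Subgroup G) [N.Normal]

/-- The Camina condition. -/
def Cam : Prop := ∀ g : G, g ∉ N → ∀ n ∈ N, ∃ x : G, x * g * x⁻¹ = g * n

variable {N}

theorem cam_order (hcam : Cam N) {g : G} (hg : g ∉ N) {n : G} (hn : n ∈ N) :
    orderOf (g * n) = orderOf g := by
  obtain ⟨x, hx⟩ := hcam g hg n hn
  rw [← hx]
  exact (MulAut.conj x).orderOf_eq g

theorem cam_coprime (hcam : Cam N) {u : G} (hu : u ∉ N) {y : G} (hy : y ∈ N)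
    (hc : Commute u y) (hcop : Nat.Coprime (orderOf u) (orderOf y)) : y = 1 := by
  have h1 := hc.orderOf_mul_eq_mul_orderOf_of_coprime hcop
  rw [cam_order hcam hu hy] at h1
  have hpos : 0 < orderOf u := orderOf_pos u
  have h2 : orderOf y = 1 := by
    have : orderOf u * 1 = orderOf u * orderOf y := by rw [mul_one]; exact h1
    exact (Nat.eq_of_mul_eq_mul_left hpos this).symm
  exact orderOf_eq_one_iff.mp h2

theorem cam_cent_dvd (hcam : Cam N) {u : G} (hu : u ∉ N) :
    Nat.card (Subgroup.centralizer ({u} : Set G)) ∣ N.index := by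
  classical
  let K : Subgroup G :=
    (Subgroup.centralizer ({(QuotientGroup.mk u : G ⧸ N)} : Set (G ⧸ N))).comap (QuotientGroup.mk' N)
  have hKmem : ∀ x : G, x ∈ K ↔ u⁻¹ * (x * u * x⁻¹) ∈ N := by
    intro x
    show (QuotientGroup.mk x : G ⧸ N) ∈ Subgroup.centralizer _ ↔ _
    rw [Subgroup.mem_centralizer_iff, ← QuotientGroup.eq_one_iff]
    simp only [Set.mem_singleton_iff, forall_eq, QuotientGroup.mk_mul, QuotientGroup.mk_inv]
    constructor
    · intro h
      calc ((u : G ⧸ N))⁻¹ * ((x : G ⧸ N) * (u : G ⧸ N) * ((x : G ⧸ N))⁻¹)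
          = ((u : G ⧸ N))⁻¹ * ((u : G ⧸ N) * (x : G ⧸ N) * ((x : G ⧸ N))⁻¹) := by rw [h]
        _ = 1 := by group
    · intro h
      have h2 : (x : G ⧸ N) * (u : G ⧸ N) * ((x : G ⧸ N))⁻¹ = (u : G ⧸ N) := by
        have := congrArg (fun t => (u : G ⧸ N) * t) h
        simpa using this
      calc (u : G ⧸ N) * (x : G ⧸ N) = ((x : G ⧸ N) * (u : G ⧸ N) * ((x : G ⧸ N))⁻¹) * (x : G ⧸ N) := by rw [h2]
        _ = (x : G ⧸ N) * (u : G ⧸ N) := by group
  choose xf hxf using fun n : ↥N => hcam u hu n.1 n.2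
  let C : Subgroup G := Subgroup.centralizer ({u} : Set G)
  have hCmem : ∀ c : G, c ∈ C ↔ c * u * c⁻¹ = u := by
    intro c
    show c ∈ Subgroup.centralizer _ ↔ _
    rw [Subgroup.mem_centralizer_iff]
    simp only [Set.mem_singleton_iff, forall_eq]
    constructor
    · intro h; rw [← h, mul_inv_cancel_right]
    · intro h; rw [mul_inv_eq_iff_eq_mul] at h; exact h.symm
  have hconj : ∀ (n : ↥N) (c : ↥C), (xf n * c) * u * (xf n * c)⁻¹ = u * n := by
    intro n c
    have h1 := (hCmem c.1).1 c.2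
    calc (xf n * c) * u * (xf n * c)⁻¹ = xf n * ((c : G) * u * (c : G)⁻¹) * (xf n)⁻¹ := by group
      _ = u * n := by rw [h1, hxf n]
  let Φ : ↥N × ↥C → ↥K := fun nc =>
    ⟨xf nc.1 * nc.2, by
      rw [hKmem, hconj nc.1 nc.2, inv_mul_cancel_left]
      exact nc.1.2⟩
  have hΦ : Function.Bijective Φ := by
    constructor
    · rintro ⟨n, c⟩ ⟨n', c'⟩ h
      have h' : xf n * (c : G) = xf n' * (c' : G) := congrArg Subtype.val h
      have hn : n = n' := by
        have e1 := hconj n c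
        have e2 := hconj n' c'
        rw [h'] at e1
        rw [e2] at e1
        exact Subtype.ext (mul_left_cancel e1).symm
      subst hn
      have hc : c = c' := Subtype.ext (mul_left_cancel h')
      rw [hc]
    · rintro ⟨x, hx⟩
      have hx' := (hKmem x).1 hx
      let n : ↥N := ⟨u⁻¹ * (x * u * x⁻¹), hx'⟩
      have hn : u * (n : G) = x * u * x⁻¹ := by
        show u * (u⁻¹ * (x * u * x⁻¹)) = _
        rw [mul_inv_cancel_left]
      have hc : (xf n)⁻¹ * x ∈ C := by
        rw [hCmem]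
        have := hxf n
        calc (xf n)⁻¹ * x * u * ((xf n)⁻¹ * x)⁻¹ = (xf n)⁻¹ * (x * u * x⁻¹) * xf n := by group
          _ = (xf n)⁻¹ * (xf n * u * (xf n)⁻¹) * xf n := by rw [← hn, this]
          _ = u := by group
      refine ⟨(n, ⟨(xf n)⁻¹ * x, hc⟩), ?_⟩
      apply Subtype.ext
      show xf n * ((xf n)⁻¹ * x) = x
      rw [mul_inv_cancel_left]
  have hcard : Nat.card ↥K = Nat.card ↥N * Nat.card ↥C := by
    rw [← Nat.card_prod]
    exact (Nat.card_congr (Equiv.ofBijective Φ hΦ)).symm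
  have h1 : Nat.card ↥K ∣ Nat.card G := Subgroup.card_subgroup_dvd_card K
  rw [hcard, ← N.card_mul_index] at h1
  exact Nat.dvd_of_mul_dvd_mul_left Nat.card_pos h1

end Cfsg.Agent.Lib.Helper10.Camina
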