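import Mathlib
import Cfsg.Agent.Lib.Helper10.Camina1

set_option autoImplicit false

namespace Cfsg.Agent.Lib.Helper10.Camina

variable {G : Type*} [Group G] [Finite G] {N : Subgroup G} [N.Normal]

theorem ppow_le_of_dvd {p : ℕ} [hp : Fact p.Prime] {H : Type*} [Group H] [Finite H]
    (hH : IsPGroup p H) {m : ℕ} (hm : m ≠ 0) (hd : Nat.card H ∣ m) :
    Nat.card H ≤ p ^ m.factorization p := by
  obtain ⟨n, hn⟩ := IsPGroup.iff_card.mp hH
  rw [hn] at hd ⊢
  exact Nat.pow_le_pow_right hp.out.pos ((hp.out.pow_dvd_iff_le_factorization hm).mp hd)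

theorem lemA (hcam : Cam N) (p : ℕ) [hp : Fact p.Prime] (P : Sylow p G) {u : G} (huP : u ∈ P)
    (hu : u ∉ N) (hc : ∀ x ∈ P, u⁻¹ * (x * u * x⁻¹) ∈ N) :
    (∀ c ∈ (P : Subgroup G) ⊓ N, ∃ x ∈ P, x * u * x⁻¹ = u * c) ∧
      p ^ (Nat.card N).factorization p ≤ Nat.card ↥((P : Subgroup G) ⊓ N) := by
  classical
  set a := (Nat.card N).factorization p with ha
  set v := (N.index).factorization p with hv
  have hPcard : Nat.card ↥(P : Subgroup G) = p ^ a * p ^ v := by
    rw [P.card_eq_multiplicity, ← N.card_mul_index,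
      Nat.factorization_mul Nat.card_pos.ne' (Subgroup.index_ne_zero_of_finite),
      Finsupp.add_apply, pow_add]
  let K : Subgroup G := (P : Subgroup G) ⊓ N
  let CP : Subgroup G := (P : Subgroup G) ⊓ Subgroup.centralizer ({u} : Set G)
  have hK : Nat.card ↥K ≤ p ^ a := by
    apply ppow_le_of_dvd (P.isPGroup'.to_le inf_le_left) Nat.card_pos.ne'
    exact Subgroup.card_dvd_of_le inf_le_right
  have hCP : Nat.card ↥CP ≤ p ^ v := by
    apply ppow_le_of_dvd (P.isPGroup'.to_le inf_le_left) (Subgroup.index_ne_zero_of_finite)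
    exact (Subgroup.card_dvd_of_le inf_le_right).trans (cam_cent_dvd hcam hu)
  haveI : Fintype ↥(P : Subgroup G) := Fintype.ofFinite _
  haveI : Fintype ↥K := Fintype.ofFinite _
  haveI : Fintype ↥CP := Fintype.ofFinite _
  let f : ↥(P : Subgroup G) → G := fun x => (x : G) * u * (x : G)⁻¹
  have hfib : ∀ y ∈ (Finset.univ : Finset ↥(P : Subgroup G)).image f,
      ((Finset.univ : Finset ↥(P : Subgroup G)).filter (fun x => f x = y)).card ≤ Nat.card ↥CP := by
    intro y hy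
    obtain ⟨x₀, -, rfl⟩ := Finset.mem_image.mp hy
    rw [Nat.card_eq_fintype_card, ← Finset.card_univ]
    have hmem : ∀ x : ↥(P : Subgroup G), f x = f x₀ → (x₀ : G)⁻¹ * (x : G) ∈ CP := by
      intro x hx
      refine Subgroup.mem_inf.mpr ⟨(P : Subgroup G).mul_mem ((P : Subgroup G).inv_mem x₀.2) x.2, ?_⟩
      rw [Subgroup.mem_centralizer_iff]
      simp only [Set.mem_singleton_iff, forall_eq]
      have hx' : (x : G) * u * (x : G)⁻¹ = (x₀ : G) * u * (x₀ : G)⁻¹ := hx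
      have : u = (x₀ : G)⁻¹ * ((x : G) * u * (x : G)⁻¹) * (x₀ : G) := by rw [hx']; group
      calc u * ((x₀ : G)⁻¹ * (x : G))
          = ((x₀ : G)⁻¹ * ((x : G) * u * (x : G)⁻¹) * (x₀ : G)) * ((x₀ : G)⁻¹ * (x : G)) := by
            rw [← this]
        _ = (x₀ : G)⁻¹ * (x : G) * u := by group
    refine Finset.card_le_card_of_injOn
      (fun x => if h : f x = f x₀ then ⟨(x₀ : G)⁻¹ * (x : G), hmem x h⟩ else 1)
      (fun _ _ => Finset.mem_univ _) ?_
    intro x hx x' hx'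
    simp only [Finset.coe_filter, Finset.mem_univ, true_and, Set.mem_setOf_eq] at hx hx'
    intro h
    simp only [dif_pos hx, dif_pos hx'] at h
    have := congrArg Subtype.val h
    exact Subtype.ext (mul_left_cancel this)
  have hcount := Finset.card_le_mul_card_image (Finset.univ : Finset ↥(P : Subgroup G))
    (Nat.card ↥CP) hfib
  rw [Finset.card_univ, ← Nat.card_eq_fintype_card, hPcard] at hcount
  let T : Finset G := (Finset.univ : Finset ↥K).image (fun c : ↥K => u * (c : G))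
  have hT : T.card ≤ Nat.card ↥K := by
    rw [Nat.card_eq_fintype_card, ← Finset.card_univ]
    exact Finset.card_image_le (s := (Finset.univ : Finset ↥K)) (f := fun c : ↥K => u * (c : G))
  have hsub : (Finset.univ : Finset ↥(P : Subgroup G)).image f ⊆ T := by
    intro y hy
    obtain ⟨x, -, rfl⟩ := Finset.mem_image.mp hy
    refine Finset.mem_image.mpr
      ⟨(⟨u⁻¹ * ((x : G) * u * (x : G)⁻¹), Subgroup.mem_inf.mpr ⟨?_, hc x x.2⟩⟩ : ↥K),
        Finset.mem_univ _, ?_⟩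
    · exact (P : Subgroup G).mul_mem ((P : Subgroup G).inv_mem huP)
        ((P : Subgroup G).mul_mem ((P : Subgroup G).mul_mem x.2 huP) ((P : Subgroup G).inv_mem x.2))
    · show u * (u⁻¹ * ((x : G) * u * (x : G)⁻¹)) = f x
      rw [mul_inv_cancel_left]
  have hpv : 0 < p ^ v := pow_pos hp.out.pos v
  have hpa : 0 < p ^ a := pow_pos hp.out.pos a
  constructor
  · intro c hcK
    by_contra hne
    push_neg at hne
    have hsub' : (Finset.univ : Finset ↥(P : Subgroup G)).image f ⊆ T.erase (u * c) := by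
      intro y hy
      refine Finset.mem_erase.mpr ⟨?_, hsub hy⟩
      obtain ⟨x, -, rfl⟩ := Finset.mem_image.mp hy
      exact hne x x.2
    have hcT : u * c ∈ T := Finset.mem_image.mpr ⟨(⟨c, hcK⟩ : ↥K), Finset.mem_univ _, rfl⟩
    have h1 := Finset.card_le_card hsub'
    rw [Finset.card_erase_of_mem hcT] at h1
    have hTpos : 0 < T.card := Finset.card_pos.mpr ⟨_, hcT⟩
    have h2 : ((Finset.univ : Finset ↥(P : Subgroup G)).image f).card < p ^ a := by omega
    have h3 : p ^ a * p ^ v < p ^ a * p ^ v := by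
      calc p ^ a * p ^ v
          ≤ Nat.card ↥CP * ((Finset.univ : Finset ↥(P : Subgroup G)).image f).card := hcount
        _ ≤ p ^ v * ((Finset.univ : Finset ↥(P : Subgroup G)).image f).card :=
            Nat.mul_le_mul_right _ hCP
        _ < p ^ v * p ^ a := Nat.mul_lt_mul_of_pos_left h2 hpv
        _ = p ^ a * p ^ v := mul_comm _ _
    exact lt_irrefl _ h3
  · have h1 := Finset.card_le_card hsub
    have h3 : p ^ a * p ^ v ≤ p ^ v * Nat.card ↥K := by
      calc p ^ a * p ^ v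
          ≤ Nat.card ↥CP * ((Finset.univ : Finset ↥(P : Subgroup G)).image f).card := hcount
        _ ≤ p ^ v * Nat.card ↥K := Nat.mul_le_mul hCP (h1.trans hT)
    rw [mul_comm (p ^ a)] at h3
    exact Nat.le_of_mul_le_mul_left h3 hpv

theorem no_unique (hcam : Cam N) (p : ℕ) [hp : Fact p.Prime] (hpN : p ∣ Nat.card N)
    (P : Sylow p G) {g : G} (hgP : g ∈ P) (hg : g ∉ N)
    (hc : ∀ x ∈ P, g⁻¹ * (x * g * x⁻¹) ∈ N)
    (huniq : ∀ a ∈ P, a ∉ N → ∃ k : ℤ, a ^ k * g⁻¹ ∈ N) : False := by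
  classical
  obtain ⟨hA, hcard⟩ := lemA hcam p P hgP hg hc
  have ha1 : 1 ≤ (Nat.card N).factorization p :=
    hp.out.factorization_pos_of_dvd Nat.card_pos.ne' hpN
  let g' : ↥(P : Subgroup G) := ⟨g, hgP⟩
  let K' : Subgroup ↥(P : Subgroup G) := N.subgroupOf (P : Subgroup G)
  haveI hK'n : K'.Normal := Subgroup.normal_subgroupOf
  let C' : Subgroup ↥(P : Subgroup G) := Subgroup.centralizer ({g'} : Set ↥(P : Subgroup G))
  have hPt : IsPGroup p ↥(P : Subgroup G) := P.isPGroup'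
  have hmemK : ∀ x : ↥(P : Subgroup G), x ∈ K' ↔ (x : G) ∈ N := fun x => Subgroup.mem_subgroupOf
  -- K' nontrivial
  have hKne : ∃ c : ↥(P : Subgroup G), c ∈ K' ∧ c ≠ 1 := by
    have h2 : 1 < Nat.card ↥((P : Subgroup G) ⊓ N) := by
      have : p ^ 1 ≤ p ^ (Nat.card N).factorization p := Nat.pow_le_pow_right hp.out.pos ha1
      have h3 := hp.out.two_le
      rw [pow_one] at this
      omega
    rw [Subgroup.one_lt_card_iff_ne_bot, Subgroup.ne_bot_iff_exists_ne_one] at h2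
    obtain ⟨⟨c, hc1⟩, hc2⟩ := h2
    have hc1' := Subgroup.mem_inf.mp hc1
    refine ⟨⟨c, hc1'.1⟩, (hmemK _).2 hc1'.2, ?_⟩
    intro h
    apply hc2
    have h3 : (c : G) = 1 := congrArg (fun t : ↥(P : Subgroup G) => (t : G)) h
    exact Subtype.ext h3
  have hK'card : p ∣ Nat.card ↥K' := by
    obtain ⟨n, hn⟩ := IsPGroup.iff_card.mp (hPt.to_subgroup K')
    obtain ⟨c, hcK, hc1⟩ := hKne
    have hn0 : n ≠ 0 := by
      rintro rfl
      rw [pow_zero] at hn
      have hbot : K' = ⊥ := (Subgroup.card_eq_one).mp hn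
      rw [hbot, Subgroup.mem_bot] at hcK
      exact hc1 hcK
    rw [hn]
    exact dvd_pow_self p hn0
  -- a nontrivial fixed point
  have hfix := (show IsPGroup p (ConjAct ↥(P : Subgroup G)) from hPt).card_modEq_card_fixedPoints (↥K')
  have hfd : p ∣ Nat.card (MulAction.fixedPoints (ConjAct ↥(P : Subgroup G)) ↥K') :=
    (hfix.dvd_iff dvd_rfl).mp hK'card
  have h1fix : (1 : ↥K') ∈ MulAction.fixedPoints (ConjAct ↥(P : Subgroup G)) ↥K' := by
    intro h; exact smul_one h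
  haveI : Nonempty (MulAction.fixedPoints (ConjAct ↥(P : Subgroup G)) ↥K') := ⟨⟨1, h1fix⟩⟩
  have h2le : 1 < Nat.card (MulAction.fixedPoints (ConjAct ↥(P : Subgroup G)) ↥K') := by
    have := Nat.le_of_dvd Nat.card_pos hfd
    have h3 := hp.out.two_le
    omega
  haveI := (Finite.one_lt_card_iff_nontrivial).mp h2le
  obtain ⟨⟨z, hzfix⟩, hzne⟩ := exists_ne (⟨1, h1fix⟩ : MulAction.fixedPoints (ConjAct ↥(P : Subgroup G)) ↥K')
  have hz1 : z ≠ 1 := by
    intro h; apply hzne; exact Subtype.ext h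
  have hzg : g' * (z : ↥(P : Subgroup G)) * g'⁻¹ = (z : ↥(P : Subgroup G)) := by
    have h := hzfix (ConjAct.toConjAct g')
    have h2 : ((ConjAct.toConjAct g' • z : ↥K') : ↥(P : Subgroup G)) = (z : ↥(P : Subgroup G)) :=
      congrArg Subtype.val h
    have h3 : ((ConjAct.toConjAct g' • z : ↥K') : ↥(P : Subgroup G))
        = ConjAct.toConjAct g' • (z : ↥(P : Subgroup G)) := rfl
    rw [h3, ConjAct.toConjAct_smul] at h2
    exact h2
  -- the map ψ
  let ψ : ↥K' → ↥K' := fun n =>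
    ⟨g'⁻¹ * (n : ↥(P : Subgroup G)) * g' * (n : ↥(P : Subgroup G))⁻¹, by
      have h1 := hK'n.conj_mem n.1 n.2 g'⁻¹
      rw [inv_inv] at h1
      exact K'.mul_mem h1 (K'.inv_mem n.2)⟩
  have hψ : ¬ Function.Surjective ψ := by
    rw [← Finite.injective_iff_surjective]
    intro hinj
    apply hz1
    apply hinj
    apply Subtype.ext
    show g'⁻¹ * (z : ↥(P : Subgroup G)) * g' * (z : ↥(P : Subgroup G))⁻¹
      = g'⁻¹ * ((1 : ↥K') : ↥(P : Subgroup G)) * g' * ((1 : ↥K') : ↥(P : Subgroup G))⁻¹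
    have e : g'⁻¹ * (z : ↥(P : Subgroup G)) * g' = (z : ↥(P : Subgroup G)) := by
      calc g'⁻¹ * (z : ↥(P : Subgroup G)) * g'
          = g'⁻¹ * (g' * (z : ↥(P : Subgroup G)) * g'⁻¹) * g' := by rw [hzg]
        _ = (z : ↥(P : Subgroup G)) := by group
    rw [e]
    simp
  obtain ⟨c₀, hc₀⟩ : ∃ c₀ : ↥K', ∀ n : ↥K', ψ n ≠ c₀ := by
    by_contra h
    push_neg at h
    exact hψ h
  have hA' : ∀ c : ↥K', ∃ x : ↥(P : Subgroup G), x * g' * x⁻¹ = g' * (c : ↥(P : Subgroup G)) := by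
    intro c
    obtain ⟨x, hxP, hx⟩ := hA (c : ↥(P : Subgroup G)) (Subgroup.mem_inf.mpr ⟨c.1.2, (hmemK _).1 c.2⟩)
    exact ⟨⟨x, hxP⟩, Subtype.ext hx⟩
  have hCmem : ∀ c : ↥(P : Subgroup G), c ∈ C' ↔ g' * c = c * g' := by
    intro c
    show c ∈ Subgroup.centralizer _ ↔ _
    rw [Subgroup.mem_centralizer_iff]
    simp only [Set.mem_singleton_iff, forall_eq]
  obtain ⟨x₀, hx₀⟩ := hA' c₀
  have hx₀H : x₀ ∉ K' ⊔ C' := by
    intro h
    have h' : x₀ ∈ (↑(K' ⊔ C') : Set ↥(P : Subgroup G)) := h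
    rw [Subgroup.normal_mul] at h'
    obtain ⟨n, hn, c, hcC, rfl⟩ := h'
    have hcc := (hCmem c).1 hcC
    apply hc₀ ⟨n, hn⟩
    apply Subtype.ext
    show g'⁻¹ * n * g' * n⁻¹ = (c₀ : ↥(P : Subgroup G))
    have e1 : n * c * g' * (n * c)⁻¹ = n * g' * n⁻¹ := by
      calc n * c * g' * (n * c)⁻¹ = n * (c * g') * c⁻¹ * n⁻¹ := by group
        _ = n * (g' * c) * c⁻¹ * n⁻¹ := by rw [hcc]
        _ = n * g' * n⁻¹ := by group
    rw [e1] at hx₀
    calc g'⁻¹ * n * g' * n⁻¹ = g'⁻¹ * (n * g' * n⁻¹) := by group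
      _ = g'⁻¹ * (g' * (c₀ : ↥(P : Subgroup G))) := by rw [hx₀]
      _ = (c₀ : ↥(P : Subgroup G)) := by group
  obtain ⟨M, hM, hHM⟩ := (eq_top_or_exists_le_coatom (K' ⊔ C')).resolve_left
    (by intro h; exact hx₀H (h ▸ Subgroup.mem_top _))
  haveI : Group.IsNilpotent ↥(P : Subgroup G) := hPt.isNilpotent
  have hMn : M.Normal := Subgroup.NormalizerCondition.normal_of_coatom M normalizerCondition_of_isNilpotent hM
  have hall : ∀ a : ↥(P : Subgroup G), a ∈ M := by
    intro a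
    by_cases ha : (a : G) ∈ N
    · exact hHM (Subgroup.mem_sup_left ((hmemK a).2 ha))
    · obtain ⟨k, hk⟩ := huniq a a.2 ha
      have hcmem : g'⁻¹ * a ^ k ∈ K' := by
        rw [hmemK]
        have h1 := (inferInstance : N.Normal).conj_mem _ hk g⁻¹
        rw [inv_inv] at h1
        have e : g⁻¹ * ((a : G) ^ k * g⁻¹) * g = g⁻¹ * (a : G) ^ k := by group
        rw [e] at h1
        simpa using h1
      obtain ⟨x, hx⟩ := hA' ⟨g'⁻¹ * a ^ k, hcmem⟩
      have hx' : x * g' * x⁻¹ = a ^ k := by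
        rw [hx]
        show g' * (g'⁻¹ * a ^ k) = a ^ k
        rw [mul_inv_cancel_left]
      have hyk : (x⁻¹ * a * x) ^ k = g' := by
        have e : x⁻¹ * a * x = x⁻¹ * a * x⁻¹⁻¹ := by rw [inv_inv]
        rw [e, conj_zpow, ← hx', inv_inv]
        group
      have hy : x⁻¹ * a * x ∈ C' := by
        rw [hCmem]
        have hcm := ((Commute.refl (x⁻¹ * a * x)).zpow_left k).eq
        rw [hyk] at hcm
        exact hcm
      have := hMn.conj_mem _ (hHM (Subgroup.mem_sup_right hy)) x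
      have e : x * (x⁻¹ * a * x) * x⁻¹ = a := by group
      rwa [e] at this
  exact hM.1 (eq_top_iff.mpr fun a _ => hall a)

end Cfsg.Agent.Lib.Helper10.Camina
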