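import Mathlib

set_option autoImplicit false

namespace Cfsg.Agent.Lib.Helper10.Camina

theorem geom_zero {A : Type*} [AddCommGroup A] (γ : AddMonoid.End A) (p : ℕ) (hγ : γ ^ p = 1)
    (hfpf : ∀ w, γ w = w → w = 0) : ∑ k ∈ Finset.range p, γ ^ k = 0 := by
  have h := mul_geom_sum γ p
  rw [hγ, sub_self] at h
  ext w
  apply hfpf
  have h2 := congrArg (fun f : AddMonoid.End A => f w) h
  have h3 : γ ((∑ k ∈ Finset.range p, γ ^ k) w) - (∑ k ∈ Finset.range p, γ ^ k) w = 0 := h2
  exact sub_eq_zero.mp h3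

theorem E_abs {A : Type*} [AddCommGroup A] [Finite A] (p : ℕ) (hp : p.Prime)
    (hcop : (Nat.card A).Coprime p)
    (α β : AddMonoid.End A) (hc : Commute α β) (hα : α ^ p = 1) (hβ : β ^ p = 1)
    (hfpf : ∀ i j : ℕ, ¬ (p ∣ i ∧ p ∣ j) → ∀ w, (α ^ i * β ^ j) w = w → w = 0) :
    ∀ w : A, w = 0 := by
  have h1 : ∀ i : ℕ, ∑ k ∈ Finset.range p, (α ^ i * β) ^ k = 0 := by
    intro i
    apply geom_zero
    · rw [(hc.pow_left i).mul_pow, ← pow_mul, mul_comm i p, pow_mul, hα, one_pow, hβ, mul_one]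
    · intro w hw
      apply hfpf i 1 _ w
      · rwa [pow_one]
      · rintro ⟨-, h⟩
        exact hp.one_lt.ne' (Nat.dvd_one.mp h)
  have h2 : ∀ k ∈ Finset.range p, k ≠ 0 → ∑ i ∈ Finset.range p, (α ^ k) ^ i = 0 := by
    intro k hk hk0
    apply geom_zero
    · rw [← pow_mul, mul_comm, pow_mul, hα, one_pow]
    · intro w hw
      apply hfpf k 0 _ w
      · rwa [pow_zero, mul_one]
      · rintro ⟨h, -⟩
        exact hk0 (Nat.eq_zero_of_dvd_of_lt h (Finset.mem_range.mp hk))
  have h3 : (∑ i ∈ Finset.range p, ∑ k ∈ Finset.range p, (α ^ i * β) ^ k)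
      = (p : AddMonoid.End A) := by
    rw [Finset.sum_comm]
    have : ∀ k ∈ Finset.range p, ∑ i ∈ Finset.range p, (α ^ i * β) ^ k
        = if k = 0 then (p : AddMonoid.End A) else 0 := by
      intro k hk
      have e : ∀ i, (α ^ i * β) ^ k = (α ^ k) ^ i * β ^ k := by
        intro i
        rw [(hc.pow_left i).mul_pow, ← pow_mul, ← pow_mul, mul_comm]
      simp only [e]
      rw [← Finset.sum_mul]
      split_ifs with hk0
      · subst hk0; simp
      · rw [h2 k hk hk0, zero_mul]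
    rw [Finset.sum_congr rfl this, Finset.sum_ite_eq']
    simp [hp.pos]
  have h4 : (p : AddMonoid.End A) = 0 := by
    rw [← h3]; exact Finset.sum_eq_zero (fun i _ => h1 i)
  intro w
  have h5 : p • w = 0 := by
    have := congrArg (fun f : AddMonoid.End A => f w) h4
    simpa using this
  have h6 : addOrderOf w ∣ p := addOrderOf_dvd_of_nsmul_eq_zero h5
  have h7 : addOrderOf w ∣ Nat.card A := addOrderOf_dvd_natCard w
  have h8 : addOrderOf w = 1 := Nat.Coprime.eq_one_of_dvd (hcop.coprime_dvd_left h7) h6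
  exact AddMonoid.addOrderOf_eq_one_iff.mp h8

theorem E_hom {M W : Type*} [Group M] [Group W] [Finite W] (hcomm : ∀ x y : W, x * y = y * x)
    (f : M →* MulAut W) (p : ℕ) (hp : p.Prime) (hcop : (Nat.card W).Coprime p) (a b : M)
    (hab : f (a * b) = f (b * a)) (ha : f (a ^ p) = 1) (hb : f (b ^ p) = 1)
    (hfpf : ∀ i j : ℕ, ¬ (p ∣ i ∧ p ∣ j) → ∀ w, f (a ^ i * b ^ j) w = w → w = 1) :
    ∀ w : W, w = 1 := by
  letI : CommGroup W := { (inferInstance : Group W) with mul_comm := hcomm }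
  let T : MulAut W →* AddMonoid.End (Additive W) :=
    { toFun := fun φ => MonoidHom.toAdditive φ.toMonoidHom
      map_one' := rfl
      map_mul' := fun _ _ => rfl }
  have hT : ∀ (φ : MulAut W) (w : Additive W), T φ w = Additive.ofMul (φ w.toMul) := fun _ _ => rfl
  have key := E_abs (A := Additive W) p hp hcop (T (f a)) (T (f b))
    (by show T (f a) * T (f b) = T (f b) * T (f a)
        rw [← map_mul, ← map_mul, ← map_mul, ← map_mul, hab])
    (by rw [← map_pow, ← map_pow, ha, map_one])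
    (by rw [← map_pow, ← map_pow, hb, map_one])
    (by
      intro i j hij w hw
      rw [← map_pow, ← map_pow, ← map_pow, ← map_pow, ← map_mul, ← map_mul, hT] at hw
      have := hfpf i j hij w.toMul (congrArg Additive.toMul hw)
      exact congrArg Additive.ofMul this)
  intro w
  exact congrArg Additive.toMul (key (Additive.ofMul w))

theorem E_conc {G : Type*} [Group G] (W : Subgroup G) [Finite W]
    (hWab : ∀ x ∈ W, ∀ y ∈ W, x * y = y * x) (p : ℕ) (hp : p.Prime)
    (hcop : (Nat.card W).Coprime p) (a b : G)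
    (ha : a ∈ Subgroup.normalizer (W : Set G)) (hb : b ∈ Subgroup.normalizer (W : Set G))
    (hap : ∀ w ∈ W, a ^ p * w * (a ^ p)⁻¹ = w) (hbp : ∀ w ∈ W, b ^ p * w * (b ^ p)⁻¹ = w)
    (hab : ∀ w ∈ W, (a * b) * w * (a * b)⁻¹ = (b * a) * w * (b * a)⁻¹)
    (hfpf : ∀ i j : ℕ, ¬ (p ∣ i ∧ p ∣ j) → ∀ w ∈ W,
      (a ^ i * b ^ j) * w * (a ^ i * b ^ j)⁻¹ = w → w = 1) :
    W = ⊥ := by
  let a' : ↥(Subgroup.normalizer (W : Set G)) := ⟨a, ha⟩
  let b' : ↥(Subgroup.normalizer (W : Set G)) := ⟨b, hb⟩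
  have hf : ∀ (s : ↥(Subgroup.normalizer (W : Set G))) (w : ↥W),
      ((W.normalizerMonoidHom s w : ↥W) : G) = s * w * (s : G)⁻¹ := fun _ _ => rfl
  have key := E_hom (W := ↥W) (fun x y => Subtype.ext (hWab x x.2 y y.2)) W.normalizerMonoidHom
    p hp hcop a' b'
    (by
      apply MulEquiv.ext; intro w; apply Subtype.ext
      rw [hf, hf]; exact hab w w.2)
    (by apply MulEquiv.ext; intro w; apply Subtype.ext; rw [hf]; exact hap w w.2)
    (by apply MulEquiv.ext; intro w; apply Subtype.ext; rw [hf]; exact hbp w w.2)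
    (by
      intro i j hij w hw
      have := congrArg Subtype.val hw
      rw [hf] at this
      exact Subtype.ext (hfpf i j hij w w.2 this))
  rw [Subgroup.eq_bot_iff_forall]
  intro x hx
  exact congrArg Subtype.val (key ⟨x, hx⟩)

end Cfsg.Agent.Lib.Helper10.Camina
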