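import Mathlib
import Cfsg.Agent.Lib.Helper10.Camina2
import Cfsg.Agent.Lib.Helper10.Camina3

set_option autoImplicit false

namespace Cfsg.Agent.Lib.Helper10.Camina

open scoped Pointwise

variable {G : Type*} [Group G] [Finite G] {N : Subgroup G} [N.Normal]

/-- Two commuting elements of order `p` generating a noncyclic group. -/
def HasKlein (p : ℕ) (Q : Type*) [Group Q] : Prop :=
  ∃ a b : Q, orderOf a = p ∧ orderOf b = p ∧ Commute a b ∧ b ∉ Subgroup.zpowers a

theorem klein_in_sylow {Q : Type*} [Group Q] [Finite Q] (p : ℕ) [hp : Fact p.Prime]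
    (hK : HasKlein p Q) (Sb : Sylow p Q) :
    ∃ a b : Q, a ∈ (Sb : Subgroup Q) ∧ b ∈ (Sb : Subgroup Q) ∧ orderOf a = p ∧ orderOf b = p ∧
      Commute a b ∧ b ∉ Subgroup.zpowers a := by
  obtain ⟨a, b, ha, hb, hc, hnz⟩ := hK
  have hza : IsPGroup p ↥(Subgroup.zpowers a) :=
    IsPGroup.of_card (n := 1) (by rw [Nat.card_zpowers, ha, pow_one])
  have hzb : IsPGroup p ↥(Subgroup.zpowers b) :=
    IsPGroup.of_card (n := 1) (by rw [Nat.card_zpowers, hb, pow_one])
  have hle : Subgroup.zpowers a ≤ Subgroup.normalizer (Subgroup.zpowers b : Set Q) := by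
    rw [Subgroup.le_normalizer_iff]
    intro h hh k hk
    obtain ⟨m, rfl⟩ := Subgroup.mem_zpowers_iff.mp hh
    obtain ⟨n, rfl⟩ := Subgroup.mem_zpowers_iff.mp hk
    have : a ^ m * b ^ n * (a ^ m)⁻¹ = b ^ n := by
      have hcm : Commute (a ^ m) (b ^ n) := (hc.zpow_left m).zpow_right n
      rw [hcm.eq, mul_inv_cancel_right]
    rw [this]
    exact Subgroup.zpow_mem_zpowers b n
  have hE := hza.to_sup_of_normal_right' hzb hle
  obtain ⟨Q', hQ'⟩ := hE.exists_le_sylow
  obtain ⟨g, hg⟩ := MulAction.exists_smul_eq Q Q' Sb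
  have hcoe : (Sb : Subgroup Q) = MulAut.conj g • (Q' : Subgroup Q) := by
    rw [← hg, Sylow.smul_def, Sylow.pointwise_smul_def]
  have hmem : ∀ x ∈ (Q' : Subgroup Q), g * x * g⁻¹ ∈ (Sb : Subgroup Q) := by
    intro x hx
    rw [hcoe]
    exact Subgroup.smul_mem_pointwise_smul x (MulAut.conj g) (Q' : Subgroup Q) hx
  refine ⟨g * a * g⁻¹, g * b * g⁻¹,
    hmem a (hQ' (Subgroup.mem_sup_left (Subgroup.mem_zpowers a))),
    hmem b (hQ' (Subgroup.mem_sup_right (Subgroup.mem_zpowers b))), ?_, ?_, ?_, ?_⟩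
  · rw [← ha]; exact (MulAut.conj g).orderOf_eq a
  · rw [← hb]; exact (MulAut.conj g).orderOf_eq b
  · exact hc.map (MulAut.conj g)
  · intro h
    obtain ⟨m, hm⟩ := Subgroup.mem_zpowers_iff.mp h
    apply hnz
    rw [Subgroup.mem_zpowers_iff]
    refine ⟨m, ?_⟩
    rw [conj_zpow] at hm
    exact mul_left_cancel (mul_right_cancel hm)

theorem klein_of_dvd (hcam : Cam N) (p : ℕ) [hp : Fact p.Prime] (hpN : p ∣ Nat.card N)
    (hpI : p ∣ N.index) : HasKlein p (G ⧸ N) := by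
  classical
  by_contra hK
  obtain ⟨P⟩ : Nonempty (Sylow p G) := inferInstance
  let Pb : Subgroup (G ⧸ N) := (P : Subgroup G).map (QuotientGroup.mk' N)
  have hPb : IsPGroup p ↥Pb := P.isPGroup'.map _
  have hPnN : ¬ (P : Subgroup G) ≤ N := by
    intro hle
    exact P.not_dvd_index (hpI.trans (Subgroup.index_dvd_of_le hle))
  haveI : Nontrivial ↥Pb := by
    obtain ⟨x, hxP, hxN⟩ := SetLike.not_le_iff_exists.mp hPnN
    refine ⟨⟨⟨QuotientGroup.mk x, Subgroup.mem_map_of_mem _ hxP⟩, 1, ?_⟩⟩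
    intro h
    apply hxN
    have h2 : (QuotientGroup.mk x : G ⧸ N) = 1 := congrArg Subtype.val h
    exact (QuotientGroup.eq_one_iff x).mp h2
  haveI := hPb.center_nontrivial
  have hZ : IsPGroup p ↥(Subgroup.center ↥Pb) := hPb.to_subgroup _
  have hpZ : p ∣ Nat.card ↥(Subgroup.center ↥Pb) := by
    obtain ⟨n, hn⟩ := IsPGroup.iff_card.mp hZ
    have hn0 : n ≠ 0 := by
      rintro rfl
      rw [pow_zero] at hn
      have := Finite.one_lt_card (α := ↥(Subgroup.center ↥Pb))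
      omega
    rw [hn]; exact dvd_pow_self p hn0
  obtain ⟨z, hz⟩ := exists_prime_orderOf_dvd_card' p hpZ
  let gb : G ⧸ N := ((z : ↥Pb) : G ⧸ N)
  have hgb : orderOf gb = p := by
    have h1 : orderOf gb = orderOf (z : ↥Pb) := Subgroup.orderOf_coe (z : ↥Pb)
    have h2 : orderOf (z : ↥Pb) = orderOf z := Subgroup.orderOf_coe z
    rw [h1, h2, hz]
  obtain ⟨g, hgP, hg⟩ := Subgroup.mem_map.mp (z : ↥Pb).2
  have hg' : (QuotientGroup.mk g : G ⧸ N) = gb := hg
  have hgN : g ∉ N := by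
    intro h
    have h1 : gb = 1 := by rw [← hg']; exact (QuotientGroup.eq_one_iff g).mpr h
    rw [h1, orderOf_one] at hgb
    exact hp.out.one_lt.ne hgb
  have hcentral : ∀ y ∈ Pb, y * gb = gb * y := by
    intro y hy
    have := Subgroup.mem_center_iff.mp z.2 ⟨y, hy⟩
    exact congrArg Subtype.val this
  apply no_unique hcam p hpN P hgP hgN
  · intro x hx
    rw [← QuotientGroup.eq_one_iff]
    have h1 := hcentral (QuotientGroup.mk x) (Subgroup.mem_map_of_mem _ hx)
    simp only [QuotientGroup.mk_mul, QuotientGroup.mk_inv, hg']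
    rw [h1]; group
  · intro a haP haN
    set ab : G ⧸ N := QuotientGroup.mk a with hab
    have hab1 : ab ≠ 1 := fun h => haN ((QuotientGroup.eq_one_iff a).mp h)
    have habP : ab ∈ Pb := Subgroup.mem_map_of_mem _ haP
    obtain ⟨c, hc⟩ : ∃ c, orderOf ab = p ^ c := by
      obtain ⟨k, hk⟩ := (IsPGroup.iff_orderOf.mp hPb) ⟨ab, habP⟩
      exact ⟨k, by rw [← hk]; simp⟩
    have hc0 : c ≠ 0 := by
      rintro rfl
      rw [pow_zero, orderOf_eq_one_iff] at hc
      exact hab1 hc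
    let eb : G ⧸ N := ab ^ (p ^ (c - 1))
    have heb : orderOf eb = p := by
      show orderOf (ab ^ (p ^ (c - 1))) = p
      rw [orderOf_pow_of_dvd (pow_pos hp.out.pos _).ne'
        (by rw [hc]; exact pow_dvd_pow p (Nat.sub_le c 1)), hc,
        Nat.pow_div (Nat.sub_le c 1) hp.out.pos]
      have : c - (c - 1) = 1 := by omega
      rw [this, pow_one]
    have hcomm : Commute eb gb := by
      have h2 : Commute ab gb := hcentral ab habP
      exact h2.pow_left _
    have hmem : gb ∈ Subgroup.zpowers eb := by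
      by_contra hnot
      exact hK ⟨eb, gb, heb, hgb, hcomm, hnot⟩
    obtain ⟨k, hk⟩ := Subgroup.mem_zpowers_iff.mp hmem
    refine ⟨((p ^ (c - 1) : ℕ) : ℤ) * k, ?_⟩
    rw [← QuotientGroup.eq_one_iff]
    rw [QuotientGroup.mk_mul, QuotientGroup.mk_inv, QuotientGroup.mk_zpow, hg', zpow_mul,
      zpow_natCast]
    show eb ^ k * gb⁻¹ = 1
    rw [hk, mul_inv_cancel]

theorem main_contra (hcam : Cam N) (p : ℕ) [hp : Fact p.Prime] (hK : HasKlein p (G ⧸ N))
    (L : Subgroup G) (hcov : L ⊔ N = ⊤) (W : Subgroup G) (hWN : W ≤ N)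
    (hWab : ∀ x ∈ W, ∀ y ∈ W, x * y = y * x) (hW1 : W ≠ ⊥) (hWp : (Nat.card W).Coprime p)
    (hnorm : L ≤ Subgroup.normalizer (W : Set G))
    (hcent : ∀ s ∈ L, s ∈ N → (∃ k : ℕ, orderOf s = p ^ k) → ∀ w ∈ W, s * w * s⁻¹ = w) :
    False := by
  classical
  let φ : ↥L →* G ⧸ N := (QuotientGroup.mk' N).comp L.subtype
  have hφ : Function.Surjective φ := by
    intro x
    obtain ⟨g, rfl⟩ := QuotientGroup.mk_surjective x
    have hg : g ∈ (↑(L ⊔ N) : Set G) := by rw [hcov]; exact Set.mem_univ g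
    rw [Subgroup.mul_normal] at hg
    obtain ⟨l, hl, n, hn, rfl⟩ := hg
    refine ⟨⟨l, hl⟩, ?_⟩
    show (QuotientGroup.mk l : G ⧸ N) = QuotientGroup.mk (l * n)
    rw [QuotientGroup.mk_mul, (QuotientGroup.eq_one_iff n).mpr hn, mul_one]
  obtain ⟨S'⟩ : Nonempty (Sylow p ↥L) := inferInstance
  let Sb : Sylow p (G ⧸ N) := S'.mapSurjective hφ
  have hSb : (Sb : Subgroup (G ⧸ N)) = (S' : Subgroup ↥L).map φ := Sylow.coe_mapSurjective hφ S'
  obtain ⟨a', b', ha'S, hb'S, ha', hb', hc', hnz⟩ := klein_in_sylow p hK Sb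
  rw [hSb] at ha'S hb'S
  obtain ⟨a, haS, rfl⟩ := Subgroup.mem_map.mp ha'S
  obtain ⟨b, hbS, rfl⟩ := Subgroup.mem_map.mp hb'S
  have hS'p : ∀ s : ↥L, s ∈ (S' : Subgroup ↥L) → ∃ k : ℕ, orderOf (s : G) = p ^ k := by
    intro s hs
    obtain ⟨k, hk⟩ := (IsPGroup.iff_orderOf.mp S'.isPGroup') ⟨s, hs⟩
    refine ⟨k, ?_⟩
    rw [← hk]; simp
  have hφN : ∀ s : ↥L, φ s = 1 → (s : G) ∈ N :=
    fun s h => (QuotientGroup.eq_one_iff (s : G)).mp h
  have hcentS : ∀ s : ↥L, s ∈ (S' : Subgroup ↥L) → φ s = 1 →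
      ∀ w ∈ W, (s : G) * w * (s : G)⁻¹ = w :=
    fun s hs h1 => hcent s s.2 (hφN s h1) (hS'p s hs)
  have hfin : W = ⊥ := by
    apply E_conc W hWab p hp.out hWp (a : G) (b : G) (hnorm a.2) (hnorm b.2)
    · have h1 : φ (a ^ p) = 1 := by rw [map_pow, ← ha', pow_orderOf_eq_one]
      exact hcentS (a ^ p) (Subgroup.pow_mem _ haS p) h1
    · have h1 : φ (b ^ p) = 1 := by rw [map_pow, ← hb', pow_orderOf_eq_one]
      exact hcentS (b ^ p) (Subgroup.pow_mem _ hbS p) h1
    · intro w hw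
      have h1 : φ ((b * a)⁻¹ * (a * b)) = 1 := by
        rw [map_mul, map_inv, map_mul, map_mul, hc'.eq]; group
      have h2 := hcentS ((b * a)⁻¹ * (a * b))
        (Subgroup.mul_mem _ (Subgroup.inv_mem _ (Subgroup.mul_mem _ hbS haS))
          (Subgroup.mul_mem _ haS hbS)) h1 w hw
      have h3 : ((b : G) * a)⁻¹ * ((a : G) * b) * w * (((b : G) * a)⁻¹ * ((a : G) * b))⁻¹ = w := h2
      calc (a : G) * b * w * ((a : G) * b)⁻¹
          = ((b : G) * a) * (((b : G) * a)⁻¹ * ((a : G) * b) * w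
              * (((b : G) * a)⁻¹ * ((a : G) * b))⁻¹) * ((b : G) * a)⁻¹ := by group
        _ = (b : G) * a * w * ((b : G) * a)⁻¹ := by rw [h3]
    · intro i j hij w hw hfix
      have huS : a ^ i * b ^ j ∈ (S' : Subgroup ↥L) :=
        Subgroup.mul_mem _ (Subgroup.pow_mem _ haS i) (Subgroup.pow_mem _ hbS j)
      obtain ⟨k, hk⟩ := hS'p _ huS
      have huN : ((a ^ i * b ^ j : ↥L) : G) ∉ N := by
        intro hmem
        have h1 : φ (a ^ i * b ^ j) = 1 := (QuotientGroup.eq_one_iff _).mpr hmem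
        rw [map_mul, map_pow, map_pow] at h1
        by_cases hj : p ∣ j
        · have hbj : φ b ^ j = 1 := by
            apply orderOf_dvd_iff_pow_eq_one.mp
            rw [hb']; exact hj
          rw [hbj, mul_one] at h1
          have hi : p ∣ i := by
            have := orderOf_dvd_iff_pow_eq_one.mpr h1
            rwa [ha'] at this
          exact hij ⟨hi, hj⟩
        · have hcop : Nat.Coprime j (orderOf (φ b)) := by
            rw [hb']; exact (Nat.Coprime.symm ((Nat.Prime.coprime_iff_not_dvd hp.out).mpr hj))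
          obtain ⟨m, hm⟩ := exists_pow_eq_self_of_coprime hcop
          apply hnz
          have h2 : φ b ^ j = (φ a ^ i)⁻¹ := eq_inv_of_mul_eq_one_right h1
          rw [← hm, h2]
          exact Subgroup.pow_mem _ (Subgroup.inv_mem _
            (Subgroup.pow_mem _ (Subgroup.mem_zpowers _) i)) m
      have hcm : Commute ((a ^ i * b ^ j : ↥L) : G) w := mul_inv_eq_iff_eq_mul.mp hfix
      apply cam_coprime hcam huN (hWN hw) hcm
      rw [hk]
      apply Nat.Coprime.pow_left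
      exact Nat.Coprime.coprime_dvd_right (W.orderOf_dvd_natCard hw) hWp.symm
  exact hW1 hfin

end Cfsg.Agent.Lib.Helper10.Camina
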