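import Mathlib
import Cfsg.Agent.Lib.Helper1.CharSchur
import Cfsg.Agent.Lib.Helper1.CharBasic

/-!
The sum of an irreducible representation over a normal subgroup is either zero or the
subgroup acts trivially.
-/

set_option autoImplicit false
set_option linter.unusedSectionVars false
set_option linter.unusedVariables false

namespace Cfsg.Agent.Lib.Helper10.Gal2

open Cfsg.Agent.Lib.Helper1
open scoped ComplexConjugate

theorem proj_rep {G : Type*} [Group G] {V : Type*} [AddCommGroup V] [Module ℂ V]
    [FiniteDimensional ℂ V] (ρ : Representation ℂ G V) [ρ.IsIrreducible] (N : Subgroup G)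
    [hN : N.Normal] [Fintype N] :
    (∑ n : N, ρ (n : G) = 0) ∨ (∀ n : N, ρ (n : G) = 1) := by
  classical
  set E : V →ₗ[ℂ] V := ∑ n : N, ρ (n : G) with hE
  have hcomm : ∀ h : G, E ∘ₗ ρ h = ρ h ∘ₗ E := by
    intro h
    rw [← Module.End.mul_eq_comp, ← Module.End.mul_eq_comp, hE, Finset.sum_mul, Finset.mul_sum]
    let e : N ≃ N := (MulAut.conjNormal (h⁻¹) : N ≃* N).toEquiv
    rw [← Equiv.sum_comp e (fun n => ρ h * ρ (n : G))]
    refine Finset.sum_congr rfl fun n _ => ?_
    have he : ((e n : N) : G) = h⁻¹ * n * h := by simp [e]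
    rw [he, ← map_mul, ← map_mul]
    congr 1
    group
  have hsc := schur_scalar ρ E hcomm
  by_cases hc : LinearMap.trace ℂ V E / (Module.finrank ℂ V : ℂ) = 0
  · left
    rw [hsc, hc, zero_smul]
  · right
    intro m
    have h1 : ρ (m : G) ∘ₗ E = E := by
      rw [← Module.End.mul_eq_comp, hE, Finset.mul_sum]
      let e : N ≃ N := Equiv.mulLeft m
      rw [← Equiv.sum_comp e (fun n => ρ (n : G))]
      refine Finset.sum_congr rfl fun n _ => ?_
      simp [e]
    rw [hsc] at h1
    rw [LinearMap.comp_smul, LinearMap.comp_id] at h1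
    exact smul_right_injective _ hc h1

theorem proj_char {G : Type*} [Group G] (N : Subgroup G) [hN : N.Normal] [Fintype N]
    {φ : G → ℂ} (hφ : Cfsg.IsIrrCharacter G φ) :
    (∀ g : G, ∑ n : N, φ ((n : G) * g) = 0) ∨ (∀ (n : N) (g : G), φ ((n : G) * g) = φ g) := by
  obtain ⟨k, ρ, hirr, rfl⟩ := hφ
  haveI := hirr
  rcases proj_rep ρ N with h | h
  · left
    intro g
    simp only [character_apply, map_mul]
    rw [← map_sum, ← Finset.sum_mul, h, zero_mul, map_zero]
  · right
    intro n g
    rw [character_apply, character_apply, map_mul, h n, one_mul]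

end Cfsg.Agent.Lib.Helper10.Gal2
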