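import Mathlib
import Cfsg.Agent.Lib.Helper1.CharSchur
import Cfsg.Agent.Lib.Helper1.CharBasic
import Cfsg.Agent.Lib.Helper1.CharEquiv
import Cfsg.Agent.Lib.Helper1.CharComplete
import Cfsg.Agent.Lib.Helper1.CharMore
import Cfsg.Agent.Lib.Helper1.CharClifford3
import Cfsg.Agent.Lib.Helper1.CharReg
import Cfsg.Agent.Lib.Helper10.Gal2
import Cfsg.Agent.S0868

/-!
A finite central extension in which an invariant irreducible representation of a normal
subgroup extends tautologically: pairs `(t, P)` with `P` implementing conjugation by `t`.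
-/

set_option autoImplicit false
set_option linter.unusedSectionVars false
set_option linter.unusedVariables false

namespace Cfsg.Agent.Lib.Helper10.CentExt

open Cfsg.Agent.Lib.Helper1
open scoped ComplexConjugate

universe u

section irr

variable {G H : Type*} [Monoid G] [Monoid H] {V : Type*} [AddCommGroup V] [Module ℂ V]

theorem irr_of_comp (ρ : Representation ℂ G V) (f : H →* G)
    (h : Representation.IsIrreducible (ρ.comp f)) : ρ.IsIrreducible := by
  have hnt := h.toNontrivial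
  refine { exists_pair_ne := ?_, eq_bot_or_eq_top := ?_ }
  · obtain ⟨a, b, hab⟩ := hnt.exists_pair_ne
    refine ⟨⊥, ⊤, ?_⟩
    intro hbt
    apply hab
    apply Subrepresentation.toSubmodule_injective
    have h1 : (⊥ : Submodule ℂ V) = ⊤ := congrArg Subrepresentation.toSubmodule hbt
    have h2 : ∀ s : Submodule ℂ V, s = ⊥ := fun s => le_antisymm (by rw [h1]; exact le_top) bot_le
    rw [h2 a.toSubmodule, h2 b.toSubmodule]
  · intro σ
    let σ' : Subrepresentation (ρ.comp f) :=
      ⟨σ.toSubmodule, fun g v hv => σ.apply_mem_toSubmodule (f g) hv⟩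
    rcases h.eq_bot_or_eq_top σ' with h1 | h1
    · left
      apply Subrepresentation.toSubmodule_injective
      have h2 : σ'.toSubmodule = (⊥ : Submodule ℂ V) := congrArg Subrepresentation.toSubmodule h1
      exact h2
    · right
      apply Subrepresentation.toSubmodule_injective
      have h2 : σ'.toSubmodule = (⊤ : Submodule ℂ V) := congrArg Subrepresentation.toSubmodule h1
      exact h2

theorem irr_comp_surj (ρ : Representation ℂ G V) (f : H →* G) (hf : Function.Surjective f)
    (h : ρ.IsIrreducible) : Representation.IsIrreducible (ρ.comp f) := by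
  have hnt := h.toNontrivial
  refine { exists_pair_ne := ?_, eq_bot_or_eq_top := ?_ }
  · obtain ⟨a, b, hab⟩ := hnt.exists_pair_ne
    refine ⟨⊥, ⊤, ?_⟩
    intro hbt
    apply hab
    apply Subrepresentation.toSubmodule_injective
    have h1 : (⊥ : Submodule ℂ V) = ⊤ := congrArg Subrepresentation.toSubmodule hbt
    have h2 : ∀ s : Submodule ℂ V, s = ⊥ := fun s => le_antisymm (by rw [h1]; exact le_top) bot_le
    rw [h2 a.toSubmodule, h2 b.toSubmodule]
  · intro σ
    let σ' : Subrepresentation ρ :=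
      ⟨σ.toSubmodule, fun g v hv => by
        obtain ⟨x, rfl⟩ := hf g
        exact σ.apply_mem_toSubmodule x hv⟩
    rcases h.eq_bot_or_eq_top σ' with h1 | h1
    · left
      apply Subrepresentation.toSubmodule_injective
      have h2 : σ'.toSubmodule = (⊥ : Submodule ℂ V) := congrArg Subrepresentation.toSubmodule h1
      exact h2
    · right
      apply Subrepresentation.toSubmodule_injective
      have h2 : σ'.toSubmodule = (⊤ : Submodule ℂ V) := congrArg Subrepresentation.toSubmodule h1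
      exact h2

end irr

section ext

variable {T : Type u} [Group T] (M : Subgroup T) [hM : M.Normal]
  {d : ℕ} (Y : Representation ℂ M (Fin d → ℂ))

/-- Pairs `(t, P)` with `P` implementing conjugation by `t` on `Y`, `det P` of order
dividing `K`. -/
def Gam (K : ℕ) : Subgroup (T × (Module.End ℂ (Fin d → ℂ))ˣ) where
  carrier := {x | (∀ m : M, (x.2 : Module.End ℂ (Fin d → ℂ)) * Y m =
      Y (MulAut.conjNormal x.1 m) * (x.2 : Module.End ℂ (Fin d → ℂ))) ∧
    LinearMap.det (x.2 : Module.End ℂ (Fin d → ℂ)) ^ K = 1}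
  mul_mem' := by
    rintro a b ⟨ha1, ha2⟩ ⟨hb1, hb2⟩
    refine ⟨fun m => ?_, ?_⟩
    · have e1 : MulAut.conjNormal (a * b).1 m =
          MulAut.conjNormal a.1 (MulAut.conjNormal b.1 m) := by
        rw [Prod.fst_mul, map_mul, MulAut.mul_apply]
      rw [e1, Prod.snd_mul, Units.val_mul, mul_assoc, hb1 m, ← mul_assoc, ha1, mul_assoc]
    · rw [Prod.snd_mul, Units.val_mul, map_mul, mul_pow, ha2, hb2, one_mul]
  one_mem' := by
    refine ⟨fun m => ?_, ?_⟩
    · simp
    · simp
  inv_mem' := by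
    rintro a ⟨ha1, ha2⟩
    refine ⟨fun m => ?_, ?_⟩
    · have h := ha1 (MulAut.conjNormal a⁻¹.1 m)
      have e1 : MulAut.conjNormal a.1 (MulAut.conjNormal a⁻¹.1 m) = m := by
        rw [Prod.fst_inv, map_inv]
        simp
      rw [e1] at h
      rw [Prod.snd_inv]
      calc (↑(a.2⁻¹) : Module.End ℂ (Fin d → ℂ)) * Y m
          = ↑(a.2⁻¹) * (Y m * ↑a.2) * ↑(a.2⁻¹) := by
            rw [mul_assoc, mul_assoc, Units.mul_inv, mul_one]
        _ = ↑(a.2⁻¹) * (↑a.2 * Y (MulAut.conjNormal a⁻¹.1 m)) * ↑(a.2⁻¹) := by rw [h]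
        _ = Y (MulAut.conjNormal a⁻¹.1 m) * ↑(a.2⁻¹) := by
            rw [← mul_assoc, Units.inv_mul, one_mul]
    · rw [Prod.snd_inv]
      have h1 : LinearMap.det (↑(a.2⁻¹) : Module.End ℂ (Fin d → ℂ)) *
          LinearMap.det (↑a.2 : Module.End ℂ (Fin d → ℂ)) = 1 := by
        rw [← map_mul, Units.inv_mul, map_one]
      have h2 := congrArg (· ^ K) h1
      simp only [mul_pow, ha2, mul_one, one_pow] at h2
      exact h2

theorem mem_Gam (K : ℕ) (x : T × (Module.End ℂ (Fin d → ℂ))ˣ) :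
    x ∈ Gam M Y K ↔ (∀ m : M, (x.2 : Module.End ℂ (Fin d → ℂ)) * Y m =
      Y (MulAut.conjNormal x.1 m) * (x.2 : Module.End ℂ (Fin d → ℂ))) ∧
    LinearMap.det (x.2 : Module.End ℂ (Fin d → ℂ)) ^ K = 1 := Iff.rfl

/-- Schur: an endomorphism commuting with an irreducible `Y` is a scalar. -/
theorem scalar_of_comm [hY : Y.IsIrreducible] (u : Module.End ℂ (Fin d → ℂ))
    (h : ∀ m : M, u * Y m = Y m * u) : ∃ c : ℂ, u = c • (1 : Module.End ℂ (Fin d → ℂ)) :=
  ⟨_, schur_scalar Y u h⟩

theorem exists_P [Finite M] [hY : Y.IsIrreducible]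
    (hinv : ∀ (t : T) (m : M), Y.character (MulAut.conjNormal t m) = Y.character m) (t : T) :
    ∃ P : (Module.End ℂ (Fin d → ℂ))ˣ, (∀ m : M, (P : Module.End ℂ (Fin d → ℂ)) * Y m =
      Y (MulAut.conjNormal t m) * (P : Module.End ℂ (Fin d → ℂ))) ∧
      LinearMap.det (P : Module.End ℂ (Fin d → ℂ)) = 1 := by
  haveI : Fintype M := Fintype.ofFinite M
  have hV := nontrivial_of_isIrreducible Y
  let Yt : Representation ℂ M (Fin d → ℂ) := Y.comp (MulAut.conjNormal t : M ≃* M).toMonoidHom
  have hchar : Y.character = Yt.character := by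
    funext m
    exact (hinv t m).symm
  obtain ⟨φ⟩ := equiv_of_char_eq Y Yt hchar
  have hint : ∀ m : M, (φ.toIntertwiningMap.toLinearMap : Module.End ℂ (Fin d → ℂ)) * Y m =
      Y (MulAut.conjNormal t m) * φ.toIntertwiningMap.toLinearMap :=
    fun m => φ.toIntertwiningMap.isIntertwining' m
  have hdet : LinearMap.det (φ.toIntertwiningMap.toLinearMap) ≠ 0 :=
    (LinearEquiv.isUnit_det' φ.toLinearEquiv).ne_zero
  have hpos : 0 < Module.finrank ℂ (Fin d → ℂ) := Module.finrank_pos
  obtain ⟨c, hc⟩ := IsAlgClosed.exists_pow_nat_eq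
    (LinearMap.det (φ.toIntertwiningMap.toLinearMap))⁻¹ hpos
  have hdet1 : LinearMap.det (c • φ.toIntertwiningMap.toLinearMap) = 1 := by
    rw [LinearMap.det_smul, hc, inv_mul_cancel₀ hdet]
  have hu : IsUnit (c • φ.toIntertwiningMap.toLinearMap : Module.End ℂ (Fin d → ℂ)) := by
    rw [LinearMap.isUnit_iff_isUnit_det, hdet1]
    exact isUnit_one
  refine ⟨hu.unit, fun m => ?_, ?_⟩
  · rw [IsUnit.unit_spec, smul_mul_assoc, hint m, mul_smul_comm]
  · rw [IsUnit.unit_spec]
    exact hdet1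

theorem mem_scalar [hY : Y.IsIrreducible] (K : ℕ) {x : T × (Module.End ℂ (Fin d → ℂ))ˣ}
    (hx : x ∈ Gam M Y K) {P : (Module.End ℂ (Fin d → ℂ))ˣ}
    (hP : ∀ m : M, (P : Module.End ℂ (Fin d → ℂ)) * Y m =
      Y (MulAut.conjNormal x.1 m) * (P : Module.End ℂ (Fin d → ℂ)))
    (hP1 : LinearMap.det (P : Module.End ℂ (Fin d → ℂ)) = 1) :
    ∃ c : ℂ, (x.2 : Module.End ℂ (Fin d → ℂ)) = c • (P : Module.End ℂ (Fin d → ℂ)) ∧
      c ^ (d * K) = 1 := by
  obtain ⟨hx1, hx2⟩ := hx
  have hcomm : ∀ m : M, ((↑P⁻¹ : Module.End ℂ (Fin d → ℂ)) * x.2) * Y m =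
      Y m * ((↑P⁻¹ : Module.End ℂ (Fin d → ℂ)) * x.2) := by
    intro m
    have h1 : (↑P⁻¹ : Module.End ℂ (Fin d → ℂ)) * Y (MulAut.conjNormal x.1 m) =
        Y m * ↑P⁻¹ := by
      calc (↑P⁻¹ : Module.End ℂ (Fin d → ℂ)) * Y (MulAut.conjNormal x.1 m)
          = ↑P⁻¹ * (Y (MulAut.conjNormal x.1 m) * ↑P) * ↑P⁻¹ := by
            rw [mul_assoc, mul_assoc, Units.mul_inv, mul_one]
        _ = ↑P⁻¹ * (↑P * Y m) * ↑P⁻¹ := by rw [hP m]
        _ = Y m * ↑P⁻¹ := by rw [← mul_assoc, Units.inv_mul, one_mul]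
    rw [mul_assoc, hx1 m, ← mul_assoc, h1, mul_assoc]
  obtain ⟨c, hc⟩ := scalar_of_comm M Y _ hcomm
  have hxP : (x.2 : Module.End ℂ (Fin d → ℂ)) = c • (P : Module.End ℂ (Fin d → ℂ)) := by
    calc (x.2 : Module.End ℂ (Fin d → ℂ)) = ↑P * (↑P⁻¹ * x.2) := by
          rw [← mul_assoc, Units.mul_inv, one_mul]
      _ = c • ↑P := by rw [hc, mul_smul_comm, mul_one]
  refine ⟨c, hxP, ?_⟩
  rw [hxP, LinearMap.det_smul, hP1, mul_one, Module.finrank_fin_fun, ← pow_mul] at hx2
  exact hx2

theorem finite_Gam [Finite T] [hY : Y.IsIrreducible]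
    (hinv : ∀ (t : T) (m : M), Y.character (MulAut.conjNormal t m) = Y.character m) (K : ℕ)
    (hK : 0 < K) : Finite (Gam M Y K) := by
  classical
  haveI : Fintype M := Fintype.ofFinite M
  have hV := nontrivial_of_isIrreducible Y
  have hd : 0 < d := by
    have := Module.finrank_pos (R := ℂ) (M := Fin d → ℂ)
    rwa [Module.finrank_fin_fun] at this
  choose Pf hPf1 hPf2 using exists_P M Y hinv
  have hex : ∀ x : Gam M Y K, ∃ c : ℂ, ((x : T × (Module.End ℂ (Fin d → ℂ))ˣ).2 :
      Module.End ℂ (Fin d → ℂ)) =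
        c • (Pf (x : T × (Module.End ℂ (Fin d → ℂ))ˣ).1 : Module.End ℂ (Fin d → ℂ)) ∧
      c ^ (d * K) = 1 :=
    fun x => mem_scalar M Y K x.2 (hPf1 _) (hPf2 _)
  choose cf hcf1 hcf2 using hex
  let S : Finset ℂ := Polynomial.nthRootsFinset (d * K) (1 : ℂ)
  let φ : Gam M Y K → T × S := fun x => ((x : T × (Module.End ℂ (Fin d → ℂ))ˣ).1,
    ⟨cf x, (Polynomial.mem_nthRootsFinset (Nat.mul_pos hd hK) 1).mpr (hcf2 x)⟩)
  have hφ : Function.Injective φ := by
    intro x y hxy
    have h1 : (x : T × (Module.End ℂ (Fin d → ℂ))ˣ).1 = (y : T × (Module.End ℂ (Fin d → ℂ))ˣ).1 :=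
      congrArg (fun p : T × S => p.1) hxy
    have h2 : cf x = cf y := congrArg (fun p : T × S => (p.2 : ℂ)) hxy
    apply Subtype.ext
    apply Prod.ext h1
    apply Units.ext
    rw [hcf1 x, hcf1 y, h1, h2]
  exact Finite.of_injective φ hφ

/-- The copy of `M` in the extension. -/
noncomputable def iota : M →* Gam M Y (Nat.card M) where
  toFun m := ⟨((m : T), MonoidHom.toHomUnits Y m), by
    refine ⟨fun m' => ?_, ?_⟩
    · have e1 : MulAut.conjNormal (m : T) m' = m * m' * m⁻¹ := by
        apply Subtype.ext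
        simp [MulAut.conjNormal_apply]
      simp only [MonoidHom.coe_toHomUnits]
      rw [e1, ← map_mul, ← map_mul]
      congr 1
      group
    · simp only [MonoidHom.coe_toHomUnits]
      rw [← map_pow, ← map_pow, pow_card_eq_one', map_one, map_one]⟩
  map_one' := by
    apply Subtype.ext
    apply Prod.ext
    · rfl
    · show MonoidHom.toHomUnits Y 1 = 1
      rw [map_one]
  map_mul' a b := by
    apply Subtype.ext
    apply Prod.ext
    · rfl
    · show MonoidHom.toHomUnits Y (a * b) = MonoidHom.toHomUnits Y a * MonoidHom.toHomUnits Y b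
      rw [map_mul]

theorem iota_fst (m : M) : ((iota M Y m : Gam M Y (Nat.card M)) :
    T × (Module.End ℂ (Fin d → ℂ))ˣ).1 = (m : T) := rfl

theorem iota_snd (m : M) : (((iota M Y m : Gam M Y (Nat.card M)) :
    T × (Module.End ℂ (Fin d → ℂ))ˣ).2 : Module.End ℂ (Fin d → ℂ)) = Y m :=
  MonoidHom.coe_toHomUnits Y m

theorem iota_injective : Function.Injective (iota M Y) := by
  intro a b h
  have := congrArg (fun x : Gam M Y (Nat.card M) =>
    (x : T × (Module.End ℂ (Fin d → ℂ))ˣ).1) h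
  exact Subtype.ext this

/-- The projection to `T`. -/
def pr (K : ℕ) : Gam M Y K →* T := (MonoidHom.fst T _).comp (Gam M Y K).subtype

theorem pr_apply (K : ℕ) (x : Gam M Y K) :
    pr M Y K x = (x : T × (Module.End ℂ (Fin d → ℂ))ˣ).1 := rfl

theorem pr_surj [Finite M] [hY : Y.IsIrreducible]
    (hinv : ∀ (t : T) (m : M), Y.character (MulAut.conjNormal t m) = Y.character m) (K : ℕ) :
    Function.Surjective (pr M Y K) := by
  intro t
  obtain ⟨P, hP1, hP2⟩ := exists_P M Y hinv t
  exact ⟨⟨(t, P), hP1, by rw [hP2, one_pow]⟩, rfl⟩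

/-- The tautological representation. -/
def tau (K : ℕ) : Representation ℂ (Gam M Y K) (Fin d → ℂ) :=
  (Units.coeHom (Module.End ℂ (Fin d → ℂ))).comp ((MonoidHom.snd T _).comp (Gam M Y K).subtype)

theorem tau_apply (K : ℕ) (x : Gam M Y K) :
    tau M Y K x = ((x : T × (Module.End ℂ (Fin d → ℂ))ˣ).2 : Module.End ℂ (Fin d → ℂ)) := rfl

theorem tau_iota (m : M) : tau M Y (Nat.card M) (iota M Y m) = Y m := by
  rw [tau_apply]
  exact iota_snd M Y m

theorem iota_conj (γ : Gam M Y (Nat.card M)) (m : M) :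
    γ * iota M Y m * γ⁻¹ =
      iota M Y (MulAut.conjNormal (γ : T × (Module.End ℂ (Fin d → ℂ))ˣ).1 m) := by
  apply Subtype.ext
  apply Prod.ext
  · simp [iota_fst, MulAut.conjNormal_apply]
  · apply Units.ext
    have h := γ.2.1 m
    simp only [Subgroup.coe_mul, Subgroup.coe_inv, Prod.snd_mul, Prod.snd_inv, Units.val_mul,
      iota_snd]
    rw [h, mul_assoc, Units.mul_inv, mul_one]

instance iota_range_normal : (iota M Y).range.Normal := by
  constructor
  rintro n ⟨m, rfl⟩ γ
  exact ⟨_, (iota_conj M Y γ m).symm⟩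

theorem central_of_fst [hY : Y.IsIrreducible] (K : ℕ) (z : Gam M Y K)
    (hz : (z : T × (Module.End ℂ (Fin d → ℂ))ˣ).1 = 1) (γ : Gam M Y K) : z * γ = γ * z := by
  have hcomm : ∀ m : M, ((z : T × (Module.End ℂ (Fin d → ℂ))ˣ).2 : Module.End ℂ (Fin d → ℂ)) * Y m
      = Y m * ((z : T × (Module.End ℂ (Fin d → ℂ))ˣ).2 : Module.End ℂ (Fin d → ℂ)) := by
    intro m
    have h := z.2.1 m
    rw [hz] at h
    simpa using h
  obtain ⟨c, hc⟩ := scalar_of_comm M Y _ hcomm
  apply Subtype.ext
  apply Prod.ext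
  · simp [hz]
  · apply Units.ext
    simp only [Subgroup.coe_mul, Prod.snd_mul, Units.val_mul]
    rw [hc, smul_mul_assoc, mul_smul_comm, one_mul, mul_one]

theorem exists_central (a : Gam M Y (Nat.card M))
    (ha : (a : T × (Module.End ℂ (Fin d → ℂ))ˣ).1 ∈ M) :
    ∃ (m : M) (z : Gam M Y (Nat.card M)),
      (z : T × (Module.End ℂ (Fin d → ℂ))ˣ).1 = 1 ∧ a = iota M Y m * z := by
  refine ⟨⟨_, ha⟩, (iota M Y ⟨_, ha⟩)⁻¹ * a, ?_, by group⟩
  simp [iota_fst]

end ext

section main

variable {T : Type u} [Group T] [Fintype T] (M : Subgroup T) [hM : M.Normal] [Fintype M]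

/-- The invariant case: if `ψ_M = e ϑ` with `ϑ` invariant then `e` divides `[T : M]`. -/
theorem inv_case (ψ : T → ℂ) (hψ : Cfsg.IsIrrCharacter T ψ) (ϑ : M → ℂ)
    (hϑ : Cfsg.IsIrrCharacter M ϑ)
    (hinv : ∀ (t : T) (m : M), ϑ ⟨t * m * t⁻¹, hM.conj_mem m m.2 t⟩ = ϑ m)
    (e : ℕ) (he : Cfsg.classInner (fun m : M => ψ m) ϑ = e) (he0 : e ≠ 0) : e ∣ M.index := by
  classical
  obtain ⟨d, Y, hYirr, rfl⟩ := hϑ
  haveI := hYirr
  have hinv' : ∀ (t : T) (m : M), Y.character (MulAut.conjNormal t m) = Y.character m := by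
    intro t m
    have e1 : MulAut.conjNormal t m = ⟨t * m * t⁻¹, hM.conj_mem m m.2 t⟩ :=
      Subtype.ext (by simp [MulAut.conjNormal_apply])
    rw [e1]
    exact hinv t m
  have hKpos : 0 < Nat.card M := Nat.card_pos
  haveI hfin : Finite (Gam M Y (Nat.card M)) := finite_Gam M Y hinv' _ hKpos
  haveI : Fintype (Gam M Y (Nat.card M)) := Fintype.ofFinite _
  have hπ : Function.Surjective (pr M Y (Nat.card M)) := pr_surj M Y hinv' _
  have hτirr : (tau M Y (Nat.card M)).IsIrreducible :=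
    irr_of_comp (tau M Y (Nat.card M)) (iota M Y) (by
      have : (tau M Y (Nat.card M)).comp (iota M Y) = Y := MonoidHom.ext (tau_iota M Y)
      rw [this]
      exact hYirr)
  haveI : Fintype (iota M Y).range := Fintype.ofFinite _
  have hχτ : Cfsg.IsIrrCharacter (Gam M Y (Nat.card M)) (tau M Y (Nat.card M)).character :=
    ⟨d, tau M Y (Nat.card M), hτirr, rfl⟩
  have hχτN : Cfsg.IsIrrCharacter (iota M Y).range
      (fun n : (iota M Y).range => (tau M Y (Nat.card M)).character n) := by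
    refine ⟨d, (tau M Y (Nat.card M)).comp (iota M Y).range.subtype, ?_, rfl⟩
    apply irr_of_comp ((tau M Y (Nat.card M)).comp (iota M Y).range.subtype)
      (iota M Y).rangeRestrict
    have : ((tau M Y (Nat.card M)).comp (iota M Y).range.subtype).comp (iota M Y).rangeRestrict
        = Y := MonoidHom.ext (tau_iota M Y)
    rw [this]
    exact hYirr
  have hψπ : Cfsg.IsIrrCharacter (Gam M Y (Nat.card M)) (ψ ∘ pr M Y (Nat.card M)) := by
    obtain ⟨k, R, hR, rfl⟩ := hψ
    exact ⟨k, R.comp (pr M Y (Nat.card M)), irr_comp_surj R _ hπ hR, rfl⟩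
  have hinner : Cfsg.classInner
      (fun n : (iota M Y).range => (ψ ∘ pr M Y (Nat.card M)) n)
      (fun n : (iota M Y).range => (tau M Y (Nat.card M)).character n) = e := by
    have h1 := classInner_comp_mulEquiv (MonoidHom.ofInjective (iota_injective M Y))
      (fun n : (iota M Y).range => (ψ ∘ pr M Y (Nat.card M)) n)
      (fun n : (iota M Y).range => (tau M Y (Nat.card M)).character n)
    rw [← h1, ← he]
    congr 1
  obtain ⟨h868, -, -⟩ := Cfsg.Agent.S0868.result (iota M Y).range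
    (tau M Y (Nat.card M)).character hχτ hχτN (ψ ∘ pr M Y (Nat.card M)) hψπ _ rfl
  have hηirr := h868 (by
    rw [hinner]
    exact_mod_cast he0)
  have hη1 : (fun g : Gam M Y (Nat.card M) => (Nat.card (iota M Y).range : ℂ)⁻¹ *
      ∑ n : (iota M Y).range, (ψ ∘ pr M Y (Nat.card M)) ((n : Gam M Y (Nat.card M)) * g) *
        conj ((tau M Y (Nat.card M)).character ((n : Gam M Y (Nat.card M)) * g))) 1 = e := by
    rw [← hinner]
    simp only [Cfsg.classInner, mul_one]
  have hηinv : ∀ (n₀ : (iota M Y).range) (g : Gam M Y (Nat.card M)),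
      (fun g : Gam M Y (Nat.card M) => (Nat.card (iota M Y).range : ℂ)⁻¹ *
      ∑ n : (iota M Y).range, (ψ ∘ pr M Y (Nat.card M)) ((n : Gam M Y (Nat.card M)) * g) *
        conj ((tau M Y (Nat.card M)).character ((n : Gam M Y (Nat.card M)) * g)))
        ((n₀ : Gam M Y (Nat.card M)) * g) =
      (fun g : Gam M Y (Nat.card M) => (Nat.card (iota M Y).range : ℂ)⁻¹ *
      ∑ n : (iota M Y).range, (ψ ∘ pr M Y (Nat.card M)) ((n : Gam M Y (Nat.card M)) * g) *
        conj ((tau M Y (Nat.card M)).character ((n : Gam M Y (Nat.card M)) * g))) g := by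
    intro n₀ g
    simp only
    congr 1
    rw [← Equiv.sum_comp (Equiv.mulRight n₀) (fun n : (iota M Y).range =>
      (ψ ∘ pr M Y (Nat.card M)) ((n : Gam M Y (Nat.card M)) * g) *
        conj ((tau M Y (Nat.card M)).character ((n : Gam M Y (Nat.card M)) * g)))]
    refine Finset.sum_congr rfl fun n _ => ?_
    simp only [Equiv.coe_mulRight, Subgroup.coe_mul, mul_assoc]
  generalize (fun g : Gam M Y (Nat.card M) => (Nat.card (iota M Y).range : ℂ)⁻¹ *
      ∑ n : (iota M Y).range, (ψ ∘ pr M Y (Nat.card M)) ((n : Gam M Y (Nat.card M)) * g) *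
        conj ((tau M Y (Nat.card M)).character ((n : Gam M Y (Nat.card M)) * g))) = η
    at hηirr hη1 hηinv
  obtain ⟨k, R, hR, hRη⟩ := hηirr
  haveI := hR
  have hk : k = e := by
    have h1 : R.character 1 = (k : ℂ) := by
      rw [Representation.char_one, Module.finrank_fin_fun]
    rw [hRη, hη1] at h1
    exact_mod_cast h1.symm
  have hRN : ∀ n : (iota M Y).range, R (n : Gam M Y (Nat.card M)) = 1 := by
    rcases Cfsg.Agent.Lib.Helper10.Gal2.proj_rep R (iota M Y).range with h | h
    · exfalso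
      have h1 : ∑ n : (iota M Y).range, η (n : Gam M Y (Nat.card M)) = 0 := by
        have h0 : ∀ n : (iota M Y).range, η (n : Gam M Y (Nat.card M)) =
            LinearMap.trace ℂ _ (R (n : Gam M Y (Nat.card M))) := fun n => by
          rw [← hRη]
          rfl
        rw [Finset.sum_congr rfl fun n _ => h0 n, ← map_sum, h, map_zero]
      have h2 : ∀ n : (iota M Y).range, η (n : Gam M Y (Nat.card M)) = e := fun n => by
        have := hηinv n 1
        rw [mul_one] at this
        rw [this, hη1]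
      rw [Finset.sum_congr rfl fun n _ => h2 n, Finset.sum_const, Finset.card_univ,
        nsmul_eq_mul] at h1
      rcases mul_eq_zero.mp h1 with h3 | h3
      · have : Fintype.card (iota M Y).range ≠ 0 := Fintype.card_ne_zero
        exact this (by exact_mod_cast h3)
      · exact he0 (by exact_mod_cast h3)
    · exact h
  have hker : (iota M Y).range ≤ MonoidHom.ker R := by
    intro n hn
    rw [MonoidHom.mem_ker]
    exact hRN ⟨n, hn⟩
  have hRq : Representation.IsIrreducible
      (QuotientGroup.lift (iota M Y).range R hker :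
        Representation ℂ (Gam M Y (Nat.card M) ⧸ (iota M Y).range) (Fin k → ℂ)) :=
    irr_of_comp _ (QuotientGroup.mk' (iota M Y).range) (by
      have : (QuotientGroup.lift (iota M Y).range R hker :
          Representation ℂ (Gam M Y (Nat.card M) ⧸ (iota M Y).range) (Fin k → ℂ)).comp
          (QuotientGroup.mk' (iota M Y).range) = R := MonoidHom.ext fun x => rfl
      rw [this]
      exact hR)
  haveI := hRq
  haveI : Fintype (Gam M Y (Nat.card M) ⧸ (iota M Y).range) := Fintype.ofFinite _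
  haveI hAn : (M.comap (pr M Y (Nat.card M))).Normal := Subgroup.Normal.comap hM _
  haveI : ((M.comap (pr M Y (Nat.card M))).map (QuotientGroup.mk' (iota M Y).range)).Normal :=
    Subgroup.Normal.map hAn _ (QuotientGroup.mk'_surjective (iota M Y).range)
  have key : ∀ a ∈ (M.comap (pr M Y (Nat.card M))).map (QuotientGroup.mk' (iota M Y).range),
      ∃ z : Gam M Y (Nat.card M), (∀ γ : Gam M Y (Nat.card M), z * γ = γ * z) ∧
        a = QuotientGroup.mk' (iota M Y).range z := by
    rintro _ ⟨a, ha, rfl⟩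
    obtain ⟨m, z, hz, rfl⟩ := exists_central M Y a ha
    refine ⟨z, central_of_fst M Y _ z hz, ?_⟩
    rw [map_mul]
    have : QuotientGroup.mk' (iota M Y).range (iota M Y m) = 1 :=
      (QuotientGroup.eq_one_iff _).mpr ⟨m, rfl⟩
    rw [this, one_mul]
  have hab : ∀ a ∈ (M.comap (pr M Y (Nat.card M))).map (QuotientGroup.mk' (iota M Y).range),
      ∀ b ∈ (M.comap (pr M Y (Nat.card M))).map (QuotientGroup.mk' (iota M Y).range),
      a * b = b * a := by
    intro a ha b hb
    obtain ⟨z, hz, rfl⟩ := key a ha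
    obtain ⟨w, hw, rfl⟩ := key b hb
    rw [← map_mul, ← map_mul, hz w]
  have hito := ito (QuotientGroup.lift (iota M Y).range R hker :
        Representation ℂ (Gam M Y (Nat.card M) ⧸ (iota M Y).range) (Fin k → ℂ))
    ((M.comap (pr M Y (Nat.card M))).map (QuotientGroup.mk' (iota M Y).range)) hab
  rw [Module.finrank_fin_fun, hk] at hito
  have h1 : ((M.comap (pr M Y (Nat.card M))).map (QuotientGroup.mk' (iota M Y).range)).index ∣
      (M.comap (pr M Y (Nat.card M))).index :=
    Subgroup.index_map_dvd _ (QuotientGroup.mk'_surjective (iota M Y).range)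
  have h2 : (M.comap (pr M Y (Nat.card M))).index = M.index :=
    Subgroup.index_comap_of_surjective M hπ
  rw [← h2]
  exact hito.trans h1

end main

end Cfsg.Agent.Lib.Helper10.CentExt
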