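import Mathlib
import Cfsg.Agent.Lib.Helper10.CentExt
import Cfsg.Agent.S4217

/-!
Sections of the central extension `Gam M Y K` coming from representations of overgroups of `M`
extending `Y`, and extendibility of an invariant irreducible representation from Sylow
overgroups.
-/

set_option autoImplicit false
set_option linter.unusedSectionVars false
set_option linter.unusedVariables false

namespace Cfsg.Agent.Lib.Helper10.CentExt

open Cfsg.Agent.Lib.Helper1
open scoped ComplexConjugate

universe u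

section sec

variable {T : Type u} [Group T] (M : Subgroup T) [hM : M.Normal]
  {d : ℕ} (Y : Representation ℂ M (Fin d → ℂ))

/-- The section of `Gam M Y K` over `P ≥ M` defined by a representation of `P` extending `Y`. -/
noncomputable def sec (K : ℕ) (P : Subgroup T) (hMP : M ≤ P)
    (X : Representation ℂ P (Fin d → ℂ)) (hX : ∀ m : M, X ⟨(m : T), hMP m.2⟩ = Y m)
    (hK : ∀ g : P, g ^ K = 1) : P →* Gam M Y K where
  toFun g := ⟨((g : T), MonoidHom.toHomUnits X g), by
    refine ⟨fun m => ?_, ?_⟩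
    · simp only [MonoidHom.coe_toHomUnits]
      have e1 : (⟨((MulAut.conjNormal (g : T) m : M) : T),
          hMP (MulAut.conjNormal (g : T) m).2⟩ : P) = g * ⟨(m : T), hMP m.2⟩ * g⁻¹ := by
        apply Subtype.ext
        simp [MulAut.conjNormal_apply]
      rw [← hX m, ← hX (MulAut.conjNormal (g : T) m), e1, ← map_mul, ← map_mul]
      congr 1
      group
    · simp only [MonoidHom.coe_toHomUnits]
      rw [← map_pow, ← map_pow, hK g, map_one, map_one]⟩
  map_one' := by
    apply Subtype.ext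
    apply Prod.ext
    · rfl
    · show MonoidHom.toHomUnits X 1 = 1
      rw [map_one]
  map_mul' a b := by
    apply Subtype.ext
    apply Prod.ext
    · rfl
    · show MonoidHom.toHomUnits X (a * b) = MonoidHom.toHomUnits X a * MonoidHom.toHomUnits X b
      rw [map_mul]

variable (K : ℕ) (P : Subgroup T) (hMP : M ≤ P)
    (X : Representation ℂ P (Fin d → ℂ)) (hX : ∀ m : M, X ⟨(m : T), hMP m.2⟩ = Y m)
    (hK : ∀ g : P, g ^ K = 1)

theorem sec_fst (g : P) : ((sec M Y K P hMP X hX hK g : Gam M Y K) :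
    T × (Module.End ℂ (Fin d → ℂ))ˣ).1 = (g : T) := rfl

theorem sec_snd (g : P) : (((sec M Y K P hMP X hX hK g : Gam M Y K) :
    T × (Module.End ℂ (Fin d → ℂ))ˣ).2 : Module.End ℂ (Fin d → ℂ)) = X g :=
  MonoidHom.coe_toHomUnits X g

theorem pr_sec (g : P) : pr M Y K (sec M Y K P hMP X hX hK g) = (g : T) := rfl

/-- The copy of `M`, for a general exponent `K`. -/
noncomputable def iotaK (hKM : ∀ g : M, g ^ K = 1) : M →* Gam M Y K :=
  sec M Y K M le_rfl Y (fun _ => rfl) hKM

variable (hKM : ∀ g : M, g ^ K = 1)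

theorem iotaK_fst (m : M) : ((iotaK M Y K hKM m : Gam M Y K) :
    T × (Module.End ℂ (Fin d → ℂ))ˣ).1 = (m : T) := rfl

theorem iotaK_snd (m : M) : (((iotaK M Y K hKM m : Gam M Y K) :
    T × (Module.End ℂ (Fin d → ℂ))ˣ).2 : Module.End ℂ (Fin d → ℂ)) = Y m :=
  MonoidHom.coe_toHomUnits Y m

theorem sec_mem (m : M) : sec M Y K P hMP X hX hK ⟨(m : T), hMP m.2⟩ = iotaK M Y K hKM m := by
  apply Subtype.ext
  apply Prod.ext
  · rfl
  · apply Units.ext
    rw [sec_snd, iotaK_snd, hX]

theorem tau_iotaK (m : M) : tau M Y K (iotaK M Y K hKM m) = Y m := by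
  rw [tau_apply]
  exact iotaK_snd M Y K hKM m

theorem iotaK_conj (γ : Gam M Y K) (m : M) :
    γ * iotaK M Y K hKM m * γ⁻¹ =
      iotaK M Y K hKM (MulAut.conjNormal (γ : T × (Module.End ℂ (Fin d → ℂ))ˣ).1 m) := by
  apply Subtype.ext
  apply Prod.ext
  · simp [iotaK_fst, MulAut.conjNormal_apply]
  · apply Units.ext
    have h := γ.2.1 m
    simp only [Subgroup.coe_mul, Subgroup.coe_inv, Prod.snd_mul, Prod.snd_inv, Units.val_mul,
      iotaK_snd]
    rw [h, mul_assoc, Units.mul_inv, mul_one]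

instance iotaK_range_normal : (iotaK M Y K hKM).range.Normal := by
  constructor
  rintro n ⟨m, rfl⟩ γ
  exact ⟨_, (iotaK_conj M Y K hKM γ m).symm⟩

theorem mem_iotaK_range (x : Gam M Y K) (hx : x ∈ (iotaK M Y K hKM).range) :
    ∃ m : M, x = iotaK M Y K hKM m := by
  obtain ⟨m, rfl⟩ := hx
  exact ⟨m, rfl⟩

end sec

section split

/-- A central extension `π : Γ → G` with a partial section `ι` over a normal subgroup `N`
(with normal image) has a section extending `ι` as soon as it has one over a subgroup `P ≥ N`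
of index prime to `p` with `P/N` a `p`-group, for every prime `p`. -/
theorem exists_section {Γ : Type*} {G : Type*} [Group Γ] [Finite Γ] [Group G] (π : Γ →* G)
    (hπ : Function.Surjective π) (hcent : ∀ z : Γ, π z = 1 → ∀ γ : Γ, z * γ = γ * z)
    (N : Subgroup G) [hN : N.Normal] (ι : N →* Γ) (hι : ∀ n : N, π (ι n) = n)
    [hιn : ι.range.Normal]
    (hsyl : ∀ p : ℕ, p.Prime → ∃ (P : Subgroup G) (hNP : N ≤ P) (s : P →* Γ),
      Nat.Coprime P.index p ∧ (∃ k : ℕ, N.relIndex P = p ^ k) ∧ (∀ g : P, π (s g) = g) ∧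
        ∀ n : N, s ⟨(n : G), hNP n.2⟩ = ι n) :
    ∃ σ : G →* Γ, (∀ g : G, π (σ g) = g) ∧ ∀ n : N, σ (n : G) = ι n := by
  classical
  haveI hZn : ((MonoidHom.ker π).map (QuotientGroup.mk' ι.range)).Normal :=
    Subgroup.Normal.map (MonoidHom.normal_ker π) _ (QuotientGroup.mk'_surjective ι.range)
  have hZbcomm : IsMulCommutative ↥((MonoidHom.ker π).map (QuotientGroup.mk' ι.range)) := by
    refine ⟨⟨fun a b => ?_⟩⟩
    obtain ⟨z, hz, hza⟩ := a.2
    obtain ⟨w, hw, hwb⟩ := b.2
    apply Subtype.ext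
    show (a : Γ ⧸ ι.range) * (b : Γ ⧸ ι.range) = (b : Γ ⧸ ι.range) * (a : Γ ⧸ ι.range)
    rw [← hza, ← hwb, ← map_mul, ← map_mul, hcent z (MonoidHom.mem_ker.mp hz) w]
  have key := (Cfsg.Agent.S4217.result ((MonoidHom.ker π).map (QuotientGroup.mk' ι.range))
    hZbcomm).mpr ?_
  · obtain ⟨K₀, hK₀⟩ := key
    have hinj : ∀ x : Γ, QuotientGroup.mk' ι.range x ∈ K₀ → π x = 1 → x = 1 := by
      intro x hx hπx
      have h1 : QuotientGroup.mk' ι.range x ∈
          (MonoidHom.ker π).map (QuotientGroup.mk' ι.range) :=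
        ⟨x, MonoidHom.mem_ker.mpr hπx, rfl⟩
      have h2 : QuotientGroup.mk' ι.range x = 1 :=
        (Subgroup.disjoint_def.mp hK₀.disjoint) hx h1
      obtain ⟨n, hn⟩ := (QuotientGroup.eq_one_iff x).mp h2
      have h3 : (n : G) = 1 := by rw [← hι n, hn, hπx]
      have h4 : n = 1 := Subtype.ext h3
      rw [← hn, h4, map_one]
    have hsurj : ∀ g : G, ∃ x : Γ, QuotientGroup.mk' ι.range x ∈ K₀ ∧ π x = g := by
      intro g
      obtain ⟨γ, rfl⟩ := hπ g
      have h1 : QuotientGroup.mk' ι.range γ ∈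
          K₀ ⊔ (MonoidHom.ker π).map (QuotientGroup.mk' ι.range) := by
        rw [hK₀.sup_eq_top]
        trivial
      have h1' : QuotientGroup.mk' ι.range γ ∈
          ((K₀ ⊔ (MonoidHom.ker π).map (QuotientGroup.mk' ι.range) : Subgroup (Γ ⧸ ι.range)) :
            Set (Γ ⧸ ι.range)) := h1
      rw [Subgroup.mul_normal] at h1'
      obtain ⟨k, hk, zb, hzb, hkz⟩ := Set.mem_mul.mp h1'
      obtain ⟨z, hz, rfl⟩ := hzb
      refine ⟨γ * z⁻¹, ?_, ?_⟩
      · rw [map_mul, map_inv, ← hkz]
        simpa using hk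
      · rw [map_mul, map_inv, MonoidHom.mem_ker.mp hz]
        simp
    choose σf hσ1 hσ2 using hsurj
    have hσmul : ∀ a b, σf (a * b) = σf a * σf b := by
      intro a b
      have := hinj ((σf a * σf b)⁻¹ * σf (a * b)) (by
        rw [map_mul, map_inv, map_mul]
        exact K₀.mul_mem (K₀.inv_mem (K₀.mul_mem (hσ1 a) (hσ1 b))) (hσ1 _)) (by
        rw [map_mul, map_inv, map_mul, hσ2, hσ2, hσ2]
        group)
      exact (inv_mul_eq_one.mp this).symm
    refine ⟨MonoidHom.mk' σf hσmul, hσ2, fun n => ?_⟩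
    have h1 : QuotientGroup.mk' ι.range (ι n) = 1 := (QuotientGroup.eq_one_iff _).mpr ⟨n, rfl⟩
    have := hinj ((ι n)⁻¹ * σf n) (by
      rw [map_mul, map_inv, h1]
      simpa using hσ1 n) (by
      rw [map_mul, map_inv, hι, hσ2]
      group)
    exact (inv_mul_eq_one.mp this).symm
  · intro p hp hpdvd
    haveI : Fact p.Prime := ⟨hp⟩
    obtain ⟨P, hNP, s, hcop, ⟨k, hk⟩, hs, hsN⟩ := hsyl p hp
    have hpow : ∀ g : P, QuotientGroup.mk' ι.range (s g) ^ (p ^ k) = 1 := by
      intro g
      have h1 : g ^ (p ^ k) ∈ N.subgroupOf P := by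
        have := Subgroup.pow_index_mem (N.subgroupOf P) g
        rwa [show (N.subgroupOf P).index = p ^ k from hk] at this
      have h2 : s (g ^ (p ^ k)) = ι ⟨_, h1⟩ := by
        rw [← hsN ⟨_, h1⟩]
        exact congrArg s (Subtype.ext rfl)
      rw [← map_pow, ← map_pow, h2]
      exact (QuotientGroup.eq_one_iff _).mpr ⟨_, rfl⟩
    have hPg : IsPGroup p ↥((s.range.map (QuotientGroup.mk' ι.range)).map
        (QuotientGroup.mk' ((MonoidHom.ker π).map (QuotientGroup.mk' ι.range)))) := by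
      rintro ⟨x, hx⟩
      obtain ⟨y, ⟨_, ⟨g, rfl⟩, rfl⟩, rfl⟩ := hx
      refine ⟨k, Subtype.ext ?_⟩
      show (QuotientGroup.mk' ((MonoidHom.ker π).map (QuotientGroup.mk' ι.range))
        (QuotientGroup.mk' ι.range (s g))) ^ (p ^ k) = 1
      rw [← map_pow, hpow g, map_one]
    have hle : (P.comap π).map (QuotientGroup.mk' ι.range) ≤
        s.range.map (QuotientGroup.mk' ι.range) ⊔
          (MonoidHom.ker π).map (QuotientGroup.mk' ι.range) := by
      rintro _ ⟨γ, hγ, rfl⟩
      have hz : (s ⟨π γ, hγ⟩)⁻¹ * γ ∈ MonoidHom.ker π := by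
        rw [MonoidHom.mem_ker, map_mul, map_inv, hs]
        simp
      have : QuotientGroup.mk' ι.range γ = QuotientGroup.mk' ι.range (s ⟨π γ, hγ⟩) *
          QuotientGroup.mk' ι.range ((s ⟨π γ, hγ⟩)⁻¹ * γ) := by
        rw [← map_mul]
        congr 1
        group
      rw [this]
      exact Subgroup.mul_mem_sup ⟨_, ⟨_, rfl⟩, rfl⟩ ⟨_, hz, rfl⟩
    have hidx : ¬ p ∣ ((s.range.map (QuotientGroup.mk' ι.range)).map
        (QuotientGroup.mk' ((MonoidHom.ker π).map (QuotientGroup.mk' ι.range)))).index := by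
      intro hdvd
      rw [Subgroup.index_map, QuotientGroup.ker_mk',
        MonoidHom.range_eq_top_of_surjective _ (QuotientGroup.mk'_surjective _),
        Subgroup.index_top, mul_one] at hdvd
      have h1 := Subgroup.index_dvd_of_le hle
      have h2 : ((P.comap π).map (QuotientGroup.mk' ι.range)).index ∣ (P.comap π).index :=
        Subgroup.index_map_dvd _ (QuotientGroup.mk'_surjective ι.range)
      have h3 : (P.comap π).index = P.index := Subgroup.index_comap_of_surjective P hπ
      have h4 : p ∣ P.index := by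
        rw [← h3]
        exact hdvd.trans (h1.trans h2)
      have h5 := Nat.Coprime.eq_one_of_dvd hcop.symm h4
      exact hp.one_lt.ne' h5
    refine ⟨hPg.toSylow hidx, s.range.map (QuotientGroup.mk' ι.range), ?_, ?_⟩
    · rw [eq_bot_iff]
      rintro x ⟨hx1, hx2⟩
      obtain ⟨_, ⟨g, rfl⟩, rfl⟩ := hx1
      obtain ⟨z, hz, hzx⟩ := hx2
      have h1 : z⁻¹ * s g ∈ ι.range := QuotientGroup.eq.mp hzx
      obtain ⟨n, hn⟩ := h1
      have h2 : (g : G) = n := by
        have := congrArg π hn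
        rw [hι, map_mul, map_inv, MonoidHom.mem_ker.mp hz, hs] at this
        simpa using this.symm
      have h3 : s g = ι n := by
        rw [← hsN n]
        congr 1
        exact Subtype.ext h2
      show QuotientGroup.mk' ι.range (s g) = 1
      rw [h3]
      exact (QuotientGroup.eq_one_iff _).mpr ⟨n, rfl⟩
    · show s.range.map (QuotientGroup.mk' ι.range) ⊔
          (MonoidHom.ker π).map (QuotientGroup.mk' ι.range) =
        ((s.range.map (QuotientGroup.mk' ι.range)).map
          (QuotientGroup.mk' ((MonoidHom.ker π).map (QuotientGroup.mk' ι.range)))).comap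
          (QuotientGroup.mk' ((MonoidHom.ker π).map (QuotientGroup.mk' ι.range)))
      rw [Subgroup.comap_map_eq, QuotientGroup.ker_mk']

end split

section main

variable {G : Type u} [Group G] [Finite G] (N : Subgroup G) [hN : N.Normal] {d : ℕ}
  (Y : Representation ℂ N (Fin d → ℂ))

/-- An invariant irreducible representation of a normal subgroup extends to the whole group
as soon as it extends to a subgroup `P ≥ N` of index prime to `p` with `P/N` a `p`-group, for
every prime `p`. -/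
theorem ext_of_sylow [hY : Y.IsIrreducible]
    (hinv : ∀ (g : G) (n : N), Y.character (MulAut.conjNormal g n) = Y.character n)
    (hsyl : ∀ p : ℕ, p.Prime → ∃ (P : Subgroup G) (hNP : N ≤ P)
        (X : Representation ℂ P (Fin d → ℂ)),
        Nat.Coprime P.index p ∧ (∃ k : ℕ, N.relIndex P = p ^ k) ∧
          ∀ n : N, X ⟨(n : G), hNP n.2⟩ = Y n) :
    ∃ X : Representation ℂ G (Fin d → ℂ), ∀ n : N, X (n : G) = Y n := by
  classical
  have hKpos : 0 < Nat.card G := Nat.card_pos
  have hKP : ∀ (P : Subgroup G) (g : P), g ^ Nat.card G = 1 := by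
    intro P g
    apply Subtype.ext
    rw [Subgroup.coe_pow, pow_card_eq_one']
    rfl
  haveI hfin : Finite (Gam N Y (Nat.card G)) := finite_Gam N Y hinv _ hKpos
  have hπ : Function.Surjective (pr N Y (Nat.card G)) := pr_surj N Y hinv _
  have hcent : ∀ z : Gam N Y (Nat.card G), pr N Y (Nat.card G) z = 1 →
      ∀ γ : Gam N Y (Nat.card G), z * γ = γ * z :=
    fun z hz γ => central_of_fst N Y _ z hz γ
  obtain ⟨σ, hσ1, hσ2⟩ := exists_section (pr N Y (Nat.card G)) hπ hcent N
    (iotaK N Y (Nat.card G) (hKP N)) (fun n => rfl) (by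
    intro p hp
    obtain ⟨P, hNP, X, hcop, hk, hX⟩ := hsyl p hp
    exact ⟨P, hNP, sec N Y (Nat.card G) P hNP X hX (hKP P), hcop, hk, fun g => rfl,
      fun n => sec_mem N Y _ P hNP X hX (hKP P) (hKP N) n⟩)
  refine ⟨(tau N Y (Nat.card G)).comp σ, fun n => ?_⟩
  show tau N Y (Nat.card G) (σ (n : G)) = Y n
  rw [hσ2 n, tau_iotaK]

end main

end Cfsg.Agent.Lib.Helper10.CentExt
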