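import Mathlib
import Cfsg.Prelude.Def_Characters
import Cfsg.Prelude.Def_OddOrderChar
import Cfsg.Agent.Lib.Helper10.Virt

/-!
Tools for coherence arguments: integer spans of (irreducible) characters and linear isometries
defined on them.
-/

set_option autoImplicit false

namespace Cfsg.Agent.Lib.Helper10.Coh

open Cfsg.Agent.Lib.Helper1 Cfsg.Agent.Lib.Helper10.Virt
open scoped ComplexConjugate

section span

variable {N : Type*} [Group N]

theorem zspan_mono {X : Type*} {T T' : Set (X → ℂ)} (h : T ⊆ T') {θ : X → ℂ}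
    (hθ : θ ∈ Cfsg.zspan T) : θ ∈ Cfsg.zspan T' :=
  Submodule.span_mono h hθ

theorem zspan_isGen {T : Set (N → ℂ)} (hT : ∀ ξ ∈ T, Cfsg.IsGeneralizedCharacter N ξ)
    {θ : N → ℂ} (hθ : θ ∈ Cfsg.zspan T) : Cfsg.IsGeneralizedCharacter N θ := by
  induction hθ using Submodule.span_induction with
  | mem x h => exact hT x h
  | zero => exact isGen_zero
  | add x y _ _ hx hy => exact isGen_add hx hy
  | smul a x _ hx => exact isGen_zsmul hx a

theorem gen_one_int {θ : N → ℂ} (hθ : Cfsg.IsGeneralizedCharacter N θ) :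
    ∃ m : ℤ, θ 1 = (m : ℂ) := by
  obtain ⟨A, B, hA, hB, rfl⟩ := hθ
  obtain ⟨a, ha⟩ := IsCharacter.degree_nat hA
  obtain ⟨b, hb⟩ := IsCharacter.degree_nat hB
  refine ⟨(a : ℤ) - b, ?_⟩
  rw [Pi.sub_apply, ha, hb]
  push_cast
  rfl

theorem zspan_orth [Fintype N] {T : Set (N → ℂ)} {θ : N → ℂ} (hθ : θ ∈ Cfsg.zspan T)
    (ξ : N → ℂ) (h : ∀ t ∈ T, Cfsg.classInner t ξ = 0) : Cfsg.classInner θ ξ = 0 := by
  induction hθ using Submodule.span_induction with
  | mem x hx => exact h x hx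
  | zero => exact classInner_zero_left ξ
  | add x y _ _ hx hy => rw [classInner_add_left, hx, hy, add_zero]
  | smul a x _ hx => rw [classInner_zsmul_left, hx, mul_zero]

theorem zspan_orth_right [Fintype N] {T : Set (N → ℂ)} {θ : N → ℂ} (hθ : θ ∈ Cfsg.zspan T)
    (ξ : N → ℂ) (h : ∀ t ∈ T, Cfsg.classInner ξ t = 0) : Cfsg.classInner ξ θ = 0 := by
  induction hθ using Submodule.span_induction with
  | mem x hx => exact h x hx
  | zero => exact classInner_zero_right ξ
  | add x y _ _ hx hy => rw [classInner_add_right, hx, hy, add_zero]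
  | smul a x _ hx => rw [classInner_zsmul_right, hx, mul_zero]

end span

section iso

variable {N : Type*} [Group N] [Fintype N] {G : Type*} [Group G] [Fintype G]

theorem iso_zero {T : Set (N → ℂ)} {σ : (N → ℂ) → (G → ℂ)}
    (hσ : Cfsg.IsLinearIsometryOn (Cfsg.zspan T) σ) : σ 0 = 0 := by
  have h := hσ.2.1 0 zspan_zero 0
  simpa using h

/-- A linear isometry on an integer span is determined by its values on the generators. -/
theorem iso_eq_of_gens {T : Set (N → ℂ)} {σ : (N → ℂ) → (G → ℂ)}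
    (hσ : Cfsg.IsLinearIsometryOn (Cfsg.zspan T) σ) (L : (N → ℂ) → (G → ℂ))
    (hL0 : L 0 = 0) (hLadd : ∀ a b, L (a + b) = L a + L b)
    (hLsmul : ∀ (n : ℤ) a, L (n • a) = n • L a) (hT : ∀ t ∈ T, σ t = L t) {θ : N → ℂ}
    (hθ : θ ∈ Cfsg.zspan T) : σ θ = L θ := by
  induction hθ using Submodule.span_induction with
  | mem x hx => exact hT x hx
  | zero => rw [iso_zero hσ, hL0]
  | add x y hx hy ihx ihy => rw [hσ.1 x hx y hy, hLadd, ihx, ihy]
  | smul a x hx ihx => rw [hσ.2.1 x hx a, hLsmul, ihx]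

theorem smul_left_cancel_int {X : Type*} {n : ℤ} (hn : n ≠ 0) {f g : X → ℂ}
    (h : n • f = n • g) : f = g := by
  funext x
  have h1 := congrFun h x
  simp only [Pi.smul_apply, zsmul_eq_mul] at h1
  have hn' : (n : ℂ) ≠ 0 := by exact_mod_cast hn
  exact mul_left_cancel₀ hn' h1

theorem zsmul_eq_smul {X : Type*} (n : ℤ) (f : X → ℂ) : n • f = (n : ℂ) • f := by
  funext x
  simp

end iso

end Cfsg.Agent.Lib.Helper10.Coh
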