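import Mathlib
import Cfsg.Prelude.Def_Characters
import Cfsg.Prelude.Def_OddOrderChar
import Cfsg.Agent.Lib.Helper10.Coh

/-!
More tools for coherence arguments: positivity of the norm, Bessel's identity for integer
coefficients, and the linear extension of a map given on a set of irreducible characters.
-/

set_option autoImplicit false

namespace Cfsg.Agent.Lib.Helper10.Coh2

open Cfsg.Agent.Lib.Helper1 Cfsg.Agent.Lib.Helper10.Virt Cfsg.Agent.Lib.Helper10.Coh
open scoped ComplexConjugate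

section norm

variable {G : Type*} [Group G] [Fintype G]

theorem classInner_self_re (f : G → ℂ) :
    Cfsg.classInner f f = (((Nat.card G : ℝ)⁻¹ * ∑ g : G, ‖f g‖ ^ 2 : ℝ) : ℂ) := by
  unfold Cfsg.classInner
  push_cast
  congr 1
  refine Finset.sum_congr rfl (fun g _ => ?_)
  rw [Complex.mul_conj, Complex.normSq_eq_norm_sq]
  push_cast
  rfl

theorem classInner_self_eq_zero (f : G → ℂ) (h : Cfsg.classInner f f = 0) : f = 0 := by
  rw [classInner_self_re] at h
  have h1 : (Nat.card G : ℝ)⁻¹ * ∑ g : G, ‖f g‖ ^ 2 = 0 := by exact_mod_cast h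
  have hG : (Nat.card G : ℝ)⁻¹ ≠ 0 := by
    apply inv_ne_zero
    have := Nat.card_pos (α := G)
    exact_mod_cast this.ne'
  have h2 : ∑ g : G, ‖f g‖ ^ 2 = 0 := by
    rcases mul_eq_zero.mp h1 with h | h
    · exact absurd h hG
    · exact h
  funext g
  have h3 := (Finset.sum_eq_zero_iff_of_nonneg (fun g _ => sq_nonneg ‖f g‖)).mp h2 g
    (Finset.mem_univ g)
  have h4 : ‖f g‖ = 0 := by
    exact pow_eq_zero_iff (two_ne_zero) |>.mp h3
  simpa using h4

theorem classInner_self_int_nonneg (f : G → ℂ) (n : ℤ)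
    (h : Cfsg.classInner f f = (n : ℂ)) : 0 ≤ n := by
  rw [classInner_self_re] at h
  have h1 : (Nat.card G : ℝ)⁻¹ * ∑ g : G, ‖f g‖ ^ 2 = (n : ℝ) := by exact_mod_cast h
  have h2 : (0 : ℝ) ≤ (Nat.card G : ℝ)⁻¹ * ∑ g : G, ‖f g‖ ^ 2 := by positivity
  rw [h1] at h2
  exact_mod_cast h2

/-- Bessel's identity with integer coefficients. -/
theorem bessel {ι : Type*} (s : Finset ι) (Δ : G → ℂ) (f : ι → G → ℂ) (z : ι → ℤ)
    (hz : ∀ i ∈ s, Cfsg.classInner Δ (f i) = (z i : ℂ))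
    (hnorm : ∀ i ∈ s, Cfsg.classInner (f i) (f i) = 1)
    (horth : ∀ i ∈ s, ∀ j ∈ s, i ≠ j → Cfsg.classInner (f i) (f j) = 0) :
    Cfsg.classInner (Δ - ∑ i ∈ s, z i • f i) (Δ - ∑ i ∈ s, z i • f i) =
      Cfsg.classInner Δ Δ - ((∑ i ∈ s, z i ^ 2 : ℤ) : ℂ) := by
  classical
  have h1 : Cfsg.classInner Δ (∑ i ∈ s, z i • f i) = ((∑ i ∈ s, z i ^ 2 : ℤ) : ℂ) := by
    rw [classInner_sum_right]
    push_cast
    refine Finset.sum_congr rfl (fun i hi => ?_)
    rw [classInner_zsmul_right, hz i hi]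
    ring
  have h2 : ∀ j ∈ s, Cfsg.classInner (f j) Δ = (z j : ℂ) := by
    intro j hj
    rw [← classInner_conj_symm, hz j hj, map_intCast]
  have h3 : ∀ w : G → ℂ, (∀ j ∈ s, Cfsg.classInner (f j) w = (z j : ℂ)) →
      Cfsg.classInner (∑ i ∈ s, z i • f i) w = ((∑ i ∈ s, z i ^ 2 : ℤ) : ℂ) := by
    intro w hw
    rw [classInner_sum_left]
    push_cast
    refine Finset.sum_congr rfl (fun i hi => ?_)
    rw [classInner_zsmul_left, hw i hi]
    ring
  have h4 : ∀ j ∈ s, Cfsg.classInner (f j) (∑ i ∈ s, z i • f i) = (z j : ℂ) := by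
    intro j hj
    rw [classInner_sum_right, Finset.sum_eq_single j]
    · rw [classInner_zsmul_right, hnorm j hj, mul_one]
    · intro i hi hne
      rw [classInner_zsmul_right, horth j hj i hi (Ne.symm hne), mul_zero]
    · intro h
      exact absurd hj h
  rw [classInner_sub_left, classInner_sub_right, classInner_sub_right, h1, h3 Δ h2, h3 _ h4]
  ring

end norm

section ext

variable {N : Type*} [Group N] [Fintype N] {G : Type*} [Group G] [Fintype G]

open Classical in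
/-- The ℂ-linear extension of `ρ` restricted to the set `T` of irreducible characters
(zero on irreducible characters outside `T`). -/
noncomputable def ext (T : Set (N → ℂ)) (ρ : (N → ℂ) → (G → ℂ)) (θ : N → ℂ) : G → ℂ :=
  @Finset.sum (Cfsg.IrrCharacter N) (G → ℂ) _ (@Finset.univ _ irrFintype)
    (fun ξ => Cfsg.classInner θ (ξ : N → ℂ) •
      (if (ξ : N → ℂ) ∈ T then ρ (ξ : N → ℂ) else 0))

theorem ext_add (T : Set (N → ℂ)) (ρ : (N → ℂ) → (G → ℂ)) (a b : N → ℂ) :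
    ext T ρ (a + b) = ext T ρ a + ext T ρ b := by
  simp only [ext, classInner_add_left, add_smul, Finset.sum_add_distrib]

theorem ext_smul (T : Set (N → ℂ)) (ρ : (N → ℂ) → (G → ℂ)) (z : ℂ) (a : N → ℂ) :
    ext T ρ (z • a) = z • ext T ρ a := by
  simp only [ext, classInner_smul_left, Finset.smul_sum, smul_smul]

theorem ext_zsmul (T : Set (N → ℂ)) (ρ : (N → ℂ) → (G → ℂ)) (n : ℤ) (a : N → ℂ) :
    ext T ρ (n • a) = n • ext T ρ a := by
  rw [zsmul_eq_smul, ext_smul, ← zsmul_eq_smul]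

theorem ext_zero (T : Set (N → ℂ)) (ρ : (N → ℂ) → (G → ℂ)) : ext T ρ 0 = 0 := by
  simp only [ext, classInner_zero_left, zero_smul, Finset.sum_const_zero]

theorem ext_neg (T : Set (N → ℂ)) (ρ : (N → ℂ) → (G → ℂ)) (a : N → ℂ) :
    ext T ρ (-a) = -ext T ρ a := by
  have h := ext_smul T ρ (-1) a
  simpa using h

theorem ext_sub (T : Set (N → ℂ)) (ρ : (N → ℂ) → (G → ℂ)) (a b : N → ℂ) :
    ext T ρ (a - b) = ext T ρ a - ext T ρ b := by
  rw [sub_eq_add_neg, ext_add, ext_neg, ← sub_eq_add_neg]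

theorem ext_irr (T : Set (N → ℂ)) (ρ : (N → ℂ) → (G → ℂ)) {ξ : N → ℂ}
    (hξ : Cfsg.IsIrrCharacter N ξ) (hT : ξ ∈ T) : ext T ρ ξ = ρ ξ := by
  classical
  letI : Fintype (Cfsg.IrrCharacter N) := irrFintype
  simp only [ext]
  rw [Finset.sum_eq_single (⟨ξ, hξ⟩ : Cfsg.IrrCharacter N)]
  · rw [classInner_irr_self hξ, one_smul, if_pos hT]
  · intro b _ hb
    rw [classInner_irr_ne hξ b.2 (fun h => hb (Subtype.ext h.symm)), zero_smul]
  · intro h
    exact absurd (Finset.mem_univ _) h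

theorem ext_irr_not_mem (T : Set (N → ℂ)) (ρ : (N → ℂ) → (G → ℂ)) {ξ : N → ℂ}
    (hξ : Cfsg.IsIrrCharacter N ξ) (hT : ξ ∉ T) : ext T ρ ξ = 0 := by
  classical
  letI : Fintype (Cfsg.IrrCharacter N) := irrFintype
  simp only [ext]
  rw [Finset.sum_eq_single (⟨ξ, hξ⟩ : Cfsg.IrrCharacter N)]
  · rw [classInner_irr_self hξ, one_smul, if_neg hT]
  · intro b _ hb
    rw [classInner_irr_ne hξ b.2 (fun h => hb (Subtype.ext h.symm)), zero_smul]
  · intro h
    exact absurd (Finset.mem_univ _) h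

/-- If `ρ` maps the set `T` of irreducible characters to an orthonormal family of virtual
characters, then its linear extension is a linear isometry on the integer span of `T`. -/
theorem ext_isometry (T : Set (N → ℂ)) (hT : ∀ ξ ∈ T, Cfsg.IsIrrCharacter N ξ)
    (ρ : (N → ℂ) → (G → ℂ)) (hρ : ∀ ξ ∈ T, Cfsg.IsGeneralizedCharacter G (ρ ξ))
    (hnorm : ∀ ξ ∈ T, Cfsg.classInner (ρ ξ) (ρ ξ) = 1)
    (horth : ∀ ξ ∈ T, ∀ ξ' ∈ T, ξ ≠ ξ' → Cfsg.classInner (ρ ξ) (ρ ξ') = 0) :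
    Cfsg.IsLinearIsometryOn (Cfsg.zspan T) (ext T ρ) := by
  classical
  letI : Fintype (Cfsg.IrrCharacter N) := irrFintype
  have hcoef0 : ∀ θ ∈ Cfsg.zspan T, ∀ ξ : Cfsg.IrrCharacter N,
      (ξ : N → ℂ) ∉ T → Cfsg.classInner θ (ξ : N → ℂ) = 0 := by
    intro θ hθ ξ hξ
    apply zspan_orth hθ
    intro t ht
    exact classInner_irr_ne (hT t ht) ξ.2 (fun h => hξ (h ▸ ht))
  have hgen : ∀ θ ∈ Cfsg.zspan T, Cfsg.IsGeneralizedCharacter N θ := fun θ hθ =>
    zspan_isGen (fun ξ hξ => isGen_of_irr (hT ξ hξ)) hθ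
  refine ⟨fun a _ b _ => ext_add T ρ a b, fun a _ n => ext_zsmul T ρ n a, ?_, ?_⟩
  · intro θ hθ θ' hθ'
    have e1 := @classFunction_expansion N _ _ irrFintype _ (isGen_isClassFunction (hgen θ hθ))
    have e2 := @classFunction_expansion N _ _ irrFintype _ (isGen_isClassFunction (hgen θ' hθ'))
    have e3 := @classInner_expansion N _ _ irrFintype
      (fun ξ => Cfsg.classInner θ (ξ : N → ℂ)) (fun ξ => Cfsg.classInner θ' (ξ : N → ℂ))
    rw [← e1, ← e2] at e3
    rw [e3]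
    simp only [ext]
    rw [classInner_sum_left]
    refine Finset.sum_congr rfl (fun ξ _ => ?_)
    rw [classInner_sum_right]
    by_cases hξ : (ξ : N → ℂ) ∈ T
    · rw [Finset.sum_eq_single ξ]
      · rw [classInner_smul_left, classInner_smul_right, if_pos hξ, hnorm _ hξ]
        ring
      · intro ξ' _ hne
        rw [classInner_smul_left, classInner_smul_right]
        by_cases hξ' : (ξ' : N → ℂ) ∈ T
        · rw [if_pos hξ, if_pos hξ',
            horth _ hξ _ hξ' (fun h => hne (Subtype.ext h.symm))]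
          ring
        · rw [hcoef0 θ' hθ' ξ' hξ']
          simp
      · intro h
        exact absurd (Finset.mem_univ _) h
    · rw [hcoef0 θ hθ ξ hξ, zero_mul]
      apply Finset.sum_eq_zero
      intro ξ' _
      rw [zero_smul, classInner_zero_left]
  · intro θ hθ
    simp only [ext]
    apply isGen_sum
    intro ξ _
    by_cases hξ : (ξ : N → ℂ) ∈ T
    · obtain ⟨z, hz⟩ := gen_classInner_int (hgen θ hθ) (isGen_of_irr ξ.2)
      rw [hz, if_pos hξ]
      exact isGen_intCast_smul (hρ _ hξ) z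
    · rw [hcoef0 θ hθ ξ hξ, zero_smul]
      exact isGen_zero

/-- A linear isometry on an integer span agrees with the linear extension of its values on the
generators. -/
theorem iso_eq_ext {T : Set (N → ℂ)} (hT : ∀ ξ ∈ T, Cfsg.IsIrrCharacter N ξ)
    {σ : (N → ℂ) → (G → ℂ)} (hσ : Cfsg.IsLinearIsometryOn (Cfsg.zspan T) σ)
    (T' : Set (N → ℂ)) (hTT' : T ⊆ T') (ρ : (N → ℂ) → (G → ℂ)) (hρ : ∀ t ∈ T, ρ t = σ t)
    {θ : N → ℂ} (hθ : θ ∈ Cfsg.zspan T) : σ θ = ext T' ρ θ :=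
  iso_eq_of_gens hσ (ext T' ρ) (ext_zero T' ρ) (ext_add T' ρ) (ext_zsmul T' ρ)
    (fun t ht => by rw [ext_irr T' ρ (hT t ht) (hTT' ht), hρ t ht]) hθ

end ext

end Cfsg.Agent.Lib.Helper10.Coh2
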