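import Mathlib
import Cfsg.Agent.Lib.Helper10.Glaub21

set_option autoImplicit false
open Cfsg
open scoped ComplexConjugate

namespace Cfsg.Agent.Lib.Helper10.Glaub

open Cfsg.Agent.Lib.Helper1

universe u

/-- Integer lemma behind the uniform-centraliser refinement of Glauberman's correspondence:
`n` natural numbers `a l` with `∑ a = z1` and `n ∑ a² = z1² + N`, `N ≤ n - 1`, are all equal
except possibly one, which differs by `±1`. -/
theorem fourier_int {L : Type*} [Fintype L] [DecidableEq L] (n : ℕ) (hn : 2 ≤ n)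
    (hL : Fintype.card L = n) (a : L → ℕ) (z1 : ℤ) (N : ℕ) (hN : N ≤ n - 1)
    (h1 : ∑ l, (a l : ℤ) = z1)
    (h2 : (n : ℤ) * ∑ l, (a l : ℤ) ^ 2 = z1 ^ 2 + N) :
    ∃ (l₀ : L) (q ε : ℤ), (ε = 0 ∨ ε = 1 ∨ ε = -1) ∧ (a l₀ : ℤ) = q + ε ∧
      (∀ l, l ≠ l₀ → (a l : ℤ) = q) ∧ z1 = n * q + ε ∧ (N : ℤ) = ε ^ 2 * (n - 1) := by
  haveI : Nonempty L := by
    rw [← Fintype.card_pos_iff, hL]; omega
  obtain ⟨lm, -, hlm⟩ := Finset.exists_min_image (Finset.univ : Finset L) a Finset.univ_nonempty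
  set q₀ : ℤ := (a lm : ℤ) with hq₀
  set b : L → ℤ := fun l => (a l : ℤ) - q₀ with hb
  have hb0 : ∀ l, 0 ≤ b l := by
    intro l
    have := hlm l (Finset.mem_univ l)
    simp only [hb, hq₀]
    omega
  have hblm : b lm = 0 := by simp [hb, hq₀]
  set K : ℤ := ∑ l, b l with hK
  have hnZ : (2 : ℤ) ≤ n := by exact_mod_cast hn
  have hNZ : (N : ℤ) ≤ n - 1 := by
    have : N + 1 ≤ n := by omega
    have h : ((N + 1 : ℕ) : ℤ) ≤ n := by exact_mod_cast this
    push_cast at h
    linarith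
  have hcardZ : (∑ _l : L, (1 : ℤ)) = n := by
    simp [hL]
  have hKz : K = z1 - n * q₀ := by
    simp only [hK, hb, Finset.sum_sub_distrib, h1, Finset.sum_const, Finset.card_univ, hL]
    simp
  have hsq : (n : ℤ) * ∑ l, (b l) ^ 2 = K ^ 2 + N := by
    have e1 : ∑ l, (b l) ^ 2 = ∑ l, (a l : ℤ) ^ 2 - 2 * q₀ * z1 + n * q₀ ^ 2 := by
      have : ∀ l, (b l) ^ 2 = (a l : ℤ) ^ 2 - 2 * q₀ * (a l : ℤ) + q₀ ^ 2 * 1 := by
        intro l; simp only [hb]; ring
      rw [Finset.sum_congr rfl (fun l _ => this l), Finset.sum_add_distrib,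
        Finset.sum_sub_distrib, ← Finset.mul_sum, ← Finset.mul_sum, h1, hcardZ]
      ring
    rw [e1, hKz]
    linear_combination h2
  -- m_l = n b_l - K has ∑ m² = n N
  have hm : ∑ l, ((n : ℤ) * b l - K) ^ 2 = n * N := by
    have : ∀ l, ((n : ℤ) * b l - K) ^ 2 = (n : ℤ) ^ 2 * (b l) ^ 2 - 2 * n * K * b l + K ^ 2 * 1 := by
      intro l; ring
    rw [Finset.sum_congr rfl (fun l _ => this l), Finset.sum_add_distrib,
      Finset.sum_sub_distrib, ← Finset.mul_sum, ← Finset.mul_sum, ← Finset.mul_sum, hcardZ, ← hK]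
    linear_combination (n : ℤ) * hsq
  have hmle : ∀ l, ((n : ℤ) * b l - K) ^ 2 ≤ n * N := by
    intro l
    rw [← hm]
    exact Finset.single_le_sum (f := fun l => ((n : ℤ) * b l - K) ^ 2)
      (fun i _ => sq_nonneg _) (Finset.mem_univ l)
  have hmlt : ∀ l, ((n : ℤ) * b l - K) ^ 2 < (n : ℤ) ^ 2 := by
    intro l
    have h := hmle l
    nlinarith
  have hK0 : 0 ≤ K := Finset.sum_nonneg (fun l _ => hb0 l)
  have hKn : K < n := by
    have h := hmlt lm
    rw [hblm] at h
    nlinarith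
  have hb1 : ∀ l, b l ≤ 1 := by
    intro l
    have h := hmlt l
    by_contra hcon
    push Not at hcon
    have h2' : (2 : ℤ) ≤ b l := by omega
    have h3 : (n : ℤ) * 2 ≤ (n : ℤ) * b l := mul_le_mul_of_nonneg_left h2' (by positivity)
    have h4 : (n : ℤ) + 1 ≤ (n : ℤ) * b l - K := by linarith
    have h5 : ((n : ℤ) + 1) ^ 2 ≤ ((n : ℤ) * b l - K) ^ 2 := by
      apply pow_le_pow_left₀ (by positivity) h4
    nlinarith
  have hbsq : ∀ l, (b l) ^ 2 = b l := by
    intro l
    have h0 := hb0 l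
    have h1' := hb1 l
    have : b l = 0 ∨ b l = 1 := by omega
    rcases this with h | h <;> rw [h] <;> norm_num
  have hNK : (N : ℤ) = K * (n - K) := by
    have : ∑ l, (b l) ^ 2 = K := by
      rw [hK]; exact Finset.sum_congr rfl (fun l _ => hbsq l)
    rw [this] at hsq
    linarith
  by_cases hKzero : K = 0
  · refine ⟨lm, q₀, 0, Or.inl rfl, by simp [hq₀], ?_, ?_, ?_⟩
    · intro l _
      have : b l = 0 := by
        have h := (Finset.sum_eq_zero_iff_of_nonneg (fun l _ => hb0 l)).mp (hK ▸ hKzero) l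
          (Finset.mem_univ l)
        exact h
      simp only [hb] at this
      omega
    · rw [hKz] at hKzero; linarith
    · rw [hNK, hKzero]; ring
  · have hK1 : 1 ≤ K := by omega
    have hprod : (K - 1) * ((n : ℤ) - 1 - K) = 0 := by
      have h3 : 0 ≤ (K - 1) * ((n : ℤ) - 1 - K) := by
        apply mul_nonneg <;> omega
      nlinarith
    rcases mul_eq_zero.mp hprod with hK1' | hKn'
    · have hKone : K = 1 := by omega
      have hex : ∃ l₀, b l₀ = 1 := by
        by_contra hcon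
        push Not at hcon
        have : K = 0 := by
          rw [hK]
          apply Finset.sum_eq_zero
          intro l _
          have h0 := hb0 l
          have h1' := hb1 l
          have := hcon l
          omega
        omega
      obtain ⟨l₀, hl₀⟩ := hex
      have hrest : ∑ l ∈ Finset.univ.erase l₀, b l = 0 := by
        have := Finset.add_sum_erase Finset.univ b (Finset.mem_univ l₀)
        rw [← hK, hl₀, hKone] at this
        linarith
      refine ⟨l₀, q₀, 1, Or.inr (Or.inl rfl), ?_, ?_, ?_, ?_⟩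
      · simp only [hb] at hl₀; omega
      · intro l hl
        have := (Finset.sum_eq_zero_iff_of_nonneg (fun l _ => hb0 l)).mp hrest l
          (Finset.mem_erase.mpr ⟨hl, Finset.mem_univ l⟩)
        simp only [hb] at this
        omega
      · rw [hKz] at hKone; linarith
      · rw [hNK, hKone]; ring
    · have hKn1 : K = n - 1 := by omega
      have hrest : ∑ l ∈ Finset.univ.erase lm, (1 - b l) = 0 := by
        have := Finset.add_sum_erase Finset.univ (fun l => 1 - b l) (Finset.mem_univ lm)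
        simp only [Finset.sum_sub_distrib, hcardZ] at this
        rw [hblm, ← hK, hKn1] at this
        simp only [Finset.sum_sub_distrib]
        linarith
      refine ⟨lm, q₀ + 1, -1, Or.inr (Or.inr rfl), by simp [hq₀], ?_, ?_, ?_⟩
      · intro l hl
        have := (Finset.sum_eq_zero_iff_of_nonneg (fun l _ => by have := hb1 l; omega)).mp hrest l
          (Finset.mem_erase.mpr ⟨hl, Finset.mem_univ l⟩)
        simp only [hb] at this
        omega
      · rw [hKz] at hKn1; linarith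
      · rw [hNK, hKn1]; ring

/-- An abelian group of order `n` has exactly `n` irreducible characters. -/
theorem card_irr_of_comm {X : Type u} [Group X] [Fintype X] [Fintype (IrrCharacter X)]
    (hcomm : ∀ a b : X, a * b = b * a) : Fintype.card (IrrCharacter X) = Nat.card X := by
  classical
  have hlin : ∀ l : IrrCharacter X, (l : X → ℂ) 1 = 1 :=
    fun l => irr_degree_one_of_comm hcomm l.2
  have h := col_orth (G := X) 1 1
  rw [if_pos (IsConj.refl 1)] at h
  have hcent : Subgroup.centralizer ({1} : Set X) = ⊤ := by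
    ext g
    simp [Subgroup.mem_centralizer_iff]
  rw [hcent] at h
  have h2 : ∑ χ : IrrCharacter X, (χ : X → ℂ) 1 * conj ((χ : X → ℂ) 1)
      = (Fintype.card (IrrCharacter X) : ℂ) := by
    rw [Finset.sum_congr rfl (fun l _ => by rw [hlin l, map_one, mul_one])]
    simp
  rw [h2] at h
  have h3 : Nat.card (⊤ : Subgroup X) = Nat.card X := Subgroup.card_top
  rw [h3] at h
  exact_mod_cast h

set_option maxHeartbeats 1000000 in
/-- A character of an abelian group with integer values that are `0, ±1` off the identity is,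
off the identity, `0` or `±` a linear character; its multiplicities are all equal except one. -/
theorem fourier_char {X : Type u} [Group X] [Fintype X] [Fintype (IrrCharacter X)]
    (hcomm : ∀ a b : X, a * b = b * a) (hn : 2 ≤ Nat.card X)
    (t : X → ℂ) (a : IrrCharacter X → ℕ)
    (htexp : t = ∑ l : IrrCharacter X, (a l : ℂ) • (l : X → ℂ))
    (z : X → ℤ) (hz : ∀ x, t x = z x) (hbound : ∀ x, x ≠ 1 → (z x) ^ 2 ≤ 1) :
    ∃ (l₀ : IrrCharacter X) (q ε : ℤ), (ε = 0 ∨ ε = 1 ∨ ε = -1) ∧ (a l₀ : ℤ) = q + ε ∧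
      (∀ l, l ≠ l₀ → (a l : ℤ) = q) ∧ z 1 = Nat.card X * q + ε ∧
      (∀ x, x ≠ 1 → t x = ε * (l₀ : X → ℂ) x) ∧
      (∀ x, x ≠ 1 → (z x) ^ 2 = ε ^ 2) := by
  classical
  have hlin : ∀ l : IrrCharacter X, (l : X → ℂ) 1 = 1 :=
    fun l => irr_degree_one_of_comm hcomm l.2
  have hcardL := card_irr_of_comm hcomm
  have htv : ∀ x, t x = ∑ l : IrrCharacter X, (a l : ℂ) * (l : X → ℂ) x := by
    intro x
    have := congrFun htexp x
    simpa [Finset.sum_apply] using this
  have h1 : ∑ l, (a l : ℤ) = z 1 := by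
    have h := htv 1
    rw [hz 1, Finset.sum_congr rfl (fun l _ => by rw [hlin l, mul_one])] at h
    have : ((z 1 : ℤ) : ℂ) = ((∑ l, (a l : ℤ) : ℤ) : ℂ) := by
      rw [h]; push_cast; rfl
    exact_mod_cast this.symm
  have htcf : IsClassFunction X t := by
    intro g h
    rw [hcomm h g, mul_assoc, mul_inv_cancel, mul_one]
  have hA : ∀ l : IrrCharacter X, classInner t (l : X → ℂ) = a l := by
    intro l
    rw [htexp, classInner_sum_left]
    rw [Finset.sum_eq_single l]
    · rw [classInner_smul_left, classInner_irr_self l.2, mul_one]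
    · intro l' _ hl'
      rw [classInner_smul_left, classInner_irr_ne l'.2 l.2 (fun h => hl' (Subtype.ext h)), mul_zero]
    · intro h; exact absurd (Finset.mem_univ _) h
  have hcardX : (Nat.card X : ℂ) ≠ 0 := by
    have : Nat.card X ≠ 0 := Nat.card_pos.ne'
    exact_mod_cast this
  have hpars : (Nat.card X : ℤ) * ∑ l, (a l : ℤ) ^ 2 = ∑ x : X, (z x) ^ 2 := by
    have hLHS : ∑ x : X, t x * conj (t x) = ((∑ x : X, (z x) ^ 2 : ℤ) : ℂ) := by
      push_cast
      refine Finset.sum_congr rfl (fun x _ => ?_)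
      rw [hz x, map_intCast]; ring
    have hRHS : ∑ l : IrrCharacter X, classInner t (l : X → ℂ) * conj (classInner t (l : X → ℂ))
        = ((∑ l, (a l : ℤ) ^ 2 : ℤ) : ℂ) := by
      push_cast
      refine Finset.sum_congr rfl (fun l _ => ?_)
      rw [hA l, map_natCast]; ring
    have h := parseval htcf
    have h3 : classInner t t = (Nat.card X : ℂ)⁻¹ * ∑ x, t x * conj (t x) := rfl
    rw [h3, hLHS, hRHS] at h
    have h4 : ((∑ x : X, (z x) ^ 2 : ℤ) : ℂ) = (Nat.card X : ℂ) * ((∑ l, (a l : ℤ) ^ 2 : ℤ) : ℂ) := by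
      rw [← h]; field_simp
    have h5 : ((∑ x : X, (z x) ^ 2 : ℤ) : ℂ) = (((Nat.card X : ℤ) * ∑ l, (a l : ℤ) ^ 2 : ℤ) : ℂ) := by
      rw [h4]; push_cast; rfl
    exact_mod_cast h5.symm
  set Nz : ℤ := ∑ x ∈ Finset.univ.erase (1 : X), (z x) ^ 2 with hNz
  have hNz0 : 0 ≤ Nz := Finset.sum_nonneg (fun x _ => sq_nonneg _)
  have hcardE : (Finset.univ.erase (1 : X)).card = Nat.card X - 1 := by
    rw [Finset.card_erase_of_mem (Finset.mem_univ _), Finset.card_univ, Nat.card_eq_fintype_card]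
  have hNzle : Nz ≤ ((Nat.card X - 1 : ℕ) : ℤ) := by
    have : Nz ≤ ∑ _x ∈ Finset.univ.erase (1 : X), (1 : ℤ) :=
      Finset.sum_le_sum (fun x hx => hbound x (Finset.ne_of_mem_erase hx))
    rw [Finset.sum_const, hcardE] at this
    simpa using this
  have hsplit : ∑ x : X, (z x) ^ 2 = (z 1) ^ 2 + Nz :=
    (Finset.add_sum_erase Finset.univ (fun x => (z x) ^ 2) (Finset.mem_univ 1)).symm
  have hNnat : (Nz.toNat : ℤ) = Nz := Int.toNat_of_nonneg hNz0
  have hN : Nz.toNat ≤ Nat.card X - 1 := by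
    have : (Nz.toNat : ℤ) ≤ ((Nat.card X - 1 : ℕ) : ℤ) := by rw [hNnat]; exact hNzle
    exact_mod_cast this
  have h2 : (Nat.card X : ℤ) * ∑ l, (a l : ℤ) ^ 2 = (z 1) ^ 2 + (Nz.toNat : ℕ) := by
    rw [hpars, hsplit, hNnat]
  obtain ⟨l₀, q, ε, hε, hal₀, hal, hz1, hNε⟩ :=
    fourier_int (Nat.card X) hn hcardL a (z 1) Nz.toNat hN h1 h2
  refine ⟨l₀, q, ε, hε, hal₀, hal, hz1, ?_, ?_⟩
  · intro x hx
    have hcol := col_orth (G := X) x 1
    have hnc : ¬ IsConj x 1 := by
      intro h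
      exact hx (isConj_one_left.mp h)
    rw [if_neg hnc] at hcol
    have hcol' : ∑ l : IrrCharacter X, (l : X → ℂ) x = 0 := by
      rw [← hcol]
      refine Finset.sum_congr rfl (fun l _ => ?_)
      rw [hlin l, map_one, mul_one]
    rw [htv x]
    have hterm : ∀ l : IrrCharacter X, (a l : ℂ) * (l : X → ℂ) x
        = (q : ℂ) * (l : X → ℂ) x + (if l = l₀ then (ε : ℂ) * (l₀ : X → ℂ) x else 0) := by
      intro l
      by_cases hl : l = l₀
      · subst hl
        rw [if_pos rfl]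
        have : (a l : ℂ) = ((q + ε : ℤ) : ℂ) := by exact_mod_cast hal₀
        rw [this]; push_cast; ring
      · rw [if_neg hl]
        have : (a l : ℂ) = ((q : ℤ) : ℂ) := by exact_mod_cast hal l hl
        rw [this]; ring
    rw [Finset.sum_congr rfl (fun l _ => hterm l), Finset.sum_add_distrib, ← Finset.mul_sum,
      hcol', mul_zero, zero_add, Finset.sum_ite_eq' Finset.univ l₀, if_pos (Finset.mem_univ _)]
  · intro x hx
    have hxm : x ∈ Finset.univ.erase (1 : X) := Finset.mem_erase.mpr ⟨hx, Finset.mem_univ x⟩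
    have hNε' : Nz = ε ^ 2 * ((Nat.card X : ℤ) - 1) := by rw [← hNnat]; exact hNε
    have hcardpos : (1 : ℤ) ≤ (Nat.card X : ℤ) - 1 := by
      have : (2 : ℤ) ≤ (Nat.card X : ℤ) := by exact_mod_cast hn
      linarith
    have hcast : ((Nat.card X - 1 : ℕ) : ℤ) = (Nat.card X : ℤ) - 1 := by
      have : 1 ≤ Nat.card X := by omega
      push_cast [Nat.cast_sub this]; ring
    rcases hε with rfl | hε1
    · have h0 : Nz = 0 := by rw [hNε']; ring
      have := (Finset.sum_eq_zero_iff_of_nonneg (fun x _ => sq_nonneg (z x))).mp h0 x hxm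
      rw [this]; ring
    · have hε2 : ε ^ 2 = 1 := by rcases hε1 with rfl | rfl <;> norm_num
      rw [hε2]
      have hsum : ∑ x ∈ Finset.univ.erase (1 : X), (1 - (z x) ^ 2) = 0 := by
        rw [Finset.sum_sub_distrib, Finset.sum_const, hcardE, ← hNz, hNε', hε2]
        simp only [nsmul_eq_mul, mul_one]
        rw [hcast]; ring
      have := (Finset.sum_eq_zero_iff_of_nonneg (fun x hx' => by
        have := hbound x (Finset.ne_of_mem_erase hx'); linarith)).mp hsum x hxm
      linarith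

set_option maxHeartbeats 2000000 in
/-- Cyclic `S` acting coprimely on `G` with all `C_G(x)`, `x ≠ 1`, equal to `C`:
the canonical extension has the shape `ε β(c) μ(x)` on `C × (S - 1)`. -/
theorem uniform_values {Γ : Type u} [Group Γ] [Fintype Γ] (G S : Subgroup Γ) [Fintype G]
    (hnorm : ∀ s ∈ S, ∀ g ∈ G, s * g * s⁻¹ ∈ G) (hcop : (Nat.card G).Coprime (Nat.card S))
    (htop : G ⊔ S = ⊤) (hcyc : IsCyclic S) (C : Subgroup Γ) [Fintype C]
    (hC : C = G ⊓ Subgroup.centralizer (S : Set Γ)) (hCG : C ≤ G)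
    (hfpf : ∀ x ∈ S, x ≠ 1 → G ⊓ Subgroup.centralizer ({x} : Set Γ) = C)
    (hS2 : 2 ≤ Nat.card S)
    {χh : Γ → ℂ} (hχh : IsIrrCharacter Γ χh) (hres : IsIrrCharacter G (fun g : G => χh g))
    (hdet : (Cfsg.detOrder χh).Coprime (Nat.card S))
    (β : IrrCharacter C) (ε₀ : ℤ) (hε₀ : ε₀ = 1 ∨ ε₀ = -1)
    (hβ : ∀ c : C, ∀ s : Γ, Subgroup.zpowers s = S →
      χh ((c : Γ) * s) = (ε₀ : ℂ) * (β : C → ℂ) c) :
    ∃ ε : ℤ, (ε = 1 ∨ ε = -1) ∧
      (∃ μ : S → ℂ, IsCharacter S μ ∧ μ 1 = 1 ∧ (∀ x : S, μ x * μ x = 1) ∧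
        ∀ c : C, ∀ x : S, x ≠ 1 → χh ((c : Γ) * x) = (ε : ℂ) * (β : C → ℂ) c * μ x) ∧
      (∃ ϑ : C → ℂ, IsCharacter C ϑ ∧
        (fun c : C => χh c) = fun c => (Nat.card S : ℂ) * ϑ c + (ε : ℂ) * (β : C → ℂ) c) := by
  classical
  haveI := hcyc
  haveI hGn : G.Normal := setup_normal G S hnorm htop
  have hidx := setup_index G S htop
  have hcard := setup_card G S htop
  have hpow : ∀ m : ℕ, m.Coprime (Nat.card Γ) → m ≡ 1 [MOD Nat.card G] →
      ∀ x : Γ, χh (x ^ m) = χh x :=
    fun m hm hm1 x => canon_pow_invariant G S hidx hcop hχh hres hdet m hm hm1 x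
  haveI : Fintype S := Fintype.ofFinite _
  have hcent : ∀ (c : C) (x : S), (c : Γ) * x = x * c := by
    intro c x
    have hc : (c : Γ) ∈ G ⊓ Subgroup.centralizer (S : Set Γ) := hC ▸ c.2
    exact ((Subgroup.mem_centralizer_iff.mp hc.2) x x.2).symm
  let j : C × S →* Γ := MonoidHom.noncommCoprod C.subtype S.subtype (fun c x => hcent c x)
  set Φ : C × S → ℂ := χh ∘ j with hΦ
  have hΦchar : IsCharacter (C × S) Φ := IsCharacter.comp (IsIrrCharacter.isCharacter hχh) j
  have hΦv : ∀ (c : C) (x : S), Φ (c, x) = χh ((c : Γ) * x) := fun c x => rfl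
  haveI : Fintype (IrrCharacter C) := irrFintype
  haveI : Fintype (IrrCharacter S) := irrFintype
  have hex : ∀ (γ : IrrCharacter C) (l : IrrCharacter S), ∃ n : ℕ,
      classInner Φ (fun x : C × S => (γ : C → ℂ) x.1 * (l : S → ℂ) x.2) = n :=
    fun γ l => IsCharacter.classInner_irr_nat hΦchar (isIrrCharacter_prod γ.2 l.2)
  choose a ha using hex
  set t : IrrCharacter C → S → ℂ := fun γ x => classInner (fun c => Φ (c, x)) (γ : C → ℂ) with ht
  have hcardC : (Nat.card C : ℂ) ≠ 0 := by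
    have : Nat.card C ≠ 0 := Nat.card_pos.ne'
    exact_mod_cast this
  have hA : ∀ (γ : IrrCharacter C) (l : IrrCharacter S),
      classInner (t γ) (l : S → ℂ) = a γ l := by
    intro γ l
    rw [← ha γ l]
    simp only [ht, classInner, Nat.card_prod, Fintype.sum_prod_type, Nat.cast_mul]
    have h1 : ∀ z : S, ((Nat.card C : ℂ)⁻¹ * ∑ c, Φ (c, z) * conj ((γ : C → ℂ) c))
          * conj ((l : S → ℂ) z)
        = (Nat.card C : ℂ)⁻¹ * ∑ c, Φ (c, z) * conj ((γ : C → ℂ) c * (l : S → ℂ) z) := by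
      intro z
      rw [mul_assoc, Finset.sum_mul]
      congr 1
      refine Finset.sum_congr rfl (fun c _ => ?_)
      rw [map_mul]
      ring
    rw [Finset.sum_congr rfl (fun z _ => h1 z), ← Finset.mul_sum,
      Finset.sum_comm (s := (Finset.univ : Finset S)) (t := (Finset.univ : Finset C)), mul_inv]
    ring
  have hcommS : ∀ a b : S, a * b = b * a :=
    fun a b => (IsCyclic.isMulCommutative (α := S)).is_comm.comm a b
  have htcf : ∀ γ, IsClassFunction S (t γ) := by
    intro γ g h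
    rw [hcommS h g, mul_assoc, mul_inv_cancel, mul_one]
  have hlin : ∀ l : IrrCharacter S, (l : S → ℂ) 1 = 1 :=
    fun l => irr_degree_one_of_comm hcommS l.2
  have htexp : ∀ γ, t γ = ∑ l : IrrCharacter S, (a γ l : ℂ) • (l : S → ℂ) := by
    intro γ
    calc t γ = ∑ l : IrrCharacter S, classInner (t γ) (l : S → ℂ) • (l : S → ℂ) :=
          classFunction_expansion (htcf γ)
      _ = _ := Finset.sum_congr rfl (fun l _ => by rw [hA])
  have htchar : ∀ γ, IsCharacter S (t γ) := by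
    intro γ
    rw [htexp γ]
    apply Finset.sum_induction _ (fun f => IsCharacter S f)
      (fun f g hf hg => IsCharacter.add hf hg) isCharacter_zero
    intro l _
    exact IsCharacter.natCast_smul (IsIrrCharacter.isCharacter l.2) _
  have hΦpow : ∀ (c : C) (x : S) (m : ℕ), m.Coprime (Nat.card S) → Φ (c, x ^ m) = Φ (c, x) := by
    intro c x m hm
    obtain ⟨m', hm'1, hm'2⟩ := Nat.chineseRemainder hcop.symm m 1
    have hm'cop : m'.Coprime (Nat.card Γ) := by
      apply Nat.Coprime.coprime_dvd_right hcard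
      apply Nat.Coprime.mul_right
      · rw [Nat.Coprime, Nat.ModEq.gcd_eq hm'2]; exact Nat.gcd_one_left _
      · rw [Nat.Coprime, Nat.ModEq.gcd_eq hm'1]; exact hm
    have e1 : ((c : Γ) * x) ^ m' = (c : Γ) * (x : Γ) ^ m := by
      have hcomm : Commute (c : Γ) (x : Γ) := hcent c x
      rw [hcomm.mul_pow]
      have h1 : (c : Γ) ^ m' = (c : Γ) ^ 1 := by
        rw [pow_eq_pow_iff_modEq]
        apply hm'2.of_dvd
        have h2 := orderOf_dvd_natCard (⟨c, hCG c.2⟩ : G)
        rwa [Subgroup.orderOf_mk] at h2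
      have h2 : (x : Γ) ^ m' = (x : Γ) ^ m := by
        rw [pow_eq_pow_iff_modEq]
        apply hm'1.of_dvd
        rw [Subgroup.orderOf_coe]
        exact orderOf_dvd_natCard x
      rw [h1, h2, pow_one]
    have h3 := hpow m' hm'cop hm'2 ((c : Γ) * x)
    rw [e1] at h3
    rw [hΦv, hΦv, Subgroup.coe_pow]
    exact h3
  have hint : ∀ γ (x : S), ∃ z : ℤ, t γ x = z := by
    intro γ x
    apply Cfsg.Agent.Lib.Helper10.CycGal.char_int_of_pow_invariant (htchar γ) x
    intro m hm
    simp only [ht]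
    congr 1
    funext c
    exact hΦpow c x m hm
  choose z hz using hint
  have hFcf : ∀ x : S, IsClassFunction C (fun c => Φ (c, x)) := by
    intro x c c'
    simp only [hΦv]
    have h1 : ((c' * c * c'⁻¹ : C) : Γ) * (x : Γ) = (c' : Γ) * ((c : Γ) * x) * (c' : Γ)⁻¹ := by
      have h2 := hcent c' x
      simp only [Subgroup.coe_mul, Subgroup.coe_inv]
      have h3 : (c' : Γ)⁻¹ * (x : Γ) = (x : Γ) * (c' : Γ)⁻¹ := by
        rw [inv_mul_eq_iff_eq_mul, ← mul_assoc, h2, mul_assoc, mul_inv_cancel, mul_one]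
      calc (c' : Γ) * c * (c' : Γ)⁻¹ * x = (c' : Γ) * c * ((c' : Γ)⁻¹ * x) := by group
        _ = (c' : Γ) * c * ((x : Γ) * (c' : Γ)⁻¹) := by rw [h3]
        _ = _ := by group
    rw [h1]
    exact IsIrrCharacter.isClassFunction hχh _ _
  -- norm one for every non-identity x
  have hnorm1 : ∀ x : S, x ≠ 1 → classInner (fun c => Φ (c, x)) (fun c => Φ (c, x)) = 1 := by
    intro x hx
    have hxΓ : (x : Γ) ≠ 1 := fun h => hx (Subtype.ext h)
    have hzle : Subgroup.zpowers (x : Γ) ≤ S := by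
      rw [Subgroup.zpowers_le]; exact x.2
    have hnorm' : ∀ s ∈ Subgroup.zpowers (x : Γ), ∀ g ∈ G, s * g * s⁻¹ ∈ G :=
      fun s hs g hg => hnorm s (hzle hs) g hg
    have hcop' : (Nat.card G).Coprime (Nat.card (Subgroup.zpowers (x : Γ))) :=
      Nat.Coprime.coprime_dvd_right (Subgroup.card_dvd_of_le hzle) hcop
    have hcz : Subgroup.centralizer ((Subgroup.zpowers (x : Γ) : Subgroup Γ) : Set Γ)
        = Subgroup.centralizer ({(x : Γ)} : Set Γ) := by
      ext g
      simp only [Subgroup.mem_centralizer_iff, Set.mem_singleton_iff, SetLike.mem_coe]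
      constructor
      · intro h y hy
        subst hy
        exact h _ (Subgroup.mem_zpowers _)
      · intro h y hy
        obtain ⟨k, rfl⟩ := Subgroup.mem_zpowers_iff.mp hy
        have hc : Commute (x : Γ) g := h _ rfl
        exact (hc.zpow_left k).eq
    have hC' : C = G ⊓ Subgroup.centralizer ((Subgroup.zpowers (x : Γ) : Subgroup Γ) : Set Γ) := by
      rw [hcz]; exact (hfpf x x.2 hxΓ).symm
    have h1 := gen_norm G (Subgroup.zpowers (x : Γ)) C hnorm' hcop' hC' hCG (x : Γ) rfl hχh hres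
    unfold classInner
    simp only [hΦv]
    rw [h1]
    exact inv_mul_cancel₀ hcardC
  have hsumz : ∀ x : S, x ≠ 1 → ∑ γ, (z γ x) ^ 2 = 1 := by
    intro x hx
    have h1 := parseval (hFcf x)
    rw [hnorm1 x hx] at h1
    have : ((∑ γ, (z γ x) ^ 2 : ℤ) : ℂ) = ((1 : ℤ) : ℂ) := by
      push_cast
      rw [h1]
      refine Finset.sum_congr rfl (fun γ _ => ?_)
      have := hz γ x
      simp only [ht] at this
      rw [this, map_intCast]; ring
    exact_mod_cast this
  have hbound : ∀ γ (x : S), x ≠ 1 → (z γ x) ^ 2 ≤ 1 := by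
    intro γ x hx
    rw [← hsumz x hx]
    exact Finset.single_le_sum (f := fun γ => (z γ x) ^ 2) (fun i _ => sq_nonneg _)
      (Finset.mem_univ γ)
  have hfc : ∀ γ, ∃ (l₀ : IrrCharacter S) (q ε : ℤ), (ε = 0 ∨ ε = 1 ∨ ε = -1) ∧
      (a γ l₀ : ℤ) = q + ε ∧ (∀ l, l ≠ l₀ → (a γ l : ℤ) = q) ∧ z γ 1 = Nat.card S * q + ε ∧
      (∀ x, x ≠ 1 → t γ x = ε * (l₀ : S → ℂ) x) ∧ (∀ x, x ≠ 1 → (z γ x) ^ 2 = ε ^ 2) :=
    fun γ => fourier_char hcommS hS2 (t γ) (a γ) (htexp γ) (z γ) (hz γ) (hbound γ)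
  choose l₀ q e he hal₀ hal hz1 htx hzx using hfc
  -- a generator
  obtain ⟨s₀, hs₀⟩ : ∃ s : S, Subgroup.zpowers (s : Γ) = S := by
    obtain ⟨g, hg⟩ := hcyc.exists_generator
    refine ⟨g, ?_⟩
    have h1 : Subgroup.zpowers g = ⊤ := (Subgroup.eq_top_iff' _).mpr hg
    have h2 := congrArg (Subgroup.map S.subtype) h1
    rw [MonoidHom.map_zpowers] at h2
    rw [show S.subtype g = (g : Γ) from rfl] at h2
    rw [h2, ← MonoidHom.range_eq_map, Subgroup.range_subtype]
  have hs₀1 : s₀ ≠ 1 := by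
    intro h
    rw [h] at hs₀
    have : Nat.card S = 1 := by
      rw [← hs₀]
      simp
    omega
  have htβs : t β s₀ = (ε₀ : ℂ) := by
    simp only [ht]
    have : (fun c => Φ (c, s₀)) = (ε₀ : ℂ) • (β : C → ℂ) := by
      funext c
      rw [hΦv, hβ c (s₀ : Γ) hs₀]
      rfl
    rw [this, classInner_smul_left, classInner_irr_self β.2, mul_one]
  have hzβs : z β s₀ = ε₀ := by
    have := hz β s₀
    rw [htβs] at this
    exact_mod_cast this.symm
  have heβ2 : (e β) ^ 2 = 1 := by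
    rw [← hzx β s₀ hs₀1, hzβs]
    rcases hε₀ with rfl | rfl <;> norm_num
  have heβ : e β = 1 ∨ e β = -1 := by
    rcases he β with h | h | h
    · rw [h] at heβ2; norm_num at heβ2
    · exact Or.inl h
    · exact Or.inr h
  have hzero : ∀ γ, γ ≠ β → ∀ x : S, x ≠ 1 → z γ x = 0 := by
    intro γ hγ x hx
    have h1 := hsumz x hx
    have h2 := Finset.add_sum_erase Finset.univ (fun γ => (z γ x) ^ 2) (Finset.mem_univ β)
    rw [h1, hzx β x hx, heβ2] at h2
    have h0 : ∑ γ ∈ Finset.univ.erase β, (z γ x) ^ 2 = 0 := by linarith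
    have := (Finset.sum_eq_zero_iff_of_nonneg (fun γ _ => sq_nonneg (z γ x))).mp h0 γ
      (Finset.mem_erase.mpr ⟨hγ, Finset.mem_univ _⟩)
    exact pow_eq_zero_iff (two_ne_zero) |>.mp this
  have heγ : ∀ γ, γ ≠ β → e γ = 0 := by
    intro γ hγ
    have h1 := hzx γ s₀ hs₀1
    rw [hzero γ hγ s₀ hs₀1] at h1
    have : (e γ) ^ 2 = 0 := by rw [← h1]; ring
    exact pow_eq_zero_iff (two_ne_zero) |>.mp this
  have heC : ((e β : ℤ) : ℂ) * ((e β : ℤ) : ℂ) = 1 := by
    have : (((e β) ^ 2 : ℤ) : ℂ) = ((1 : ℤ) : ℂ) := by rw [heβ2]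
    push_cast at this
    rw [← this]; ring
  refine ⟨e β, heβ, ⟨(l₀ β : S → ℂ), IsIrrCharacter.isCharacter (l₀ β).2, hlin _, ?_, ?_⟩, ?_⟩
  · intro x
    by_cases hx : x = 1
    · rw [hx, hlin, mul_one]
    · have h1 := htx β x hx
      rw [hz β x] at h1
      have h2 : (((z β x) ^ 2 : ℤ) : ℂ) = ((1 : ℤ) : ℂ) := by rw [hzx β x hx, heβ2]
      push_cast at h2
      rw [h1] at h2
      have h3 : ((e β : ℤ) : ℂ) * (l₀ β : S → ℂ) x * (((e β : ℤ) : ℂ) * (l₀ β : S → ℂ) x) = 1 := by
        rw [← h2]; ring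
      calc (l₀ β : S → ℂ) x * (l₀ β : S → ℂ) x
          = (((e β : ℤ) : ℂ) * ((e β : ℤ) : ℂ)) * ((l₀ β : S → ℂ) x * (l₀ β : S → ℂ) x) := by
            rw [heC, one_mul]
        _ = 1 := by rw [← h3]; ring
  · intro c x hx
    have hexp := congrFun (classFunction_expansion (hFcf x)) c
    simp only [Finset.sum_apply, Pi.smul_apply, smul_eq_mul] at hexp
    rw [← hΦv, hexp, Finset.sum_eq_single β]
    · have : classInner (fun c => Φ (c, x)) (β : C → ℂ) = t β x := rfl
      rw [this, htx β x hx]; ring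
    · intro γ _ hγ
      have : classInner (fun c => Φ (c, x)) (γ : C → ℂ) = t γ x := rfl
      rw [this, hz γ x, hzero γ hγ x hx]
      simp
    · intro h; exact absurd (Finset.mem_univ _) h
  · -- the character ϑ
    have hcardL : Fintype.card (IrrCharacter S) = Nat.card S := card_irr_of_comm hcommS
    obtain ⟨l₁, hl₁⟩ : ∃ l₁ : IrrCharacter S, l₁ ≠ l₀ β := by
      apply Fintype.exists_ne_of_one_lt_card
      rw [hcardL]; omega
    refine ⟨∑ γ : IrrCharacter C, (a γ l₁ : ℂ) • (γ : C → ℂ), ?_, ?_⟩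
    · apply Finset.sum_induction _ (fun f => IsCharacter C f)
        (fun f g hf hg => IsCharacter.add hf hg) isCharacter_zero
      intro γ _
      exact IsCharacter.natCast_smul (IsIrrCharacter.isCharacter γ.2) _
    · funext c
      have hexp := congrFun (classFunction_expansion (hFcf 1)) c
      simp only [Finset.sum_apply, Pi.smul_apply, smul_eq_mul] at hexp
      have hΦ1 : Φ (c, 1) = χh c := by
        rw [hΦv]; simp
      rw [← hΦ1, hexp]
      simp only [Finset.sum_apply, Pi.smul_apply, smul_eq_mul, Finset.mul_sum]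
      have hterm : ∀ γ : IrrCharacter C, classInner (fun c => Φ (c, 1)) (γ : C → ℂ) * (γ : C → ℂ) c
          = (Nat.card S : ℂ) * ((a γ l₁ : ℂ) * (γ : C → ℂ) c)
            + (if γ = β then ((e β : ℤ) : ℂ) * (β : C → ℂ) c else 0) := by
        intro γ
        have h0 : classInner (fun c => Φ (c, 1)) (γ : C → ℂ) = t γ 1 := rfl
        rw [h0, hz γ 1, hz1 γ]
        by_cases hγ : γ = β
        · subst hγ
          rw [if_pos rfl]
          have : (a γ l₁ : ℂ) = ((q γ : ℤ) : ℂ) := by exact_mod_cast hal γ l₁ hl₁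
          rw [this]; push_cast; ring
        · rw [if_neg hγ]
          have h1 : (a γ l₁ : ℤ) = q γ := by
            by_cases hl : l₁ = l₀ γ
            · rw [hl, hal₀ γ, heγ γ hγ, add_zero]
            · exact hal γ l₁ hl
          have : (a γ l₁ : ℂ) = ((q γ : ℤ) : ℂ) := by exact_mod_cast h1
          rw [this, heγ γ hγ]; push_cast; ring
      rw [Finset.sum_congr rfl (fun γ _ => hterm γ), Finset.sum_add_distrib,
        Finset.sum_ite_eq' Finset.univ β, if_pos (Finset.mem_univ _)]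

end Cfsg.Agent.Lib.Helper10.Glaub
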