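import Mathlib
import Cfsg.Prelude.Def_Characters
import Cfsg.Agent.Lib.Helper10.Coh2

/-!
Linearity of extension by zero and of induction of functions.
-/

set_option autoImplicit false

namespace Cfsg.Agent.Lib.Helper10.IndLin

open Cfsg.Agent.Lib.Helper1
open scoped ComplexConjugate

variable {G : Type*} [Group G]

theorem extendByZero_add (H : Subgroup G) (a b : H → ℂ) :
    Cfsg.extendByZero H (a + b) = Cfsg.extendByZero H a + Cfsg.extendByZero H b := by
  funext g
  by_cases hg : g ∈ H
  · rw [Pi.add_apply, extendByZero_of_mem H _ hg, extendByZero_of_mem H _ hg,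
      extendByZero_of_mem H _ hg]
    rfl
  · rw [Pi.add_apply, extendByZero_of_not_mem H _ hg, extendByZero_of_not_mem H _ hg,
      extendByZero_of_not_mem H _ hg, add_zero]

theorem extendByZero_smul (H : Subgroup G) (c : ℂ) (a : H → ℂ) :
    Cfsg.extendByZero H (c • a) = c • Cfsg.extendByZero H a := by
  funext g
  by_cases hg : g ∈ H
  · rw [Pi.smul_apply, extendByZero_of_mem H _ hg, extendByZero_of_mem H _ hg]
    rfl
  · rw [Pi.smul_apply, extendByZero_of_not_mem H _ hg, extendByZero_of_not_mem H _ hg,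
      smul_zero]

variable [Fintype G]

theorem indFun_add (H : Subgroup G) (a b : H → ℂ) :
    Cfsg.indFun H (a + b) = Cfsg.indFun H a + Cfsg.indFun H b := by
  funext g
  rw [Pi.add_apply, indFun_apply, indFun_apply, indFun_apply, extendByZero_add]
  simp only [Pi.add_apply, Finset.sum_add_distrib]
  ring

theorem indFun_smul (H : Subgroup G) (c : ℂ) (a : H → ℂ) :
    Cfsg.indFun H (c • a) = c • Cfsg.indFun H a := by
  funext g
  rw [Pi.smul_apply, indFun_apply, indFun_apply, extendByZero_smul]
  simp only [Pi.smul_apply, smul_eq_mul, ← Finset.mul_sum]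
  ring

theorem indFun_zero' (H : Subgroup G) : Cfsg.indFun H (0 : H → ℂ) = 0 := by
  have h := indFun_smul H 0 (0 : H → ℂ)
  simpa using h

theorem indFun_neg (H : Subgroup G) (a : H → ℂ) : Cfsg.indFun H (-a) = -Cfsg.indFun H a := by
  have h := indFun_smul H (-1) a
  simpa using h

theorem indFun_sub (H : Subgroup G) (a b : H → ℂ) :
    Cfsg.indFun H (a - b) = Cfsg.indFun H a - Cfsg.indFun H b := by
  rw [sub_eq_add_neg, indFun_add, indFun_neg, ← sub_eq_add_neg]

theorem indFun_sum {ι : Type*} (H : Subgroup G) (s : Finset ι) (f : ι → H → ℂ) :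
    Cfsg.indFun H (∑ i ∈ s, f i) = ∑ i ∈ s, Cfsg.indFun H (f i) := by
  classical
  induction s using Finset.induction_on with
  | empty => simp [indFun_zero']
  | insert a s ha ih => rw [Finset.sum_insert ha, Finset.sum_insert ha, indFun_add, ih]

theorem indFun_zsmul (H : Subgroup G) (n : ℤ) (a : H → ℂ) :
    Cfsg.indFun H (n • a) = n • Cfsg.indFun H a := by
  rw [Cfsg.Agent.Lib.Helper10.Coh.zsmul_eq_smul, indFun_smul,
    ← Cfsg.Agent.Lib.Helper10.Coh.zsmul_eq_smul]

/-- A character of nonzero degree has norm at least one. -/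
theorem norm_pos_of_character {χ : G → ℂ} (hχ : Cfsg.IsCharacter G χ) (h1 : χ 1 ≠ 0) :
    ∃ n : ℕ, 0 < n ∧ Cfsg.classInner χ χ = (n : ℂ) := by
  obtain ⟨n, hn⟩ := IsCharacter.classInner_nat hχ hχ
  refine ⟨n, ?_, hn⟩
  rcases Nat.eq_zero_or_pos n with h | h
  · exfalso
    rw [h] at hn
    have := Cfsg.Agent.Lib.Helper10.Coh2.classInner_self_eq_zero χ (by rw [hn]; simp)
    rw [this] at h1
    exact h1 rfl
  · exact h

end Cfsg.Agent.Lib.Helper10.IndLin
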