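import Mathlib
import Cfsg.Agent.Lib.Helper10.Glaub23
import Cfsg.Agent.Lib.Helper1.CharCyc
import Cfsg.Agent.Lib.Helper1.CharPElem
import Cfsg.Agent.Lib.Helper1.CharClifford
import Cfsg.Agent.Lib.Helper1.CharMisc

set_option autoImplicit false
open Cfsg
open scoped ComplexConjugate

namespace Cfsg.Agent.Lib.Helper10.Ramif

open Cfsg.Agent.Lib.Helper1 Cfsg.Agent.Lib.Helper10.Glaub

universe u

set_option maxHeartbeats 2000000 in
/-- `Y/N` cyclic of order `m ≥ 2`, `θ ∈ Irr(N)` invariant, `Ψ` a character of `Y` with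
`Ψ_N = e θ` and `∑_{n ∈ N} |Ψ(n y)|² = |N|` off `N`: then `m ∣ e - 1` or `m ∣ e + 1`. -/
theorem ramified_cyclic {Y : Type u} [Group Y] [Fintype Y] (N : Subgroup Y) [hN : N.Normal]
    [Fintype N] (hcyc : IsCyclic (Y ⧸ N)) (hm : 2 ≤ N.index)
    {θ : N → ℂ} (hθ : IsIrrCharacter N θ)
    (hinv : ∀ (y : Y) (n : N), θ ⟨y * n * y⁻¹, hN.conj_mem n n.2 y⟩ = θ n)
    {Ψ : Y → ℂ} (hΨ : IsCharacter Y Ψ) (e : ℕ)
    (hΨN : ∀ n : N, Ψ n = e * θ n)
    (hnormΨ : ∀ y : Y, y ∉ N →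
      ∑ n : N, Ψ ((n : Y) * y) * conj (Ψ ((n : Y) * y)) = Nat.card N) :
    (N.index : ℤ) ∣ (e : ℤ) - 1 ∨ (N.index : ℤ) ∣ (e : ℤ) + 1 := by
  classical
  obtain ⟨θh, hθh, hθhN⟩ := extend_of_cyclic N hcyc hθ hinv
  have hθhN' : IsIrrCharacter N (fun n : N => θh n) := by
    have : (fun n : N => θh n) = θ := funext hθhN
    rw [this]; exact hθ
  haveI : Fintype (IrrCharacter Y) := irrFintype
  haveI : Fintype (IrrCharacter N) := irrFintype
  have hcardN : (Nat.card N : ℂ) ≠ 0 := by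
    have : Nat.card N ≠ 0 := Nat.card_pos.ne'
    exact_mod_cast this
  set B : Y → ℂ := cosetAvg N (fun y => Ψ y * conj (θh y)) with hB
  obtain ⟨mΨ, hm1, hm2⟩ := IsCharacter.eq_sum_irr hΨ
  have hover : ∀ ψ : IrrCharacter Y, mΨ ψ ≠ 0 →
      classInner (fun n : N => (ψ : Y → ℂ) n) (fun n : N => θh n) ≠ 0 := by
    intro ψ hψ
    obtain ⟨mN, hmN1, hmN2⟩ :=
      IsCharacter.eq_sum_irr (IsCharacter.restrict (IsIrrCharacter.isCharacter ψ.2) N)
    have hex : ∃ φ : IrrCharacter N, mN φ ≠ 0 := by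
      by_contra hcon
      push Not at hcon
      have h0 : (fun n : N => (ψ : Y → ℂ) n) = 0 := by
        rw [hmN2]
        apply Finset.sum_eq_zero
        intro φ _
        rw [hcon φ]; simp
      obtain ⟨d, hd0, hd⟩ := IsIrrCharacter.degree_pos ψ.2
      have h1 := congrFun h0 1
      simp only [Pi.zero_apply] at h1
      rw [show ((1 : N) : Y) = 1 from rfl, hd] at h1
      have : d = 0 := by exact_mod_cast h1
      omega
    obtain ⟨φ, hφ⟩ := hex
    have h1 : classInner (fun n : N => (ψ : Y → ℂ) n) (φ : N → ℂ) ≠ 0 := by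
      rw [hmN1 φ]; exact_mod_cast hφ
    have h2 : classInner Ψ (ψ : Y → ℂ) ≠ 0 := by rw [hm1 ψ]; exact_mod_cast hψ
    have h3 := classInner_restrict_ne_zero N hΨ ψ.2 h2 φ.2 h1
    have h4 : (fun n : N => Ψ n) = (e : ℂ) • θ := by funext n; rw [hΨN n]; rfl
    rw [h4, classInner_smul_left] at h3
    have h5 : classInner θ (φ : N → ℂ) ≠ 0 := fun h => h3 (by rw [h, mul_zero])
    have h6 : θ = (φ : N → ℂ) := by
      by_contra hne
      exact h5 (classInner_irr_ne hθ φ.2 hne)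
    have h7 : (fun n : N => θh n) = (φ : N → ℂ) := by rw [← h6]; exact funext hθhN
    rw [h7]; exact h1
  have hBsum : ∀ y, B y = ∑ ψ : IrrCharacter Y,
      (mΨ ψ : ℂ) * cosetAvg N (fun y => (ψ : Y → ℂ) y * conj (θh y)) y := by
    intro y
    simp only [hB, cosetAvg]
    have h1 : ∀ n : N, Ψ ((n : Y) * y) * conj (θh ((n : Y) * y))
        = ∑ ψ : IrrCharacter Y, (mΨ ψ : ℂ) *
            ((ψ : Y → ℂ) ((n : Y) * y) * conj (θh ((n : Y) * y))) := by
      intro n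
      have := congrFun hm2 ((n : Y) * y)
      simp only [Finset.sum_apply, Pi.smul_apply, smul_eq_mul] at this
      rw [this, Finset.sum_mul]
      exact Finset.sum_congr rfl (fun ψ _ => by ring)
    rw [Finset.sum_congr rfl (fun n _ => h1 n), Finset.sum_comm, Finset.mul_sum]
    refine Finset.sum_congr rfl (fun ψ _ => ?_)
    rw [← Finset.mul_sum]; ring
  have hK1 : ∀ y, Ψ y = B y * θh y := by
    intro y
    have h0 := congrFun hm2 y
    simp only [Finset.sum_apply, Pi.smul_apply, smul_eq_mul] at h0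
    rw [h0, hBsum y, Finset.sum_mul]
    refine Finset.sum_congr rfl (fun ψ _ => ?_)
    by_cases hψ : mΨ ψ = 0
    · rw [hψ]; simp
    · obtain ⟨β, -, hβ1, hβ2⟩ := (gallagher_eta N hθh hθhN' ψ.2).1 (hover ψ hψ)
      rw [hβ2, mul_assoc]
      congr 1
      have := congrFun hβ1 y
      simp only [Pi.mul_apply] at this
      exact this.symm
  have hBper : ∀ m ∈ N, ∀ y, B (m * y) = B y := fun m hm y => cosetAvg_mul_left N _ hm y
  obtain ⟨dθ, hdθ0, hdθ⟩ := IsIrrCharacter.degree_pos hθh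
  have hB1 : B 1 = e := by
    have h1 := hK1 1
    have h2 := hΨN 1
    rw [show ((1 : N) : Y) = 1 from rfl] at h2
    have h3 := hθhN 1
    rw [show ((1 : N) : Y) = 1 from rfl] at h3
    rw [h2, ← h3, hdθ] at h1
    have hd : (dθ : ℂ) ≠ 0 := by exact_mod_cast hdθ0.ne'
    exact (mul_right_cancel₀ hd h1).symm
  have hBnorm : ∀ y : Y, y ∉ N → B y * conj (B y) = 1 := by
    intro y hy
    have h1 := hnormΨ y hy
    have h2 := coset_sum_norm N hθh hθhN' y
    have h3 : ∑ n : N, Ψ ((n : Y) * y) * conj (Ψ ((n : Y) * y))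
        = (B y * conj (B y)) * ∑ n : N, θh ((n : Y) * y) * conj (θh ((n : Y) * y)) := by
      rw [Finset.mul_sum]
      refine Finset.sum_congr rfl (fun n _ => ?_)
      rw [hK1 ((n : Y) * y), hBper n n.2 y, map_mul]; ring
    rw [h3, h2] at h1
    exact mul_right_cancel₀ hcardN (by rw [h1, one_mul])
  -- descend to the quotient
  haveI : Fintype (Y ⧸ N) := Fintype.ofFinite _
  haveI : Fintype (IrrCharacter (Y ⧸ N)) := irrFintype
  set B' : Y ⧸ N → ℂ := fun q => B q.out with hB'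
  have hB'mk : ∀ y : Y, B' (y : Y ⧸ N) = B y := by
    intro y
    obtain ⟨h, hh⟩ := QuotientGroup.mk_out_eq_mul N y
    simp only [hB']
    rw [hh]
    have : y * (h : Y) = (y * h * y⁻¹) * y := by group
    rw [this]
    exact hBper _ (hN.conj_mem h h.2 y) y
  have hcommQ : ∀ a b : Y ⧸ N, a * b = b * a :=
    fun a b => (IsCyclic.isMulCommutative (α := Y ⧸ N)).is_comm.comm a b
  have hcardQ : Nat.card (Y ⧸ N) = N.index := rfl
  have hcardL : Fintype.card (IrrCharacter (Y ⧸ N)) = N.index := by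
    rw [card_irr_of_comm hcommQ, hcardQ]
  have hlin : ∀ l : IrrCharacter (Y ⧸ N), (l : Y ⧸ N → ℂ) 1 = 1 :=
    fun l => irr_degree_one_of_comm hcommQ l.2
  have hcardY : (Nat.card Y : ℂ) = (Nat.card (Y ⧸ N) : ℂ) * (Nat.card N : ℂ) := by
    rw [Subgroup.card_eq_card_quotient_mul_card_subgroup N]; push_cast; ring
  have hcardQ0 : (Nat.card (Y ⧸ N) : ℂ) ≠ 0 := by
    have : Nat.card (Y ⧸ N) ≠ 0 := Nat.card_pos.ne'
    exact_mod_cast this
  have hΨcf : IsClassFunction Y Ψ := IsCharacter.isClassFunction hΨ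
  have hex : ∀ l : IrrCharacter (Y ⧸ N), ∃ k : ℕ, classInner B' (l : Y ⧸ N → ℂ) = k := by
    intro l
    have h1 : classInner B (fun y : Y => (l : Y ⧸ N → ℂ) (y : Y ⧸ N))
        = classInner B' (l : Y ⧸ N → ℂ) := by
      unfold classInner
      have h2 := sum_comp_mk N (fun q => B' q * conj ((l : Y ⧸ N → ℂ) q))
      have h3 : ∑ y : Y, B y * conj ((l : Y ⧸ N → ℂ) (y : Y ⧸ N))
          = ∑ y : Y, (fun q => B' q * conj ((l : Y ⧸ N → ℂ) q)) (y : Y ⧸ N) :=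
        Finset.sum_congr rfl (fun y _ => by simp only [hB'mk])
      rw [h3, h2, hcardY]
      field_simp
    rw [← h1, hB, classInner_cosetAvg_inflate N (l : Y ⧸ N → ℂ)]
    have hsrc := inflate_mem_source N l.2
    have htgt := (gallagher_bij N hθh hθhN').1 hsrc
    exact IsCharacter.classInner_irr_nat hΨ htgt.1
  choose a ha using hex
  have hB'cf : IsClassFunction (Y ⧸ N) B' := by
    intro g h
    rw [hcommQ h g, mul_assoc, mul_inv_cancel, mul_one]
  have hB'exp : B' = ∑ l : IrrCharacter (Y ⧸ N), (a l : ℂ) • (l : Y ⧸ N → ℂ) := by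
    calc B' = ∑ l : IrrCharacter (Y ⧸ N), classInner B' (l : Y ⧸ N → ℂ) • (l : Y ⧸ N → ℂ) :=
          classFunction_expansion hB'cf
      _ = _ := Finset.sum_congr rfl (fun l _ => by rw [ha])
  have hB'1 : B' 1 = e := by
    have := hB'mk 1
    rw [hB1] at this
    exact this
  have h1 : ∑ l, (a l : ℤ) = (e : ℤ) := by
    have h := congrFun hB'exp 1
    simp only [Finset.sum_apply, Pi.smul_apply, smul_eq_mul] at h
    rw [hB'1, Finset.sum_congr rfl (fun l _ => by rw [hlin l, mul_one])] at h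
    have : ((e : ℤ) : ℂ) = ((∑ l, (a l : ℤ) : ℤ) : ℂ) := by
      push_cast; exact h
    exact_mod_cast this.symm
  have hm1' : 1 ≤ N.index := by omega
  have h2 : (N.index : ℤ) * ∑ l, (a l : ℤ) ^ 2 = (e : ℤ) ^ 2 + ((N.index - 1 : ℕ) : ℕ) := by
    have hp := parseval hB'cf
    have hR : ∑ l : IrrCharacter (Y ⧸ N), classInner B' (l : Y ⧸ N → ℂ) *
        conj (classInner B' (l : Y ⧸ N → ℂ)) = ((∑ l, (a l : ℤ) ^ 2 : ℤ) : ℂ) := by
      push_cast
      refine Finset.sum_congr rfl (fun l _ => ?_)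
      rw [ha l, map_natCast]; ring
    have hLsum : ∑ q : Y ⧸ N, B' q * conj (B' q) = (e : ℂ) ^ 2 + ((N.index - 1 : ℕ) : ℂ) := by
      rw [← Finset.add_sum_erase Finset.univ _ (Finset.mem_univ (1 : Y ⧸ N)), hB'1, map_natCast]
      congr 1
      · ring
      · have : ∀ q ∈ Finset.univ.erase (1 : Y ⧸ N), B' q * conj (B' q) = 1 := by
          intro q hq
          obtain ⟨y, rfl⟩ := QuotientGroup.mk_surjective q
          have hy : y ∉ N := by
            intro hy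
            exact (Finset.ne_of_mem_erase hq) ((QuotientGroup.eq_one_iff y).mpr hy)
          rw [hB'mk y]
          exact hBnorm y hy
        rw [Finset.sum_congr rfl this, Finset.sum_const, Finset.card_erase_of_mem (Finset.mem_univ _),
          Finset.card_univ, ← Nat.card_eq_fintype_card, hcardQ]
        simp
    have hL : classInner B' B' = (Nat.card (Y ⧸ N) : ℂ)⁻¹ * ∑ q, B' q * conj (B' q) := rfl
    rw [hL, hLsum, hR, hcardQ] at hp
    have hidx : (N.index : ℂ) ≠ 0 := by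
      have : N.index ≠ 0 := by omega
      exact_mod_cast this
    have h4 : (((N.index : ℤ) * ∑ l, (a l : ℤ) ^ 2 : ℤ) : ℂ)
        = (((e : ℤ) ^ 2 + ((N.index - 1 : ℕ) : ℕ) : ℤ) : ℂ) := by
      push_cast
      push_cast at hp
      rw [← hp]; field_simp
    exact_mod_cast h4
  obtain ⟨l₀, q, ε, hε, -, -, hz1, hNε⟩ :=
    fourier_int N.index hm hcardL a (e : ℤ) (N.index - 1) le_rfl h1 h2
  have hcast : ((N.index - 1 : ℕ) : ℤ) = (N.index : ℤ) - 1 := by
    push_cast [Nat.cast_sub hm1']; ring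
  rw [hcast] at hNε
  have hpos : (0 : ℤ) < (N.index : ℤ) - 1 := by
    have : (2 : ℤ) ≤ (N.index : ℤ) := by exact_mod_cast hm
    linarith
  rcases hε with rfl | rfl | rfl
  · exfalso
    have : (N.index : ℤ) - 1 = 0 := by rw [hNε]; ring
    omega
  · left
    exact ⟨q, by rw [hz1]; ring⟩
  · right
    exact ⟨q, by rw [hz1]; ring⟩

/-- If `y` acts fixed-point-freely on `G/N`, every element of `G` is, modulo `N`, a commutator
`u y u⁻¹ y⁻¹` with `u ∈ G`. -/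
theorem exists_comm_of_fpf {Γ : Type u} [Group Γ] [Finite Γ] (G N : Subgroup Γ) [hG : G.Normal]
    [hN : N.Normal] (y : Γ) (hy : ∀ g : Γ, g ∈ G → y * g * y⁻¹ * g⁻¹ ∈ N → g ∈ N)
    (g : Γ) (hg : g ∈ G) :
    ∃ u ∈ G, ∃ n₀ ∈ N, g = n₀ * (u * y * u⁻¹ * y⁻¹) := by
  classical
  set π := QuotientGroup.mk' N with hπ
  set Gb : Subgroup (Γ ⧸ N) := G.map π with hGb
  haveI hGbn : Gb.Normal := Subgroup.Normal.map hG π (QuotientGroup.mk'_surjective N)
  let f : Gb → Gb := fun q => ⟨(q : Γ ⧸ N) * π y * (q : Γ ⧸ N)⁻¹ * (π y)⁻¹, by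
    have h1 : π y * (q : Γ ⧸ N)⁻¹ * (π y)⁻¹ ∈ Gb := hGbn.conj_mem _ (Gb.inv_mem q.2) _
    have h2 := Gb.mul_mem q.2 h1
    have e : (q : Γ ⧸ N) * π y * (q : Γ ⧸ N)⁻¹ * (π y)⁻¹
        = (q : Γ ⧸ N) * (π y * (q : Γ ⧸ N)⁻¹ * (π y)⁻¹) := by group
    rw [e]; exact h2⟩
  have hinj : Function.Injective f := by
    intro q q' hqq
    have h1 : (q : Γ ⧸ N) * π y * (q : Γ ⧸ N)⁻¹ * (π y)⁻¹
        = (q' : Γ ⧸ N) * π y * (q' : Γ ⧸ N)⁻¹ * (π y)⁻¹ := congrArg Subtype.val hqq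
    obtain ⟨w, hw, hwq⟩ : ∃ w ∈ G, π w = (q' : Γ ⧸ N)⁻¹ * (q : Γ ⧸ N) := by
      have : (q' : Γ ⧸ N)⁻¹ * (q : Γ ⧸ N) ∈ Gb := Gb.mul_mem (Gb.inv_mem q'.2) q.2
      obtain ⟨w, hw, hw2⟩ := Subgroup.mem_map.mp this
      exact ⟨w, hw, hw2⟩
    have h2 : π (y * w * y⁻¹ * w⁻¹) = 1 := by
      rw [map_mul, map_mul, map_mul, map_inv, map_inv, hwq]
      have h3 : (q : Γ ⧸ N) * π y * (q : Γ ⧸ N)⁻¹ = (q' : Γ ⧸ N) * π y * (q' : Γ ⧸ N)⁻¹ := by
        have := congrArg (fun t => t * π y) h1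
        simpa using this
      have h4 : (q' : Γ ⧸ N)⁻¹ * (q : Γ ⧸ N) * π y = π y * ((q' : Γ ⧸ N)⁻¹ * (q : Γ ⧸ N)) := by
        have := congrArg (fun t => (q' : Γ ⧸ N)⁻¹ * t * (q : Γ ⧸ N)) h3
        calc (q' : Γ ⧸ N)⁻¹ * (q : Γ ⧸ N) * π y
            = (q' : Γ ⧸ N)⁻¹ * ((q : Γ ⧸ N) * π y * (q : Γ ⧸ N)⁻¹) * (q : Γ ⧸ N) := by group
          _ = (q' : Γ ⧸ N)⁻¹ * ((q' : Γ ⧸ N) * π y * (q' : Γ ⧸ N)⁻¹) * (q : Γ ⧸ N) := this
          _ = _ := by group
      calc π y * ((q' : Γ ⧸ N)⁻¹ * (q : Γ ⧸ N)) * (π y)⁻¹ * ((q' : Γ ⧸ N)⁻¹ * (q : Γ ⧸ N))⁻¹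
          = ((q' : Γ ⧸ N)⁻¹ * (q : Γ ⧸ N) * π y) * (π y)⁻¹ * ((q' : Γ ⧸ N)⁻¹ * (q : Γ ⧸ N))⁻¹ := by
            rw [h4]
        _ = 1 := by group
    have h3 : y * w * y⁻¹ * w⁻¹ ∈ N := by
      have := (QuotientGroup.eq_one_iff (N := N) (y * w * y⁻¹ * w⁻¹)).mp h2
      exact this
    have h4 : w ∈ N := hy w hw h3
    have h5 : π w = 1 := (QuotientGroup.eq_one_iff (N := N) w).mpr h4
    rw [h5] at hwq
    apply Subtype.ext
    have : (q : Γ ⧸ N) = (q' : Γ ⧸ N) * ((q' : Γ ⧸ N)⁻¹ * (q : Γ ⧸ N)) := by group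
    rw [this, ← hwq, mul_one]
  have hsurj : Function.Surjective f := Finite.injective_iff_surjective.mp hinj
  obtain ⟨q, hq⟩ := hsurj ⟨π g, Subgroup.mem_map_of_mem π hg⟩
  obtain ⟨u, hu, huq⟩ := Subgroup.mem_map.mp q.2
  have h1 : (q : Γ ⧸ N) * π y * (q : Γ ⧸ N)⁻¹ * (π y)⁻¹ = π g := congrArg Subtype.val hq
  rw [← huq] at h1
  have h2 : π (g * (u * y * u⁻¹ * y⁻¹)⁻¹) = 1 := by
    rw [map_mul, map_inv, ← h1]
    simp only [map_mul, map_inv]
    group
  have h3 : g * (u * y * u⁻¹ * y⁻¹)⁻¹ ∈ N :=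
    (QuotientGroup.eq_one_iff (N := N) _).mp h2
  exact ⟨u, hu, _, h3, by group⟩

set_option maxHeartbeats 1000000 in
/-- Coset sums of `|χ̂|²` over `N`-cosets outside `G`, for `y` fixed-point-free on `G/N`. -/
theorem coset_norm_frob {Γ : Type u} [Group Γ] [Fintype Γ] (G N : Subgroup Γ) [hG : G.Normal]
    [hN : N.Normal] [Fintype G] [Fintype N] (hNG : N ≤ G)
    {χh : Γ → ℂ} (hχh : IsIrrCharacter Γ χh) (hres : IsIrrCharacter G (fun g : G => χh g))
    (y : Γ) (hy : ∀ g : Γ, g ∈ G → y * g * y⁻¹ * g⁻¹ ∈ N → g ∈ N) :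
    ∑ n : N, χh ((n : Γ) * y) * conj (χh ((n : Γ) * y)) = Nat.card N := by
  classical
  set F : Γ → ℂ := fun γ => χh γ * conj (χh γ) with hF
  have hFc : ∀ a b : Γ, F (a * b * a⁻¹) = F b := by
    intro a b
    simp only [hF]
    rw [IsIrrCharacter.isClassFunction hχh b a]
  set T : Γ → ℂ := fun γ => ∑ n : N, F ((n : Γ) * γ) with hT
  have hTinv : ∀ g : G, T ((g : Γ) * y) = T y := by
    intro g
    obtain ⟨u, hu, n₀, hn₀, hgu⟩ := exists_comm_of_fpf G N y hy (g : Γ) g.2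
    simp only [hT]
    let σ : N ≃ N := (Equiv.mulRight (⟨n₀, hn₀⟩ : N)).trans
      ((MulAut.conjNormal u⁻¹ : MulAut N).toEquiv)
    rw [← Equiv.sum_comp σ (fun n : N => F ((n : Γ) * y))]
    refine Finset.sum_congr rfl (fun n _ => ?_)
    have h1 : ((σ n : N) : Γ) = u⁻¹ * ((n : Γ) * n₀) * u := by
      show ((MulAut.conjNormal u⁻¹ : MulAut N) (n * ⟨n₀, hn₀⟩) : Γ) = _
      rw [MulAut.conjNormal_apply]
      simp
    rw [h1, hgu]
    have h2 : (n : Γ) * (n₀ * (u * y * u⁻¹ * y⁻¹) * y)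
        = u * (u⁻¹ * ((n : Γ) * n₀) * u * y) * u⁻¹ := by group
    rw [h2, hFc]
  have h1 := coset_sum_norm G hχh hres y
  have h2 : ∀ n : N, ∑ g : G, F ((g : Γ) * y) = ∑ g : G, F ((n : Γ) * ((g : Γ) * y)) := by
    intro n
    rw [← Equiv.sum_comp (Equiv.mulLeft (⟨n, hNG n.2⟩ : G)) (fun g : G => F ((g : Γ) * y))]
    refine Finset.sum_congr rfl (fun g _ => ?_)
    simp [mul_assoc]
  have h3 : (Nat.card N : ℂ) * ∑ g : G, F ((g : Γ) * y) = (Nat.card G : ℂ) * T y := by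
    have : ∑ _n : N, ∑ g : G, F ((g : Γ) * y) = ∑ n : N, ∑ g : G, F ((n : Γ) * ((g : Γ) * y)) :=
      Finset.sum_congr rfl (fun n _ => h2 n)
    rw [Finset.sum_const, Finset.card_univ, nsmul_eq_mul, ← Nat.card_eq_fintype_card] at this
    rw [this, Finset.sum_comm]
    have h4 : ∀ g : G, ∑ n : N, F ((n : Γ) * ((g : Γ) * y)) = T y := fun g => hTinv g
    rw [Finset.sum_congr rfl (fun g _ => h4 g), Finset.sum_const, Finset.card_univ, nsmul_eq_mul,
      ← Nat.card_eq_fintype_card]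
  have h5 : ∑ g : G, F ((g : Γ) * y) = (Nat.card G : ℂ) := h1
  rw [h5] at h3
  have hcardG : (Nat.card G : ℂ) ≠ 0 := by
    have : Nat.card G ≠ 0 := Nat.card_pos.ne'
    exact_mod_cast this
  have h6 : T y = (Nat.card N : ℂ) := by
    apply mul_left_cancel₀ hcardG
    rw [← h3]; ring
  exact h6

set_option maxHeartbeats 1000000 in
/-- A `Γ`-invariant `θ ∈ Irr(N)` with `θ^G = e χ`: then `χ_N = e θ` and `χ` is `Γ`-invariant. -/
theorem ramified_data {Γ : Type u} [Group Γ] [Fintype Γ] (G N : Subgroup Γ) [hG : G.Normal]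
    [hN : N.Normal] [Fintype G] [Fintype N] (hNG : N ≤ G)
    (θ : N → ℂ) (hθ : IsIrrCharacter N θ)
    (hinv : ∀ (x : Γ) (n : N), θ ⟨x * n * x⁻¹, hN.conj_mem n n.2 x⟩ = θ n)
    (χ : G → ℂ) (hχ : IsIrrCharacter G χ) (e : ℕ)
    (hram : Cfsg.indFun (N.subgroupOf G) (fun n : N.subgroupOf G => θ ⟨(n : G), n.2⟩)
      = fun g => (e : ℂ) * χ g) :
    (∀ n : N, χ ⟨n, hNG n.2⟩ = e * θ n) ∧
    (∀ (y : Γ) (g : G), χ ⟨y * g * y⁻¹, hG.conj_mem g g.2 y⟩ = χ g) := by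
  classical
  haveI : (N.subgroupOf G).Normal := inferInstance
  haveI : Fintype (N.subgroupOf G) := Fintype.ofFinite _
  set θ' : N.subgroupOf G → ℂ := fun n => θ ⟨(n : G), n.2⟩ with hθ'
  have hθ'irr : IsIrrCharacter (N.subgroupOf G) θ' :=
    IsIrrCharacter.comp_mulEquiv hθ (Subgroup.subgroupOfEquivOfLe hNG)
  have hinv' : ∀ g : G, conjChar (N.subgroupOf G) θ' g = θ' := by
    intro g
    funext n
    exact hinv (g : Γ) ⟨((n : G) : Γ), n.2⟩
  have hind : ∀ n : N.subgroupOf G, Cfsg.indFun (N.subgroupOf G) θ' (n : G)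
      = ((N.subgroupOf G).index : ℂ) * θ' n := fun n => indFun_of_invariant (N.subgroupOf G) hinv' n
  set k := (N.subgroupOf G).index with hk
  have hk0 : k ≠ 0 := Subgroup.index_ne_zero_of_finite
  have hvals : ∀ n : N.subgroupOf G, (e : ℂ) * χ (n : G) = (k : ℂ) * θ' n := by
    intro n
    rw [← hind n, hram]
  have hnorm1 : classInner (Cfsg.indFun (N.subgroupOf G) θ') (Cfsg.indFun (N.subgroupOf G) θ')
      = (k : ℂ) := by
    rw [frobenius_reciprocity (N.subgroupOf G) θ' (indFun_isClassFunction (N.subgroupOf G) θ')]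
    have : (fun n : N.subgroupOf G => Cfsg.indFun (N.subgroupOf G) θ' (n : G))
        = (k : ℂ) • θ' := by
      funext n; rw [hind n]; rfl
    rw [this, classInner_smul_right, classInner_irr_self hθ'irr, map_natCast, mul_one]
  have hnorm2 : classInner (Cfsg.indFun (N.subgroupOf G) θ') (Cfsg.indFun (N.subgroupOf G) θ')
      = (e : ℂ) * (e : ℂ) := by
    rw [hram]
    have : (fun g : G => (e : ℂ) * χ g) = (e : ℂ) • χ := rfl
    rw [this, classInner_smul_left, classInner_smul_right, classInner_irr_self hχ, map_natCast,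
      mul_one]
  have hee : e * e = k := by
    have : ((e * e : ℕ) : ℂ) = (k : ℂ) := by
      push_cast; rw [← hnorm2, hnorm1]
    exact_mod_cast this
  have he0 : e ≠ 0 := by
    intro h; rw [h] at hee; exact hk0 hee.symm
  have heC : (e : ℂ) ≠ 0 := by exact_mod_cast he0
  have hres : ∀ n : N.subgroupOf G, χ (n : G) = (e : ℂ) * θ' n := by
    intro n
    have h := hvals n
    have hkC : (k : ℂ) = (e : ℂ) * (e : ℂ) := by rw [← hee]; push_cast; ring
    rw [hkC, mul_assoc] at h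
    exact mul_left_cancel₀ heC h
  refine ⟨fun n => hres ⟨⟨n, hNG n.2⟩, n.2⟩, ?_⟩
  intro y g
  apply mul_left_cancel₀ heC
  have h1 := congrFun hram g
  have h2 := congrFun hram ⟨y * g * y⁻¹, hG.conj_mem g g.2 y⟩
  rw [← h1, ← h2]
  by_cases hgN : (g : Γ) ∈ N
  · have hgN' : y * (g : Γ) * y⁻¹ ∈ N := hN.conj_mem _ hgN y
    have e1 := hind ⟨g, hgN⟩
    have e2 := hind ⟨⟨y * g * y⁻¹, hG.conj_mem g g.2 y⟩, hgN'⟩
    simp only at e1 e2
    rw [e1, e2]
    congr 1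
    exact hinv y ⟨(g : Γ), hgN⟩
  · have hgN' : y * (g : Γ) * y⁻¹ ∉ N := by
      intro h
      apply hgN
      have := hN.conj_mem _ h y⁻¹
      simpa [mul_assoc] using this
    rw [indFun_normal_of_not_mem (N.subgroupOf G) θ' (g := g) hgN,
      indFun_normal_of_not_mem (N.subgroupOf G) θ'
        (g := ⟨y * g * y⁻¹, hG.conj_mem g g.2 y⟩) hgN']

set_option maxHeartbeats 2000000 in
/-- `Γ/N` Frobenius with kernel `G/N` and cyclic complement, `θ ∈ Irr(N)` invariant and fully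
ramified in `G` with `θ^G = e χ`: then `|Γ : G|` divides `e - 1` or `e + 1`. -/
theorem ramified_frobenius {Γ : Type u} [Group Γ] [Fintype Γ] (G N : Subgroup Γ) [hG : G.Normal]
    [hN : N.Normal] [Fintype G] [Fintype N] (hNG : N ≤ G) (hGlt : G ≠ ⊤)
    (hcyc : IsCyclic (Γ ⧸ G))
    (hfrob : ∀ x : Γ, x ∉ G → ∀ g : Γ, g ∈ G → x * g * x⁻¹ * g⁻¹ ∈ N → g ∈ N)
    (θ : N → ℂ) (hθ : IsIrrCharacter N θ)
    (hinv : ∀ (x : Γ) (n : N), θ ⟨x * n * x⁻¹, hN.conj_mem n n.2 x⟩ = θ n)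
    (χ : G → ℂ) (hχ : IsIrrCharacter G χ) (e : ℕ)
    (hram : Cfsg.indFun (N.subgroupOf G) (fun n : N.subgroupOf G => θ ⟨(n : G), n.2⟩)
      = fun g => (e : ℂ) * χ g) :
    (G.index : ℤ) ∣ (e : ℤ) - 1 ∨ (G.index : ℤ) ∣ (e : ℤ) + 1 := by
  classical
  obtain ⟨hres, hχinv⟩ := ramified_data G N hNG θ hθ hinv χ hχ e hram
  obtain ⟨χh, hχh, hχhG⟩ := extend_of_cyclic G hcyc hχ hχinv
  have hresG : IsIrrCharacter G (fun g : G => χh g) := by
    have : (fun g : G => χh g) = χ := funext hχhG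
    rw [this]; exact hχ
  obtain ⟨q, hq⟩ := hcyc.exists_generator
  obtain ⟨x, rfl⟩ := QuotientGroup.mk_surjective q
  have hidx0 : G.index ≠ 0 := Subgroup.index_ne_zero_of_finite
  have hidx1 : G.index ≠ 1 := fun h => hGlt (Subgroup.index_eq_one.mp h)
  have hm2 : 2 ≤ G.index := by omega
  have hxG : x ∉ G := by
    intro hx
    apply hGlt
    rw [eq_top_iff]
    intro γ _
    have h1 := hq (γ : Γ ⧸ G)
    rw [(QuotientGroup.eq_one_iff x).mpr hx, Subgroup.zpowers_one_eq_bot, Subgroup.mem_bot] at h1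
    exact (QuotientGroup.eq_one_iff γ).mp h1
  have hord : orderOf (x : Γ ⧸ G) = G.index := orderOf_eq_card_of_forall_mem_zpowers hq
  have hxmG : x ^ G.index ∈ G := by
    apply (QuotientGroup.eq_one_iff (N := G) (x ^ G.index)).mp
    rw [QuotientGroup.mk_pow, ← hord]
    exact pow_orderOf_eq_one _
  have hxmN : x ^ G.index ∈ N := by
    apply hfrob x hxG _ hxmG
    have : x * x ^ G.index * x⁻¹ * (x ^ G.index)⁻¹ = 1 := by
      rw [← pow_succ', pow_succ, mul_assoc (x ^ G.index), mul_inv_cancel, mul_one, mul_inv_cancel]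
    rw [this]; exact N.one_mem
  set H : Subgroup Γ := N ⊔ Subgroup.zpowers x with hH
  have hNH : N ≤ H := le_sup_left
  have hxH : x ∈ H := le_sup_right (a := N) (Subgroup.mem_zpowers x)
  have hmemH : ∀ h ∈ H, ∃ n ∈ N, ∃ k : ℤ, h = n * x ^ k := by
    intro h hh
    obtain ⟨n, hn, z, hz, rfl⟩ := Subgroup.mem_sup_of_normal_left.mp hh
    obtain ⟨k, rfl⟩ := Subgroup.mem_zpowers_iff.mp hz
    exact ⟨n, hn, k, rfl⟩
  have hHG : ∀ h ∈ H, h ∈ G → h ∈ N := by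
    intro h hh hhG
    obtain ⟨n, hn, k, rfl⟩ := hmemH h hh
    have hxk : x ^ k ∈ G := by
      have := G.mul_mem (G.inv_mem (hNG hn)) hhG
      simpa using this
    have h1 : ((x : Γ ⧸ G)) ^ k = 1 := by
      rw [← QuotientGroup.mk_zpow]
      exact (QuotientGroup.eq_one_iff _).mpr hxk
    have h2 : (orderOf (x : Γ ⧸ G) : ℤ) ∣ k := orderOf_dvd_iff_zpow_eq_one.mpr h1
    rw [hord] at h2
    obtain ⟨j, rfl⟩ := h2
    have h3 : x ^ ((G.index : ℤ) * j) = (x ^ G.index) ^ j := by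
      rw [zpow_mul, zpow_natCast]
    rw [h3]
    exact N.mul_mem hn (N.zpow_mem hxmN j)
  haveI hNHn : (N.subgroupOf H).Normal := inferInstance
  have hcycH : IsCyclic (↥H ⧸ N.subgroupOf H) := by
    refine ⟨⟨QuotientGroup.mk ⟨x, hxH⟩, fun q => ?_⟩⟩
    obtain ⟨⟨h, hh⟩, rfl⟩ := QuotientGroup.mk_surjective q
    obtain ⟨n, hn, k, rfl⟩ := hmemH h hh
    refine ⟨k, ?_⟩
    show (QuotientGroup.mk (⟨x, hxH⟩ : H) : ↥H ⧸ N.subgroupOf H) ^ k = _
    rw [← QuotientGroup.mk_zpow, QuotientGroup.eq, Subgroup.mem_subgroupOf]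
    have : (((⟨x, hxH⟩ : H) ^ k)⁻¹ * ⟨n * x ^ k, hh⟩ : H) = ((x ^ k)⁻¹ * (n * x ^ k) : Γ) := by
      simp
    rw [this]
    have := hN.conj_mem n hn (x ^ k)⁻¹
    simpa [mul_assoc] using this
  have hsup : H ⊔ G = ⊤ := by
    rw [eq_top_iff]
    intro γ _
    obtain ⟨k, hk⟩ := Subgroup.mem_zpowers_iff.mp (hq (γ : Γ ⧸ G))
    have h1 : (x ^ k)⁻¹ * γ ∈ G := by
      rw [← QuotientGroup.mk_zpow] at hk
      exact QuotientGroup.eq.mp hk
    have h2 : γ = x ^ k * ((x ^ k)⁻¹ * γ) := by group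
    rw [h2]
    exact Subgroup.mul_mem _ (Subgroup.mem_sup_left (H.zpow_mem hxH k)) (Subgroup.mem_sup_right h1)
  have hinf : H ⊓ G = N := by
    apply le_antisymm
    · intro h hh
      exact hHG h hh.1 hh.2
    · exact le_inf hNH hNG
  have hidx : (N.subgroupOf H).index = G.index := by
    calc (N.subgroupOf H).index = N.relIndex H := rfl
      _ = (H ⊓ G).relIndex H := by rw [hinf]
      _ = G.relIndex H := Subgroup.inf_relIndex_left H G
      _ = G.relIndex (H ⊔ G) := (Subgroup.relIndex_sup_right H G).symm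
      _ = G.index := by rw [hsup, Subgroup.relIndex_top_right]
  haveI : Fintype ↥H := Fintype.ofFinite _
  haveI : Fintype ↥(N.subgroupOf H) := Fintype.ofFinite _
  set θ'' : N.subgroupOf H → ℂ := fun n => θ ⟨((n : H) : Γ), n.2⟩ with hθ''
  have hθ''irr : IsIrrCharacter (N.subgroupOf H) θ'' :=
    IsIrrCharacter.comp_mulEquiv hθ (Subgroup.subgroupOfEquivOfLe hNH)
  have hinv'' : ∀ (y : H) (n : N.subgroupOf H),
      θ'' ⟨y * n * y⁻¹, hNHn.conj_mem n n.2 y⟩ = θ'' n :=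
    fun y n => hinv (y : Γ) ⟨((n : H) : Γ), n.2⟩
  have hΨ : IsCharacter H (fun h : H => χh h) :=
    IsCharacter.restrict (IsIrrCharacter.isCharacter hχh) H
  have hΨN : ∀ n : N.subgroupOf H, (fun h : H => χh h) n = e * θ'' n := by
    intro n
    have hn : ((n : H) : Γ) ∈ N := n.2
    have h1 := hχhG ⟨((n : H) : Γ), hNG hn⟩
    have h2 := hres ⟨((n : H) : Γ), hn⟩
    show χh ((n : H) : Γ) = e * θ ⟨((n : H) : Γ), n.2⟩
    rw [← h2]
    exact h1
  have hnormΨ : ∀ y : H, y ∉ N.subgroupOf H →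
      ∑ n : N.subgroupOf H, (fun h : H => χh h) ((n : H) * y) *
        conj ((fun h : H => χh h) ((n : H) * y)) = Nat.card (N.subgroupOf H) := by
    intro y hy
    have hyN : (y : Γ) ∉ N := fun h => hy (Subgroup.mem_subgroupOf.mpr h)
    have hyG : (y : Γ) ∉ G := fun h => hyN (hHG y y.2 h)
    have h1 := coset_norm_frob G N hNG hχh hresG (y : Γ) (hfrob y hyG)
    have h2 := Equiv.sum_comp (Subgroup.subgroupOfEquivOfLe hNH).toEquiv
      (fun n : N => χh ((n : Γ) * y) * conj (χh ((n : Γ) * y)))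
    have h3 : Nat.card (N.subgroupOf H) = Nat.card N :=
      Nat.card_congr (Subgroup.subgroupOfEquivOfLe hNH).toEquiv
    rw [h3, ← h1, ← h2]
    rfl
  have key := ramified_cyclic (N.subgroupOf H) hcycH (by rw [hidx]; exact hm2) hθ''irr hinv''
    hΨ e hΨN hnormΨ
  rw [hidx] at key
  exact key

end Cfsg.Agent.Lib.Helper10.Ramif
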