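import Mathlib

set_option autoImplicit false

/-!
# Free actions, fixed combinations for `p`-groups, and a valuation subring of `ℂ`

Auxiliary material for the small-degree TI Sylow restriction statement.
-/

namespace Cfsg.Agent.Lib.Helper10.TISmall

open scoped BigOperators

/-- A free action of a finite group `K` on a finite type `X` has a transversal `T`:
every sum over `X` is a double sum over `K` and `T`. -/
theorem sum_free_action {K X A : Type*} [Group K] [Fintype K] [Fintype X] [AddCommMonoid A]
    (act : K → X → X) (h1 : ∀ x, act 1 x = x)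
    (hmul : ∀ a b x, act (a * b) x = act a (act b x))
    (hfree : ∀ a x, act a x = x → a = 1) :
    ∃ T : Finset X, ∀ F : X → A, ∑ x, F x = ∑ a : K, ∑ t ∈ T, F (act a t) := by
  classical
  let s : Setoid X :=
    { r := fun x y => ∃ a, act a x = y
      iseqv :=
        { refl := fun x => ⟨1, h1 x⟩
          symm := by
            rintro x y ⟨a, rfl⟩
            exact ⟨a⁻¹, by rw [← hmul, inv_mul_cancel, h1]⟩
          trans := by
            rintro x y z ⟨a, rfl⟩ ⟨b, rfl⟩
            exact ⟨b * a, hmul b a x⟩ } }
  let T : Finset X := Finset.univ.filter (fun x => (Quotient.mk s x).out = x)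
  have hinv : ∀ a x, act a⁻¹ (act a x) = x := by
    intro a x
    rw [← hmul, inv_mul_cancel, h1]
  have hinv' : ∀ a x, act a (act a⁻¹ x) = x := by
    intro a x
    rw [← hmul, mul_inv_cancel, h1]
  have hcls : ∀ a x, Quotient.mk s (act a x) = Quotient.mk s x := by
    intro a x
    exact Quotient.sound (⟨a⁻¹, hinv a x⟩ : s.r (act a x) x)
  have hex : ∀ x, ∃ a, act a⁻¹ x ∈ T ∧ ∀ b, act b⁻¹ x ∈ T → b = a := by
    intro x
    have h2 : s.r (Quotient.mk s x).out x := Quotient.mk_out (s := s) x
    obtain ⟨a, ha⟩ : ∃ a, act a x = (Quotient.mk s x).out := by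
      have h3 : s.r x (Quotient.mk s x).out := s.iseqv.symm h2
      exact h3
    refine ⟨a⁻¹, ?_, ?_⟩
    · rw [inv_inv, ha]
      simp only [T, Finset.mem_filter, Finset.mem_univ, true_and]
      rw [Quotient.out_eq]
    · intro b hb
      simp only [T, Finset.mem_filter, Finset.mem_univ, true_and] at hb
      rw [hcls] at hb
      have h4 : act b⁻¹ x = act a x := by rw [ha, hb]
      have h5 : act (a⁻¹ * b⁻¹) x = x := by
        rw [hmul, h4, hinv]
      have h6 := hfree _ _ h5
      have h7 : b⁻¹ = a := by
        have := congrArg (fun t => a * t) h6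
        simpa using this
      rw [← h7, inv_inv]
  refine ⟨T, fun F => ?_⟩
  have e1 : ∀ x, F x = ∑ a : K, if act a⁻¹ x ∈ T then F x else 0 := by
    intro x
    obtain ⟨a, ha, hu⟩ := hex x
    rw [Finset.sum_eq_single a]
    · rw [if_pos ha]
    · intro b _ hb
      rw [if_neg]
      intro h
      exact hb (hu b h)
    · intro h
      exact absurd (Finset.mem_univ a) h
  calc ∑ x, F x = ∑ x, ∑ a : K, if act a⁻¹ x ∈ T then F x else 0 :=
        Finset.sum_congr rfl (fun x _ => e1 x)
    _ = ∑ a : K, ∑ x, if act a⁻¹ x ∈ T then F x else 0 := Finset.sum_comm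
    _ = ∑ a : K, ∑ t ∈ T, F (act a t) := by
        refine Finset.sum_congr rfl (fun a _ => ?_)
        let e : X ≃ X :=
          { toFun := act a
            invFun := act a⁻¹
            left_inv := hinv a
            right_inv := hinv' a }
        rw [← Equiv.sum_comp e (fun x => if act a⁻¹ x ∈ T then F x else 0)]
        have : ∀ x, (if act a⁻¹ (e x) ∈ T then F (e x) else 0) = if x ∈ T then F (act a x) else 0 := by
          intro x
          show (if act a⁻¹ (act a x) ∈ T then F (act a x) else 0) = _
          rw [hinv]
        rw [Finset.sum_congr rfl (fun x _ => this x)]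
        rw [Finset.sum_ite_mem, Finset.univ_inter]

end Cfsg.Agent.Lib.Helper10.TISmall
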