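import Mathlib

set_option autoImplicit false

/-!
# Fixed combinations for `p`-groups in characteristic `p`, and a valuation subring of `ℂ`
-/

namespace Cfsg.Agent.Lib.Helper10.TISmall

open scoped BigOperators

/-- Socle of the group algebra of a `p`-group in characteristic `p`, in elementary form:
every nonzero function `f` on `P` has an integral combination of left translates which is a
nonzero constant. -/
theorem exists_fixed_comb {P : Type*} [Group P] [Fintype P] {p : ℕ} [Fact p.Prime]
    (hP : IsPGroup p P) {k : Type*} [CommRing k] (hk : (p : k) = 0) (f : P → k) (hf : f ≠ 0) :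
    ∃ (n : P → ℕ) (c : k), c ≠ 0 ∧ ∀ z, ∑ x, (n x : k) * f (x⁻¹ * z) = c := by
  classical
  have hp : p.Prime := Fact.out
  haveI : Nontrivial k := by
    by_contra h
    rw [not_nontrivial_iff_subsingleton] at h
    exact hf (Subsingleton.elim _ _)
  haveI : CharP k p := (CharP.charP_iff_prime_eq_zero hp).2 hk
  let φ : ZMod p →+* k := ZMod.castHom (dvd_refl p) k
  let Ψ : (P → ZMod p) →+ (P → k) :=
    { toFun := fun n z => ∑ x, φ (n x) * f (x⁻¹ * z)
      map_zero' := by
        funext z
        simp
      map_add' := by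
        intro n n'
        funext z
        simp only [Pi.add_apply, map_add, add_mul, Finset.sum_add_distrib] }
  let S : AddSubgroup (P → k) := Ψ.range
  haveI : Finite S := by
    have : Finite (Set.range Ψ) := Set.finite_range Ψ
    exact this
  have hshift : ∀ (a : P) (s : P → k), s ∈ S → (fun z => s (a⁻¹ * z)) ∈ S := by
    rintro a s ⟨n, rfl⟩
    refine ⟨fun x => n (a⁻¹ * x), ?_⟩
    funext z
    show ∑ x, φ (n (a⁻¹ * x)) * f (x⁻¹ * z) = ∑ x, φ (n x) * f (x⁻¹ * (a⁻¹ * z))
    rw [← Equiv.sum_comp (Equiv.mulLeft a) (fun x => φ (n (a⁻¹ * x)) * f (x⁻¹ * z))]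
    refine Finset.sum_congr rfl (fun x _ => ?_)
    simp [mul_assoc]
  letI : MulAction P S :=
    { smul := fun a s => ⟨fun z => s.1 (a⁻¹ * z), hshift a s.1 s.2⟩
      one_smul := by
        intro s
        apply Subtype.ext
        funext z
        show s.1 (1⁻¹ * z) = s.1 z
        simp
      mul_smul := by
        intro a b s
        apply Subtype.ext
        funext z
        show s.1 ((a * b)⁻¹ * z) = s.1 (b⁻¹ * (a⁻¹ * z))
        simp [mul_assoc] }
  have hsmul : ∀ (a : P) (s : S) (z : P), (a • s).1 z = s.1 (a⁻¹ * z) := fun _ _ _ => rfl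
  have hfS : f ∈ S := by
    refine ⟨Pi.single 1 1, ?_⟩
    funext z
    show ∑ x, φ ((Pi.single 1 1 : P → ZMod p) x) * f (x⁻¹ * z) = f z
    rw [Finset.sum_eq_single 1]
    · simp
    · intro b _ hb
      rw [Pi.single_eq_of_ne hb]
      simp
    · intro h
      exact absurd (Finset.mem_univ _) h
  have hdvd : p ∣ Nat.card S := by
    have h1 : addOrderOf (⟨f, hfS⟩ : S) = p := by
      apply addOrderOf_eq_prime
      · apply Subtype.ext
        funext z
        show (p • f) z = 0
        simp [hk]
      · intro h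
        exact hf (congrArg Subtype.val h)
    rw [← h1]
    exact addOrderOf_dvd_natCard _
  have h0 : (0 : S) ∈ MulAction.fixedPoints P S := by
    intro a
    apply Subtype.ext
    funext z
    rw [hsmul]
    rfl
  obtain ⟨b, hb, hb0⟩ := hP.exists_fixed_point_of_prime_dvd_card_of_fixed_point S hdvd h0
  obtain ⟨n, hn⟩ := b.2
  have hconst : ∀ z, b.1 z = b.1 1 := by
    intro z
    have h2 := hb z
    have h3 := congrArg (fun s : S => s.1 z) h2
    simp only [hsmul, inv_mul_cancel] at h3
    exact h3.symm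
  refine ⟨fun x => (n x).val, b.1 1, ?_, ?_⟩
  · intro h
    apply hb0
    apply Subtype.ext
    funext z
    rw [hconst z, h]
    rfl
  · intro z
    rw [← hconst z, ← hn]
    show _ = ∑ x, φ (n x) * f (x⁻¹ * z)
    refine Finset.sum_congr rfl (fun x _ => ?_)
    congr 1
    conv_rhs => rw [← ZMod.natCast_zmod_val (n x)]
    rw [map_natCast]

/-- A valuation subring of `ℂ` in which the prime `p` is not a unit. -/
theorem exists_valuationSubring (p : ℕ) (hp : p.Prime) :
    ∃ B : ValuationSubring ℂ, (p : ℂ) ∈ B.nonunits := by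
  let A : Subring ℂ := (Int.castRingHom ℂ).range
  have hpA : (p : ℂ) ∈ A := ⟨(p : ℤ), by simp⟩
  let I : Ideal A := Ideal.span {(⟨(p : ℂ), hpA⟩ : A)}
  have hI : I ≠ ⊤ := by
    intro h
    have h1 : (1 : A) ∈ I := (Ideal.eq_top_iff_one I).mp h
    obtain ⟨a, ha⟩ := Ideal.mem_span_singleton'.mp h1
    obtain ⟨m, hm⟩ := a.2
    have h2 : ((m : ℤ) : ℂ) * (p : ℂ) = 1 := by
      have := congrArg Subtype.val ha
      simp only [Subring.coe_mul, Subring.coe_one] at this
      rw [← this, ← hm]
      rfl
    have h3 : m * (p : ℤ) = 1 := by exact_mod_cast h2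
    have h4 : IsUnit (p : ℤ) := IsUnit.of_mul_eq_one m (by rw [mul_comm]; exact h3)
    rw [Int.isUnit_iff] at h4
    have := hp.two_le
    omega
  obtain ⟨B, -, hB⟩ := Ideal.image_subset_nonunits_valuationSubring I hI
  exact ⟨B, hB ⟨⟨(p : ℂ), hpA⟩, Ideal.subset_span rfl, rfl⟩⟩

end Cfsg.Agent.Lib.Helper10.TISmall
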