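import Mathlib
import Cfsg.Agent.Lib.Helper10.TISmall2

set_option autoImplicit false

/-!
# The socle step: from a linear dependence of `P`-translates to a congruence
-/

namespace Cfsg.Agent.Lib.Helper10.TISmall

open scoped BigOperators

/-- Let `P` be a finite `p`-group acting linearly on a complex vector space, `B` a valuation
subring of `ℂ` in which `p` is not a unit, and `u` a vector whose `P`-translates are linearly
dependent.  Then the sum of the translates is a combination of the translates with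
coefficients in the maximal ideal of `B`. -/
theorem socle_step {P : Type*} [Group P] [Fintype P] {p : ℕ} [Fact p.Prime] (hP : IsPGroup p P)
    (B : ValuationSubring ℂ) (hB : (p : ℂ) ∈ B.nonunits)
    {V : Type*} [AddCommGroup V] [Module ℂ V] (a : P →* (V →ₗ[ℂ] V)) (u : V)
    (c : P → ℂ) (hc : ∑ y, c y • a y u = 0) (hc0 : ∃ y, c y ≠ 0) :
    ∃ m : P → ℂ, (∀ z, m z ∈ B.nonunits) ∧ ∑ z, a z u = ∑ z, m z • a z u := by
  classical
  obtain ⟨y₁, hy₁⟩ := hc0
  obtain ⟨y₀, -, hmax⟩ := Finset.exists_max_image Finset.univ (fun y => B.valuation (c y))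
    ⟨y₁, Finset.mem_univ _⟩
  have hc0' : c y₀ ≠ 0 := by
    intro h
    have h1 := hmax y₁ (Finset.mem_univ _)
    rw [h, map_zero] at h1
    exact hy₁ ((Valuation.zero_iff _).mp (le_antisymm h1 zero_le'))
  let b : P → ℂ := fun y => c y / c y₀
  have hb : ∀ y, b y ∈ B := by
    intro y
    rw [← B.valuation_le_one_iff]
    show B.valuation (c y / c y₀) ≤ 1
    rw [map_div₀]
    have hpos : 0 < B.valuation (c y₀) := by
      rw [zero_lt_iff]
      exact (Valuation.ne_zero_iff _).mpr hc0'
    exact (div_le_one₀ hpos).mpr (hmax y (Finset.mem_univ _))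
  have hb0 : b y₀ = 1 := div_self hc0'
  have hbrel : ∑ y, b y • a y u = 0 := by
    have : ∑ y, b y • a y u = (c y₀)⁻¹ • ∑ y, c y • a y u := by
      rw [Finset.smul_sum]
      refine Finset.sum_congr rfl (fun y _ => ?_)
      rw [smul_smul]
      congr 1
      show c y / c y₀ = _
      rw [div_eq_inv_mul]
    rw [this, hc, smul_zero]
  let k := IsLocalRing.ResidueField B
  let res : B →+* k := IsLocalRing.residue B
  have hk : (p : k) = 0 := by
    obtain ⟨hpB, hpm⟩ := ValuationSubring.mem_nonunits_iff_exists_mem_maximalIdeal.mp hB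
    have h1 : res ⟨(p : ℂ), hpB⟩ = 0 := (IsLocalRing.residue_eq_zero_iff _).mpr hpm
    have h2 : (⟨(p : ℂ), hpB⟩ : B) = (p : B) := by
      apply Subtype.ext
      simp
    rw [h2, map_natCast] at h1
    exact h1
  let f : P → k := fun y => res ⟨b y, hb y⟩
  have hf : f ≠ 0 := by
    intro h
    have h1 : res ⟨b y₀, hb y₀⟩ = 0 := congrFun h y₀
    have h2 : (⟨b y₀, hb y₀⟩ : B) = 1 := Subtype.ext hb0
    rw [h2, map_one] at h1
    exact one_ne_zero h1
  obtain ⟨n, lam, hlam, hn⟩ := exists_fixed_comb hP hk f hf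
  obtain ⟨l, hl⟩ := IsLocalRing.residue_surjective (R := B) lam⁻¹
  let q : P → B := fun z => l * ∑ x, (n x : B) * ⟨b (x⁻¹ * z), hb _⟩
  have hq : ∀ z, res (q z) = 1 := by
    intro z
    show res (l * ∑ x, (n x : B) * ⟨b (x⁻¹ * z), hb _⟩) = 1
    rw [map_mul, map_sum]
    simp only [map_mul, map_natCast]
    have h1 : (∑ x, (n x : k) * res ⟨b (x⁻¹ * z), hb _⟩) = lam := hn z
    rw [h1]
    have h2 : res l = lam⁻¹ := hl
    rw [h2]
    exact inv_mul_cancel₀ hlam
  refine ⟨fun z => 1 - (q z : ℂ), ?_, ?_⟩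
  · intro z
    rw [ValuationSubring.mem_nonunits_iff_exists_mem_maximalIdeal]
    refine ⟨B.sub_mem B.one_mem (q z).2, ?_⟩
    rw [← IsLocalRing.residue_eq_zero_iff]
    have h1 : (⟨1 - (q z : ℂ), B.sub_mem B.one_mem (q z).2⟩ : B) = 1 - q z := Subtype.ext rfl
    rw [h1, map_sub, map_one]
    have h2 : (IsLocalRing.residue B) (q z) = 1 := hq z
    rw [h2, sub_self]
  · have hq0 : ∑ z, (q z : ℂ) • a z u = 0 := by
      have e1 : ∀ z, (q z : ℂ) = (l : ℂ) * ∑ x, (n x : ℂ) * b (x⁻¹ * z) := by
        intro z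
        simp [q]
      calc ∑ z, (q z : ℂ) • a z u
          = ∑ z, ∑ x, ((l : ℂ) * (n x : ℂ)) • (b (x⁻¹ * z) • a z u) := by
            refine Finset.sum_congr rfl (fun z _ => ?_)
            rw [e1, Finset.mul_sum, Finset.sum_smul]
            refine Finset.sum_congr rfl (fun x _ => ?_)
            rw [smul_smul, mul_assoc]
        _ = ∑ x, ((l : ℂ) * (n x : ℂ)) • ∑ z, b (x⁻¹ * z) • a z u := by
            rw [Finset.sum_comm]
            refine Finset.sum_congr rfl (fun x _ => ?_)
            rw [Finset.smul_sum]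
        _ = ∑ x, ((l : ℂ) * (n x : ℂ)) • a x (∑ y, b y • a y u) := by
            refine Finset.sum_congr rfl (fun x _ => ?_)
            congr 1
            rw [← Equiv.sum_comp (Equiv.mulLeft x) (fun z => b (x⁻¹ * z) • a z u)]
            rw [map_sum]
            refine Finset.sum_congr rfl (fun y _ => ?_)
            simp [map_mul]
        _ = 0 := by
            rw [hbrel]
            simp
    simp only [sub_smul, one_smul, Finset.sum_sub_distrib, hq0, sub_zero]

end Cfsg.Agent.Lib.Helper10.TISmall
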