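import Mathlib
import Cfsg.Agent.Lib.Helper10.TISmall1
import Cfsg.Agent.Lib.Helper10.TISmall3

set_option autoImplicit false

/-!
# Fixed vectors of the normaliser of a TI Sylow subgroup in small modules
-/

namespace Cfsg.Agent.Lib.Helper10.TISmall

open scoped BigOperators Pointwise

/-- Let `P` be a TI Sylow `p`-subgroup of the finite group `G`, and `V'` a `G`-stable
subspace of a complex representation with `dim V' < |P|` and no nonzero `G`-fixed vector.
Then `V'` has no nonzero vector fixed by the normaliser of `P`. -/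
theorem key {G : Type*} [Group G] [Fintype G] (p : ℕ) [Fact p.Prime] (P : Sylow p G)
    (hTI : ∀ g : G, g ∉ Subgroup.normalizer ((P : Subgroup G) : Set G) →
      (P : Subgroup G) ⊓ (MulAut.conj g • (P : Subgroup G)) = ⊥)
    {V : Type*} [AddCommGroup V] [Module ℂ V] (ρ : Representation ℂ G V)
    (V' : Submodule ℂ V) [FiniteDimensional ℂ V'] (hinv : ∀ g, ∀ w ∈ V', ρ g w ∈ V')
    (hdim : Module.finrank ℂ V' < Nat.card (P : Subgroup G))
    (hfix : ∀ w ∈ V', (∀ g, ρ g w = w) → w = 0)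
    (v : V) (hv : v ∈ V')
    (hvN : ∀ g ∈ Subgroup.normalizer ((P : Subgroup G) : Set G), ρ g v = v) : v = 0 := by
  classical
  have hp : p.Prime := Fact.out
  let N : Subgroup G := Subgroup.normalizer ((P : Subgroup G) : Set G)
  have hPN : (P : Subgroup G) ≤ N := Subgroup.le_normalizer
  let X := {g : G // g ∉ N}
  let act : (↥(P : Subgroup G) × ↥N) → X → X := fun a x =>
    ⟨(a.1 : G) * x.1 * (a.2 : G)⁻¹, fun h => x.2 (by
      have h1 : (a.1 : G) ∈ N := hPN a.1.2
      have h2 := N.mul_mem (N.mul_mem (N.inv_mem h1) h) a.2.2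
      have h3 : (a.1 : G)⁻¹ * ((a.1 : G) * x.1 * (a.2 : G)⁻¹) * (a.2 : G) = x.1 := by group
      rwa [h3] at h2)⟩
  have hact1 : ∀ x, act 1 x = x := by
    intro x
    apply Subtype.ext
    show ((1 : ↥(P : Subgroup G) × ↥N).1 : G) * x.1 * (((1 : ↥(P : Subgroup G) × ↥N).2 : G))⁻¹ = x.1
    simp
  have hactmul : ∀ a b x, act (a * b) x = act a (act b x) := by
    intro a b x
    apply Subtype.ext
    show ((a * b).1 : G) * x.1 * (((a * b).2 : G))⁻¹
      = (a.1 : G) * ((b.1 : G) * x.1 * (b.2 : G)⁻¹) * (a.2 : G)⁻¹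
    simp [mul_assoc]
  have hfree : ∀ a x, act a x = x → a = 1 := by
    intro a x h
    have h1 : (a.1 : G) * x.1 * (a.2 : G)⁻¹ = x.1 := congrArg Subtype.val h
    have h2 : (a.2 : G) = x.1⁻¹ * (a.1 : G) * x.1 := by
      calc (a.2 : G) = x.1⁻¹ * x.1 * a.2 := by group
        _ = x.1⁻¹ * ((a.1 : G) * x.1 * (a.2 : G)⁻¹) * a.2 := by rw [h1]
        _ = x.1⁻¹ * (a.1 : G) * x.1 := by group
    have h3 : (a.2 : G) ∈ MulAut.conj x.1⁻¹ • (P : Subgroup G) := by
      rw [h2]
      have := Subgroup.smul_mem_pointwise_smul (a.1 : G) (MulAut.conj x.1⁻¹) (P : Subgroup G) a.1.2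
      simpa [MulAut.smul_def, MulAut.conj_apply] using this
    have h4 : (a.2 : G) ∈ (P : Subgroup G) := by
      have hpg : IsPGroup p ↥(MulAut.conj x.1⁻¹ • (P : Subgroup G)) := by
        have := (x.1⁻¹ • P : Sylow p G).isPGroup'
        rwa [Sylow.coe_subgroup_smul] at this
      have h5 := hpg.inf_normalizer_sylow P
      have h6 : (a.2 : G) ∈ MulAut.conj x.1⁻¹ • (P : Subgroup G) ⊓
          Subgroup.normalizer (P : Set G) := ⟨h3, a.2.2⟩
      rw [h5] at h6
      exact h6.2
    have h7 : (a.1 : G) = x.1 * (a.2 : G) * x.1⁻¹ := by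
      rw [h2]
      group
    have h8 : (a.1 : G) ∈ MulAut.conj x.1 • (P : Subgroup G) := by
      rw [h7]
      have := Subgroup.smul_mem_pointwise_smul (a.2 : G) (MulAut.conj x.1) (P : Subgroup G) h4
      simpa [MulAut.smul_def, MulAut.conj_apply] using this
    have h9 : (a.1 : G) ∈ (P : Subgroup G) ⊓ MulAut.conj x.1 • (P : Subgroup G) := ⟨a.1.2, h8⟩
    rw [hTI x.1 x.2, Subgroup.mem_bot] at h9
    have h10 : (a.2 : G) = 1 := by
      rw [h2, h9]
      group
    exact Prod.ext (Subtype.ext h9) (Subtype.ext h10)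
  obtain ⟨T, hT⟩ := sum_free_action (A := V) act hact1 hactmul hfree
  let u : V := ∑ t ∈ T, ρ t.1 v
  have hu : u ∈ V' := Submodule.sum_mem _ (fun t _ => hinv _ _ hv)
  have htot : ∑ g : G, ρ g v = 0 := by
    apply hfix
    · exact Submodule.sum_mem _ (fun g _ => hinv _ _ hv)
    · intro h
      rw [map_sum]
      rw [← Equiv.sum_comp (Equiv.mulLeft h) (fun g => ρ g v)]
      refine Finset.sum_congr rfl (fun g _ => ?_)
      simp [map_mul]
  have hsplit : ∑ g : G, ρ g v = ∑ x : {g : G // g ∈ N}, ρ x.1 v + ∑ x : X, ρ x.1 v :=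
    (Fintype.sum_subtype_add_sum_subtype (fun g => g ∈ N) (fun g => ρ g v)).symm
  have hN1 : ∑ x : {g : G // g ∈ N}, ρ x.1 v = (Fintype.card ↥N : ℂ) • v := by
    rw [Finset.sum_congr rfl (fun x _ => hvN x.1 x.2)]
    rw [Finset.sum_const, Finset.card_univ, Nat.cast_smul_eq_nsmul]
  have hX : ∑ x : X, ρ x.1 v = (Fintype.card ↥N : ℂ) • ∑ y : ↥(P : Subgroup G), ρ y.1 u := by
    rw [hT (fun x => ρ x.1 v)]
    rw [Fintype.sum_prod_type]
    have h1 : ∀ (y : ↥(P : Subgroup G)) (n : ↥N), ∑ t ∈ T, ρ (act (y, n) t).1 v = ρ y.1 u := by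
      intro y n
      rw [map_sum]
      refine Finset.sum_congr rfl (fun t _ => ?_)
      show ρ ((y : G) * t.1 * (n : G)⁻¹) v = ρ y.1 (ρ t.1 v)
      rw [map_mul, map_mul, Module.End.mul_apply, Module.End.mul_apply, hvN _ (N.inv_mem n.2)]
    simp only [h1, Finset.sum_const, Finset.card_univ]
    rw [← Finset.smul_sum, Nat.cast_smul_eq_nsmul]
  have hrel : v + ∑ y : ↥(P : Subgroup G), ρ y.1 u = 0 := by
    have h1 : (Fintype.card ↥N : ℂ) • (v + ∑ y : ↥(P : Subgroup G), ρ y.1 u) = 0 := by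
      rw [smul_add, ← hN1, ← hX, ← hsplit, htot]
    rcases smul_eq_zero.mp h1 with h | h
    · exact absurd h (by exact_mod_cast Fintype.card_ne_zero)
    · exact h
  have hdep : ∃ c : ↥(P : Subgroup G) → ℂ, ∑ y, c y • ρ y.1 u = 0 ∧ ∃ y, c y ≠ 0 := by
    let w : ↥(P : Subgroup G) → V' := fun y => ⟨ρ y.1 u, hinv _ _ hu⟩
    have hnot : ¬ LinearIndependent ℂ w := by
      intro hli
      have := hli.fintype_card_le_finrank
      rw [Nat.card_eq_fintype_card] at hdim
      omega
    obtain ⟨c, hc, hc0⟩ := Fintype.not_linearIndependent_iff.mp hnot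
    refine ⟨c, ?_, hc0⟩
    have := congrArg Subtype.val hc
    simpa [w] using this
  obtain ⟨c, hc, hc0⟩ := hdep
  obtain ⟨B, hB⟩ := exists_valuationSubring p hp
  obtain ⟨m, hm, hmrel⟩ := socle_step (P := ↥(P : Subgroup G)) P.isPGroup' B hB
    (ρ.comp (P : Subgroup G).subtype) u c hc hc0
  have hmrel' : ∑ z : ↥(P : Subgroup G), ρ z.1 u = ∑ z : ↥(P : Subgroup G), m z • ρ z.1 u :=
    hmrel
  let M : Submodule ↥B V := Submodule.span ↥B (Set.range fun g : G => ρ g v)
  have hM1 : ∀ g, ρ g v ∈ M := fun g => Submodule.subset_span ⟨g, rfl⟩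
  have hM2 : ∀ g w, w ∈ M → ρ g w ∈ M := by
    intro g w hw
    induction hw using Submodule.span_induction with
    | mem x hx =>
      obtain ⟨g', rfl⟩ := hx
      rw [← Module.End.mul_apply, ← map_mul]
      exact hM1 _
    | zero =>
      rw [map_zero]
      exact M.zero_mem
    | add x y _ _ hx hy =>
      rw [map_add]
      exact M.add_mem hx hy
    | smul b x _ hx =>
      have h1 : ρ g (b • x) = b • ρ g x := by
        show ρ g ((b : ℂ) • x) = (b : ℂ) • ρ g x
        rw [map_smul]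
      rw [h1]
      exact M.smul_mem _ hx
  have huM : u ∈ M := Submodule.sum_mem _ (fun t _ => hM1 _)
  let I : Ideal ↥B := IsLocalRing.maximalIdeal ↥B
  have hvIM : v ∈ I • M := by
    have h1 : v = - ∑ z : ↥(P : Subgroup G), m z • ρ z.1 u := by
      rw [← hmrel']
      exact eq_neg_of_add_eq_zero_left hrel
    rw [h1]
    apply Submodule.neg_mem
    apply Submodule.sum_mem
    intro z _
    obtain ⟨hmB, hmI⟩ := ValuationSubring.mem_nonunits_iff_exists_mem_maximalIdeal.mp (hm z)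
    have h2 : m z • ρ z.1 u = (⟨m z, hmB⟩ : ↥B) • ρ z.1 u := rfl
    rw [h2]
    exact Submodule.smul_mem_smul hmI (hM2 _ _ huM)
  have hIM : ∀ g w, w ∈ I • M → ρ g w ∈ I • M := by
    intro g w hw
    refine Submodule.smul_induction_on hw ?_ ?_
    · intro r hr n hn
      have h1 : ρ g (r • n) = r • ρ g n := by
        show ρ g ((r : ℂ) • n) = (r : ℂ) • ρ g n
        rw [map_smul]
      rw [h1]
      exact Submodule.smul_mem_smul hr (hM2 _ _ hn)
    · intro x y hx hy
      rw [map_add]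
      exact Submodule.add_mem _ hx hy
  have hle : M ≤ I • M := by
    apply Submodule.span_le.mpr
    rintro _ ⟨g, rfl⟩
    exact hIM g v hvIM
  have hfg : M.FG := Submodule.fg_span (Set.finite_range _)
  have hjac : I ≤ Ideal.jacobson ⊥ := by
    rw [IsLocalRing.jacobson_eq_maximalIdeal ⊥ bot_ne_top]
  have hbot : M = ⊥ := Submodule.eq_bot_of_le_smul_of_le_jacobson_bot I M hfg hle hjac
  have h1v : v ∈ M := by
    have := hM1 1
    rwa [map_one, Module.End.one_apply] at this
  rw [hbot] at h1v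
  exact (Submodule.mem_bot _).mp h1v

end Cfsg.Agent.Lib.Helper10.TISmall
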