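import Mathlib
import Cfsg.Prelude.Def_Local

set_option autoImplicit false

/-! Group-theoretic part of: a `p`-solvable group with a non-normal TI Sylow `p`-subgroup `P`
has a normal `p'`-subgroup `K` not centralised by `P`, on which `P` acts with uniform
centralisers. -/

namespace Cfsg.Agent.Lib.Helper10.TISolv

open Cfsg
open scoped Pointwise

universe u

variable {G : Type u} [Group G]

/-- a `p`-element of a group of order prime to `p` is trivial -/
theorem eq_one_of_pow_of_coprime {p : ℕ} (K : Subgroup G) [Finite K]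
    (hK : (Nat.card K).Coprime p) {k : G} (hk : k ∈ K) (N : ℕ) (h : k ^ (p ^ N) = 1) : k = 1 := by
  have h1 : orderOf k ∣ p ^ N := orderOf_dvd_of_pow_eq_one h
  have h2 : orderOf k ∣ Nat.card K := by
    have h3 : orderOf (⟨k, hk⟩ : K) ∣ Nat.card K := orderOf_dvd_natCard _
    rwa [← Subgroup.orderOf_coe] at h3
  have h4 : orderOf k = 1 :=
    Nat.eq_one_of_dvd_coprimes (Nat.Coprime.pow_right N hK) h2 h1
  exact orderOf_eq_one_iff.mp h4

/-- the first nontrivial `p`-layer of a `p`-solvable chain -/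
theorem exists_layer [Finite G] {p : ℕ} [Fact p.Prime] (hsolv : IsPSolvable p G)
    (hp : p ∣ Nat.card G) :
    ∃ K R : Subgroup G, K.Normal ∧ R.Normal ∧ K ≤ R ∧ ¬ p ∣ Nat.card K ∧ p ∣ Nat.card R ∧
      ∃ m : ℕ, K.relIndex R = p ^ m := by
  classical
  obtain ⟨n, H, h0, hlast, hmono, hnorm, hfac⟩ := hsolv
  have hex : ∃ i : ℕ, ∃ hi : i < n + 1, p ∣ Nat.card (H ⟨i, hi⟩) := by
    refine ⟨n, Nat.lt_succ_self n, ?_⟩
    have : H ⟨n, Nat.lt_succ_self n⟩ = ⊤ := hlast
    rw [this, Subgroup.card_top]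
    exact hp
  have hmin := fun j => Nat.find_min hex (m := j)
  obtain ⟨hi, hpi⟩ := Nat.find_spec hex
  set i := Nat.find hex with hidef
  have hi0 : i ≠ 0 := by
    intro h
    have h1 : H ⟨i, hi⟩ = ⊥ := by
      have : (⟨i, hi⟩ : Fin (n + 1)) = 0 := Fin.ext h
      rw [this]; exact h0
    rw [h1, Subgroup.card_bot] at hpi
    exact (Fact.out : p.Prime).one_lt.ne' (Nat.dvd_one.mp hpi)
  obtain ⟨j, hj⟩ := Nat.exists_eq_succ_of_ne_zero hi0
  have hjn : j < n := by omega
  have hjlt : j < n + 1 := by omega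
  have hnot : ¬ p ∣ Nat.card (H ⟨j, hjlt⟩) := by
    intro h
    exact hmin j (by omega) ⟨hjlt, h⟩
  have hKR : H ⟨j, hjlt⟩ ≤ H ⟨i, hi⟩ := hmono (by
    rw [Fin.le_def]; show j ≤ i; omega)
  have hcs : (⟨j, hjn⟩ : Fin n).castSucc = ⟨j, hjlt⟩ := rfl
  have hsc : (⟨j, hjn⟩ : Fin n).succ = ⟨i, hi⟩ := by
    apply Fin.ext
    show j + 1 = i
    omega
  have hcard : (H ⟨j, hjlt⟩).relIndex (H ⟨i, hi⟩) * Nat.card (H ⟨j, hjlt⟩) = Nat.card (H ⟨i, hi⟩) := by
    have h1 := Subgroup.index_mul_card ((H ⟨j, hjlt⟩).subgroupOf (H ⟨i, hi⟩))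
    have h2 : Nat.card ((H ⟨j, hjlt⟩).subgroupOf (H ⟨i, hi⟩)) = Nat.card (H ⟨j, hjlt⟩) :=
      Nat.card_congr (Subgroup.subgroupOfEquivOfLe hKR).toEquiv
    rw [h2] at h1
    exact h1
  refine ⟨H ⟨j, hjlt⟩, H ⟨i, hi⟩, hnorm _, hnorm _, hKR, hnot, hpi, ?_⟩
  rcases hfac ⟨j, hjn⟩ with ⟨m, hm⟩ | hc
  · rw [hcs, hsc] at hm
    exact ⟨m, hm⟩
  · exfalso
    rw [hcs, hsc] at hc
    rw [← hcard] at hpi
    rcases (Nat.Prime.dvd_mul (Fact.out : p.Prime)).mp hpi with h | h
    · exact (Fact.out : p.Prime).one_lt.ne' ((Nat.Coprime.symm hc).eq_one_of_dvd h)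
    · exact hnot h

/-- If a TI Sylow `p`-subgroup centralises the bottom of a `p`-layer, it is normal. -/
theorem normal_of_centralizes [Finite G] {p : ℕ} [Fact p.Prime] (P : Sylow p G)
    (hTI : ∀ g : G, g ∉ Subgroup.normalizer ((P : Subgroup G) : Set G) →
      (P : Subgroup G) ⊓ (MulAut.conj g • (P : Subgroup G)) = ⊥)
    (K R : Subgroup G) [hKn : K.Normal] [hRn : R.Normal] (hKR : K ≤ R)
    (hK : ¬ p ∣ Nat.card K) (hR : p ∣ Nat.card R) (m : ℕ) (hm : K.relIndex R = p ^ m)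
    (hcent : (P : Subgroup G) ≤ Subgroup.centralizer (K : Set G)) :
    (P : Subgroup G).Normal := by
  have hp : p.Prime := Fact.out
  have hKc : (Nat.card K).Coprime p := (Nat.Coprime.symm ((Nat.Prime.coprime_iff_not_dvd hp).mpr hK))
  have hsurj : Function.Surjective (QuotientGroup.mk' K) := QuotientGroup.mk'_surjective K
  -- the image of `R` is a normal `p`-subgroup of `G ⧸ K`
  have hRbar : IsPGroup p (R.map (QuotientGroup.mk' K)) := by
    apply IsPGroup.of_card (n := m)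
    have h1 := Subgroup.relIndex_ker R (QuotientGroup.mk' K)
    rw [QuotientGroup.ker_mk'] at h1
    rw [← h1, hm]
  haveI : (R.map (QuotientGroup.mk' K)).Normal := hRn.map _ hsurj
  have hle : R.map (QuotientGroup.mk' K) ≤ (P.mapSurjective hsurj : Sylow p (G ⧸ K)) :=
    hRbar.le_sylow_of_normal _
  -- decomposition of elements of `R`
  have hdec : ∀ x ∈ R, ∃ q ∈ (P : Subgroup G), ∃ k ∈ K, x = q * k := by
    intro x hx
    have h1 : QuotientGroup.mk' K x ∈ (P.mapSurjective hsurj : Sylow p (G ⧸ K)) :=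
      hle ⟨x, hx, rfl⟩
    obtain ⟨q, hq, hqx⟩ := h1
    refine ⟨q, hq, q⁻¹ * x, ?_, by group⟩
    have h2 : QuotientGroup.mk' K (q⁻¹ * x) = 1 := by
      rw [map_mul, map_inv, hqx, inv_mul_cancel]
    exact (QuotientGroup.eq_one_iff _).mp h2
  -- `p`-elements of `R` lie in `P`
  have hpel : ∀ y ∈ R, ∀ j : ℕ, y ^ (p ^ j) = 1 → y ∈ (P : Subgroup G) := by
    intro y hy j hyj
    obtain ⟨q, hq, k, hk, rfl⟩ := hdec y hy
    have hqk : q * k = k * q := by
      have := hcent hq k hk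
      exact this.symm
    obtain ⟨j2, hj2⟩ := (P.isPGroup' ⟨q, hq⟩)
    have hq2 : q ^ (p ^ j2) = 1 := by
      have := congrArg Subtype.val hj2
      simpa using this
    have hcomm : Commute q k := hqk
    have h3 : k ^ (p ^ (j + j2)) = 1 := by
      have h4 : (q * k) ^ (p ^ (j + j2)) = 1 := by
        rw [pow_add, pow_mul, hyj, one_pow]
      rw [hcomm.mul_pow] at h4
      have h5 : q ^ (p ^ (j + j2)) = 1 := by
        rw [add_comm, pow_add, pow_mul, hq2, one_pow]
      rwa [h5, one_mul] at h4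
    have hk1 : k = 1 := eq_one_of_pow_of_coprime K hKc hk _ h3
    rw [hk1, mul_one]
    exact hq
  -- a nontrivial element of `P ⊓ R`
  have hex : ∃ q ∈ (P : Subgroup G), q ∈ R ∧ q ≠ 1 := by
    have hne : ¬ R ≤ K := by
      intro h
      have : R = K := le_antisymm h hKR
      rw [this] at hR
      exact hK hR
    obtain ⟨x, hx, hxK⟩ := Set.not_subset.mp hne
    obtain ⟨q, hq, k, hk, rfl⟩ := hdec x hx
    refine ⟨q, hq, ?_, ?_⟩
    · have : q = q * k * k⁻¹ := by group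
      rw [this]
      exact R.mul_mem hx (R.inv_mem (hKR hk))
    · rintro rfl
      apply hxK
      simpa using hk
  obtain ⟨q, hqP, hqR, hq1⟩ := hex
  obtain ⟨j2, hj2⟩ := (P.isPGroup' ⟨q, hqP⟩)
  have hq2 : q ^ (p ^ j2) = 1 := by
    have := congrArg Subtype.val hj2
    simpa using this
  rw [← Subgroup.normalizer_eq_top_iff, eq_top_iff]
  intro g _
  by_contra hg
  have h1 := hTI g hg
  have h2 : g * q * g⁻¹ ∈ (P : Subgroup G) := by
    apply hpel _ (hRn.conj_mem q hqR g) j2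
    rw [conj_pow, hq2, mul_one, mul_inv_cancel]
  have h3 : g * q * g⁻¹ ∈ MulAut.conj g • (P : Subgroup G) := by
    rw [Subgroup.mem_pointwise_smul_iff_inv_smul_mem]
    simp only [MulAut.smul_def, map_inv, MulAut.conj_inv_apply]
    have : g⁻¹ * (g * q * g⁻¹) * g = q := by group
    rw [this]; exact hqP
  have h4 : g * q * g⁻¹ ∈ (P : Subgroup G) ⊓ MulAut.conj g • (P : Subgroup G) := ⟨h2, h3⟩
  rw [h1, Subgroup.mem_bot] at h4
  apply hq1
  have : q = g⁻¹ * (g * q * g⁻¹) * g := by group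
  rw [this, h4]; group

/-- A `p`-solvable group with a non-normal TI Sylow `p`-subgroup has a normal `p'`-subgroup not
centralised by it. -/
theorem exists_not_centralized [Finite G] {p : ℕ} [Fact p.Prime] (hsolv : IsPSolvable p G)
    (P : Sylow p G)
    (hTI : ∀ g : G, g ∉ Subgroup.normalizer ((P : Subgroup G) : Set G) →
      (P : Subgroup G) ⊓ (MulAut.conj g • (P : Subgroup G)) = ⊥)
    (hnn : ¬ (P : Subgroup G).Normal) :
    ∃ K : Subgroup G, K.Normal ∧ (Nat.card K).Coprime p ∧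
      ¬ ((P : Subgroup G) ≤ Subgroup.centralizer (K : Set G)) := by
  have hp : p.Prime := Fact.out
  have hpG : p ∣ Nat.card G := by
    rcases P.isPGroup'.card_eq_or_dvd with h | h
    · exfalso
      apply hnn
      have : (P : Subgroup G) = ⊥ := Subgroup.card_eq_one.mp h
      rw [this]
      infer_instance
    · exact h.trans (Subgroup.card_subgroup_dvd_card _)
  obtain ⟨K, R, hKn, hRn, hKR, hK, hR, m, hm⟩ := exists_layer hsolv hpG
  refine ⟨K, hKn, (Nat.Coprime.symm ((Nat.Prime.coprime_iff_not_dvd hp).mpr hK)), ?_⟩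
  intro hcent
  exact hnn (normal_of_centralizes P hTI K R hKR hK hR m hm hcent)

/-- uniform centralisers: an element of a normal `p'`-subgroup centralising one nontrivial element
of a TI Sylow `p`-subgroup `P` centralises `P` -/
theorem uniform_centralizers [Finite G] {p : ℕ} [Fact p.Prime] (P : Sylow p G)
    (hTI : ∀ g : G, g ∉ Subgroup.normalizer ((P : Subgroup G) : Set G) →
      (P : Subgroup G) ⊓ (MulAut.conj g • (P : Subgroup G)) = ⊥)
    (K : Subgroup G) [hKn : K.Normal] (hK : (Nat.card K).Coprime p)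
    (x : G) (hx : x ∈ (P : Subgroup G)) (hx1 : x ≠ 1) (c : G) (hc : c ∈ K) (hcx : c * x = x * c)
    (y : G) (hy : y ∈ (P : Subgroup G)) : c * y = y * c := by
  have hcn : c ∈ Subgroup.normalizer ((P : Subgroup G) : Set G) := by
    by_contra hg
    have h1 := hTI c hg
    have h3 : x ∈ MulAut.conj c • (P : Subgroup G) := by
      rw [Subgroup.mem_pointwise_smul_iff_inv_smul_mem]
      simp only [MulAut.smul_def, map_inv, MulAut.conj_inv_apply]
      have : c⁻¹ * x * c = x := by rw [mul_assoc, ← hcx, inv_mul_cancel_left]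
      rw [this]; exact hx
    have h4 : x ∈ (P : Subgroup G) ⊓ MulAut.conj c • (P : Subgroup G) := ⟨hx, h3⟩
    rw [h1, Subgroup.mem_bot] at h4
    exact hx1 h4
  have h1 : c * y * c⁻¹ ∈ (P : Subgroup G) := (Subgroup.mem_normalizer_iff.mp hcn y).mp hy
  have h2 : c * y * c⁻¹ * y⁻¹ ∈ (P : Subgroup G) := (P : Subgroup G).mul_mem h1 ((P : Subgroup G).inv_mem hy)
  have h3 : c * y * c⁻¹ * y⁻¹ ∈ K := by
    have h4 : y * c⁻¹ * y⁻¹ ∈ K := hKn.conj_mem _ (K.inv_mem hc) y
    have h5 := K.mul_mem hc h4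
    have h6 : c * (y * c⁻¹ * y⁻¹) = c * y * c⁻¹ * y⁻¹ := by group
    rwa [h6] at h5
  obtain ⟨j, hj⟩ := (P.isPGroup' ⟨_, h2⟩)
  have hj2 : (c * y * c⁻¹ * y⁻¹) ^ (p ^ j) = 1 := by
    have := congrArg Subtype.val hj
    simpa using this
  have h7 := eq_one_of_pow_of_coprime K hK h3 j hj2
  have h8 : c * y = (c * y * c⁻¹ * y⁻¹) * (y * c) := by group
  rw [h8, h7, one_mul]

end Cfsg.Agent.Lib.Helper10.TISolv
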