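import Mathlib
import Cfsg.Agent.Lib.Helper10.TISolv1
import Cfsg.Agent.Lib.Helper10.Coprime2
import Cfsg.Agent.Lib.Helper16.Generation
import Cfsg.Agent.Lib.Helper9.Cores

set_option autoImplicit false

/-! Structure of a minimal `P`-invariant `p'`-subgroup `A` not centralised by the `p`-group `P`:
commutators of `A` are fixed by `P` and central in `A`. -/

namespace Cfsg.Agent.Lib.Helper10.TISolv

open Cfsg
open scoped Pointwise
open scoped commutatorElement

universe u

variable {G : Type u} [Group G] [Finite G] {p : ℕ} [Fact p.Prime]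

/-- the power trick: if `y a y⁻¹ = a w` with `w ∈ A` fixed by the `p`-element `y`, then `w = 1` -/
theorem conj_eq_of_commute (P A : Subgroup G) (hP : IsPGroup p P) (hcop : (Nat.card A).Coprime p)
    {y a : G} (hy : y ∈ P) (hw : a⁻¹ * (y * a * y⁻¹) ∈ A)
    (hcomm : y * (a⁻¹ * (y * a * y⁻¹)) = (a⁻¹ * (y * a * y⁻¹)) * y) : y * a * y⁻¹ = a := by
  set w := a⁻¹ * (y * a * y⁻¹) with hwdef
  have hyaw : y * a * y⁻¹ = a * w := by rw [hwdef]; group
  have hcj : ∀ j : ℕ, y * w ^ j * y⁻¹ = w ^ j := by
    intro j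
    have hc : Commute y w := hcomm
    have := (hc.pow_right j).eq
    rw [this, mul_inv_cancel_right]
  have key : ∀ j : ℕ, y ^ j * a * (y ^ j)⁻¹ = a * w ^ j := by
    intro j
    induction j with
    | zero => simp
    | succ j ih =>
      have h1 : y ^ (j + 1) * a * (y ^ (j + 1))⁻¹ = y * (y ^ j * a * (y ^ j)⁻¹) * y⁻¹ := by
        rw [pow_succ']; group
      rw [h1, ih]
      have h2 : y * (a * w ^ j) * y⁻¹ = (y * a * y⁻¹) * (y * w ^ j * y⁻¹) := by group
      rw [h2, hyaw, hcj j, pow_succ', mul_assoc]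
  obtain ⟨k, hk⟩ := hP ⟨y, hy⟩
  have hk2 : y ^ (p ^ k) = 1 := by
    have := congrArg Subtype.val hk
    simpa using this
  have h3 := key (p ^ k)
  rw [hk2, one_mul, inv_one, mul_one] at h3
  have h4 : w ^ (p ^ k) = 1 := by
    have : a * w ^ (p ^ k) = a * 1 := by rw [mul_one]; exact h3.symm
    exact mul_left_cancel this
  have h5 : w = 1 := eq_one_of_pow_of_coprime A hcop hw k h4
  rw [hyaw, h5, mul_one]

section minimal

variable (P A : Subgroup G) (hP : IsPGroup p P) (hPA : P ≤ Subgroup.normalizer (A : Set G))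
  (hcop : (Nat.card A).Coprime p)
  (hnc : ¬ (P ≤ Subgroup.centralizer (A : Set G)))
  (hmin : ∀ B : Subgroup G, B ≤ A → B ≠ A → P ≤ Subgroup.normalizer (B : Set G) →
    P ≤ Subgroup.centralizer (B : Set G))

include hP hPA hcop hnc hmin

/-- the derived subgroup of a minimal non-centralised subgroup is proper -/
theorem min_commutator_ne : ⁅A, A⁆ ≠ A := by
  classical
  have key : ∃ (q : ℕ) (_ : Fact q.Prime) (Q : Sylow q A), (Q : Subgroup A) = ⊤ := by
    by_contra hcon
    apply hnc
    have hJ : ((Subgroup.centralizer (P : Set G)).subgroupOf A) = ⊤ := by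
      apply Cfsg.Agent.Lib.Helper9.eq_top_of_forall_exists_sylow_le
      intro q hq
      obtain ⟨Q, hQ⟩ := Cfsg.Agent.Lib.Helper16.Generation.exists_invariant_sylow (p := p) q hcop hP hPA
      refine ⟨Q, ?_⟩
      have hne : (Q : Subgroup A).map A.subtype ≠ A := by
        intro h
        apply hcon
        refine ⟨q, hq, Q, ?_⟩
        rw [eq_top_iff]
        intro x _
        have hx : (x : G) ∈ (Q : Subgroup A).map A.subtype := by rw [h]; exact x.2
        obtain ⟨x', hx', hxx⟩ := hx
        have : x' = x := Subtype.ext hxx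
        rw [← this]; exact hx'
      have hc := hmin _ (Subgroup.map_subtype_le _) hne hQ
      intro x hx
      rw [Subgroup.mem_subgroupOf, Subgroup.mem_centralizer_iff]
      intro y hy
      have h1 := hc hy
      rw [Subgroup.mem_centralizer_iff] at h1
      exact (h1 (x : G) ⟨x, hx, rfl⟩).symm
    intro y hy
    rw [Subgroup.mem_centralizer_iff]
    intro a ha
    have h1 : (⟨a, ha⟩ : A) ∈ (Subgroup.centralizer (P : Set G)).subgroupOf A := by
      rw [hJ]; trivial
    rw [Subgroup.mem_subgroupOf, Subgroup.mem_centralizer_iff] at h1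
    exact (h1 y hy).symm
  obtain ⟨q, hq, Q, hQ⟩ := key
  have hAq : IsPGroup q A := by
    have h1 := Q.isPGroup'
    rw [hQ] at h1
    exact IsPGroup.of_equiv h1 Subgroup.topEquiv
  haveI : Group.IsNilpotent A := hAq.isNilpotent
  haveI : Nontrivial A := by
    by_contra hnt
    rw [not_nontrivial_iff_subsingleton] at hnt
    apply hnc
    intro y hy
    rw [Subgroup.mem_centralizer_iff]
    intro a ha
    have : (⟨a, ha⟩ : A) = 1 := Subsingleton.elim _ _
    have ha1 : a = 1 := congrArg Subtype.val this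
    rw [ha1, one_mul, mul_one]
  have hlt := IsSolvable.commutator_lt_top_of_nontrivial A
  intro h
  have h1 : (commutator A).map A.subtype = ⁅A, A⁆ := by
    rw [commutator_def, Subgroup.map_commutator, ← MonoidHom.range_eq_map, Subgroup.range_subtype]
  have h2 : (commutator A).map A.subtype = (⊤ : Subgroup A).map A.subtype := by
    rw [h1, h, ← MonoidHom.range_eq_map, Subgroup.range_subtype]
  have h3 := Subgroup.map_injective A.subtype_injective h2
  exact hlt.ne h3

/-- `P` centralises the derived subgroup of a minimal non-centralised subgroup -/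
theorem min_commutator_fixed : P ≤ Subgroup.centralizer ((⁅A, A⁆ : Subgroup G) : Set G) := by
  apply hmin
  · rw [Subgroup.commutator_le]
    intro a ha b hb
    rw [commutatorElement_def]
    exact A.mul_mem (A.mul_mem (A.mul_mem ha hb) (A.inv_mem ha)) (A.inv_mem hb)
  · exact min_commutator_ne P A hP hPA hcop hnc hmin
  · exact Cfsg.Agent.Lib.Helper10.Coprime.le_normalizer_commutator_of_le P A A hPA hPA

/-- `[A, P] = A` for a minimal non-centralised subgroup -/
theorem min_commutator_eq : ⁅A, P⁆ = A := by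
  by_contra hne
  have hle : ⁅A, P⁆ ≤ A := Cfsg.Agent.Lib.Helper10.Coprime.commutator_le_of_le_normalizer A P hPA
  have hn : P ≤ Subgroup.normalizer ((⁅A, P⁆ : Subgroup G) : Set G) :=
    Cfsg.Agent.Lib.Helper10.Coprime.le_normalizer_commutator_of_le P A P hPA Subgroup.le_normalizer
  have hc := hmin _ hle hne hn
  apply hnc
  intro y hy
  rw [Subgroup.mem_centralizer_iff]
  intro a ha
  have hw : a⁻¹ * (y * a * y⁻¹) ∈ ⁅A, P⁆ := by
    have h1 : ⁅a⁻¹, y⁆ ∈ ⁅A, P⁆ := Subgroup.commutator_mem_commutator (A.inv_mem ha) hy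
    have h2 : ⁅a⁻¹, y⁆ = a⁻¹ * (y * a * y⁻¹) := by
      rw [commutatorElement_def]; group
    rwa [h2] at h1
  have h3 := hc hy
  rw [Subgroup.mem_centralizer_iff] at h3
  have h4 := conj_eq_of_commute P A hP hcop hy (hle hw) (h3 _ hw).symm
  have : a * y = (y * a * y⁻¹) * y := by rw [h4]
  rw [this]; group

/-- commutators of a minimal non-centralised subgroup are central in it -/
theorem min_commutator_central : A ≤ Subgroup.centralizer ((⁅A, A⁆ : Subgroup G) : Set G) := by
  have hfix := min_commutator_fixed P A hP hPA hcop hnc hmin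
  have h1 : ⁅⁅P, ⁅A, A⁆⁆, A⁆ = ⊥ := by
    rw [Subgroup.commutator_eq_bot_iff_le_centralizer.mpr hfix]
    exact Subgroup.commutator_bot_left A
  have h2 : ⁅⁅⁅A, A⁆, A⁆, P⁆ = ⊥ := by
    have hDA : ⁅A, A⁆ ≤ A := by
      rw [Subgroup.commutator_le]
      intro a ha b hb
      rw [commutatorElement_def]
      exact A.mul_mem (A.mul_mem (A.mul_mem ha hb) (A.inv_mem ha)) (A.inv_mem hb)
    have h3 : ⁅⁅A, A⁆, A⁆ ≤ ⁅A, A⁆ := Subgroup.commutator_mono hDA le_rfl
    have h4 : ⁅⁅A, A⁆, P⁆ = ⊥ :=
      Subgroup.commutator_eq_bot_iff_le_centralizer.mpr (Subgroup.le_centralizer_iff.mp hfix)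
    rw [eq_bot_iff, ← h4]
    exact Subgroup.commutator_mono h3 le_rfl
  have h5 := Subgroup.commutator_commutator_eq_bot_of_rotate h1 h2
  rw [min_commutator_eq P A hP hPA hcop hnc hmin] at h5
  exact Subgroup.commutator_eq_bot_iff_le_centralizer.mp h5

end minimal

end Cfsg.Agent.Lib.Helper10.TISolv
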