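import Mathlib
import Cfsg.Agent.Lib.Helper10.TISolv2
import Cfsg.Agent.Lib.Helper1.CharExtra
import Cfsg.Agent.Lib.Helper1.CharDecomp
import Cfsg.Agent.Lib.Helper1.CharBasic
import Cfsg.Agent.Lib.Helper1.CharReg

set_option autoImplicit false

/-! The non-abelian case: an irreducible character `η` of a minimal non-centralised `A` that does
not kill a commutator satisfies `|P| + 1 ≤ η(1)^2`. -/

namespace Cfsg.Agent.Lib.Helper10.TISolv

open Cfsg
open Cfsg.Agent.Lib.Helper1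
open scoped Pointwise
open scoped commutatorElement
open scoped ComplexConjugate

universe u

variable {G : Type u} [Group G] [Finite G] {p : ℕ} [Fact p.Prime]

/-- values of a character are bounded by the degree -/
theorem norm_le_degree {X : Type u} [Group X] [Finite X] {η : X → ℂ} (hη : IsCharacter X η)
    (d : ℕ) (hd : η 1 = d) (g : X) : ‖η g‖ ≤ (d : ℝ) := by
  obtain ⟨n, ρ, rfl⟩ := hη
  have h1 := norm_char_le ρ g
  have h2 : ρ.character 1 = (Module.finrank ℂ (Fin n → ℂ) : ℂ) := Representation.char_one ρ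
  rw [hd] at h2
  have h3 : d = Module.finrank ℂ (Fin n → ℂ) := by exact_mod_cast h2
  rw [h3]
  exact h1

section minimal

variable (P A : Subgroup G) (hP : IsPGroup p P) (hPA : P ≤ Subgroup.normalizer (A : Set G))
  (hcop : (Nat.card A).Coprime p)
  (hnc : ¬ (P ≤ Subgroup.centralizer (A : Set G)))
  (hmin : ∀ B : Subgroup G, B ≤ A → B ≠ A → P ≤ Subgroup.normalizer (B : Set G) →
    P ≤ Subgroup.centralizer (B : Set G))
  (huni : ∀ x ∈ P, x ≠ 1 → ∀ c ∈ A, c * x = x * c → ∀ y ∈ P, c * y = y * c)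

include hP hPA hcop hnc hmin

theorem comm_mem_center (a b : A) : ⁅a, b⁆ ∈ Subgroup.center A := by
  rw [Subgroup.mem_center_iff]
  intro c
  have h1 := min_commutator_central P A hP hPA hcop hnc hmin c.2
  rw [Subgroup.mem_centralizer_iff] at h1
  have h2 : ⁅(a : G), (b : G)⁆ ∈ ⁅A, A⁆ := Subgroup.commutator_mem_commutator a.2 b.2
  have h3 := h1 _ h2
  apply Subtype.ext
  have h4 : ((⁅a, b⁆ : A) : G) = ⁅(a : G), (b : G)⁆ := by
    simp [commutatorElement_def]
  rw [Subgroup.coe_mul, Subgroup.coe_mul, h4]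
  exact h3.symm

theorem comm_fixed (a b : A) (y : G) (hy : y ∈ P) :
    y * ⁅(a : G), (b : G)⁆ * y⁻¹ = ⁅(a : G), (b : G)⁆ := by
  have h1 := min_commutator_fixed P A hP hPA hcop hnc hmin hy
  rw [Subgroup.mem_centralizer_iff] at h1
  have h2 : ⁅(a : G), (b : G)⁆ ∈ ⁅A, A⁆ := Subgroup.commutator_mem_commutator a.2 b.2
  have h3 := h1 _ h2
  rw [← h3, mul_inv_cancel_right]

include huni in
/-- the key bound for an irreducible character not killing a commutator -/
theorem irr_bound (η : A → ℂ) (hη : IsIrrCharacter A η) (g₀ h₀ : A) (hgh : η ⁅g₀, h₀⁆ ≠ η 1)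
    (d : ℕ) (hd : η 1 = d) : Nat.card P + 1 ≤ d ^ 2 := by
  classical
  haveI : Fintype A := Fintype.ofFinite A
  have hηc : IsCharacter A η := IsIrrCharacter.isCharacter hη
  have hη1 : η 1 ≠ 0 := by
    obtain ⟨n, hn, h⟩ := IsIrrCharacter.degree_pos hη
    rw [h]; exact_mod_cast hn.ne'
  have hcls : IsClassFunction A η := IsCharacter.isClassFunction hηc
  have hcen : ∀ a b : A, ⁅a, b⁆ ∈ Subgroup.center A := comm_mem_center P A hP hPA hcop hnc hmin
  have hker : ∀ z ∈ Subgroup.center A, η z = η 1 → ∀ g : A, η (g * z) = η g := by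
    intro z hz hz1 g
    obtain ⟨c, -, hc⟩ := IsIrrCharacter.central_mul hη hz
    have h1 := hc 1
    rw [one_mul, hz1] at h1
    have hc1 : c = 1 := by
      have : (c - 1) * η 1 = 0 := by rw [sub_mul, one_mul, ← h1, sub_self]
      rcases mul_eq_zero.mp this with h | h
      · exact sub_eq_zero.mp h
      · exact absurd h hη1
    rw [hc g, hc1, one_mul]
  let W : Subgroup A :=
    { carrier := {a | ∀ b : A, η ⁅a, b⁆ = η 1}
      one_mem' := by
        intro b
        have : ⁅(1 : A), b⁆ = 1 := by simp [commutatorElement_def]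
        rw [this]
      mul_mem' := by
        intro a₁ a₂ h₁ h₂ b
        have hz2 := hcen a₂ b
        have e : ⁅a₁ * a₂, b⁆ = ⁅a₂, b⁆ * ⁅a₁, b⁆ := by
          have e1 : ⁅a₁ * a₂, b⁆ = a₁ * ⁅a₂, b⁆ * a₁⁻¹ * ⁅a₁, b⁆ := by
            simp only [commutatorElement_def]; group
          rw [e1, Subgroup.mem_center_iff.mp hz2 a₁, mul_inv_cancel_right]
        rw [e, hker _ (hcen a₁ b) (h₁ b)]
        exact h₂ b
      inv_mem' := by
        intro a h b
        have hz := hcen a b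
        have hz' : (⁅a, b⁆)⁻¹ ∈ Subgroup.center A := Subgroup.inv_mem _ hz
        have e : ⁅a⁻¹, b⁆ = (⁅a, b⁆)⁻¹ := by
          have e1 : ⁅a⁻¹, b⁆ = a⁻¹ * (⁅a, b⁆)⁻¹ * a := by
            simp only [commutatorElement_def]; group
          rw [e1, Subgroup.mem_center_iff.mp hz' a⁻¹, inv_mul_cancel_right]
        rw [e]
        have h3 := hker _ hz (h b) (⁅a, b⁆)⁻¹
        rw [inv_mul_cancel] at h3
        exact h3.symm }
  have hWmem : ∀ a : A, a ∈ W ↔ ∀ b : A, η ⁅a, b⁆ = η 1 := fun a => Iff.rfl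
  have hvan : ∀ a : A, a ∉ W → η a = 0 := by
    intro a ha
    rw [hWmem] at ha
    push_neg at ha
    obtain ⟨b, hb⟩ := ha
    by_contra hne
    apply hb
    have hz := hcen a b
    have hzi : (⁅a, b⁆)⁻¹ ∈ Subgroup.center A := Subgroup.inv_mem _ hz
    obtain ⟨c, -, hc⟩ := IsIrrCharacter.central_mul hη hzi
    have e1 : b * a * b⁻¹ = a * (⁅a, b⁆)⁻¹ := by
      rw [Subgroup.mem_center_iff.mp hzi a]
      simp only [commutatorElement_def]; group
    have e2 : η a = c * η a := by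
      rw [← hc a, ← e1]; exact (hcls a b).symm
    have hc1 : c = 1 := by
      have : (c - 1) * η a = 0 := by rw [sub_mul, one_mul, ← e2, sub_self]
      rcases mul_eq_zero.mp this with h | h
      · exact sub_eq_zero.mp h
      · exact absurd h hne
    have e3 := hc 1
    rw [one_mul, hc1, one_mul] at e3
    have e4 := hker _ hzi e3 ⁅a, b⁆
    rw [mul_inv_cancel] at e4
    exact e4.symm
  have hsum : ∑ a : A, η a * conj (η a) = (Nat.card A : ℂ) := by
    have h1 := classInner_irr_self hη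
    unfold classInner at h1
    have hA0 : (Nat.card A : ℂ) ≠ 0 := by exact_mod_cast (Nat.card_pos (α := A)).ne'
    exact ((inv_mul_eq_one₀ hA0).mp h1).symm
  have hsumR : ∑ a : A, ‖η a‖ ^ 2 = (Nat.card A : ℝ) := by
    have : ((∑ a : A, ‖η a‖ ^ 2 : ℝ) : ℂ) = (Nat.card A : ℂ) := by
      rw [← hsum]; push_cast
      refine Finset.sum_congr rfl (fun a _ => ?_)
      rw [Complex.mul_conj, Complex.normSq_eq_norm_sq]; push_cast; rfl
    exact_mod_cast this
  have hle : (Nat.card A : ℝ) ≤ (Nat.card W : ℝ) * (d : ℝ) ^ 2 := by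
    rw [← hsumR]
    have h1 : ∀ a : A, ‖η a‖ ^ 2 ≤ if a ∈ W then (d : ℝ) ^ 2 else 0 := by
      intro a
      by_cases ha : a ∈ W
      · rw [if_pos ha]
        have := norm_le_degree hηc d hd a
        exact pow_le_pow_left₀ (norm_nonneg _) this 2
      · rw [if_neg ha, hvan a ha]; simp
    refine (Finset.sum_le_sum (fun a _ => h1 a)).trans ?_
    rw [Finset.sum_ite, Finset.sum_const_zero, add_zero, Finset.sum_const, nsmul_eq_mul]
    have : (Finset.filter (fun a => a ∈ W) Finset.univ).card = Nat.card W := by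
      rw [Nat.card_eq_fintype_card, Fintype.card_subtype]
    rw [this]
  let W' : Subgroup G := W.map A.subtype
  have hW'A : W' ≤ A := Subgroup.map_subtype_le _
  have hmemW' : ∀ a : A, (a : G) ∈ W' ↔ a ∈ W := by
    intro a
    constructor
    · rintro ⟨a', ha', h⟩
      have : a' = a := Subtype.ext h
      rw [← this]; exact ha'
    · intro h; exact ⟨a, h, rfl⟩
  have hnormA : ∀ y ∈ P, ∀ a ∈ A, y * a * y⁻¹ ∈ A := fun y hy a ha =>
    (Subgroup.mem_normalizer_iff.mp (hPA hy) a).mp ha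
  have hnormA' : ∀ y ∈ P, ∀ a ∈ A, y⁻¹ * a * y ∈ A := by
    intro y hy a ha
    have := hnormA y⁻¹ (P.inv_mem hy) a ha
    simpa using this
  have hPW : P ≤ Subgroup.normalizer (W' : Set G) := by
    intro y hy
    apply Cfsg.Agent.Lib.Helper10.Coprime.mem_normalizer_of_conj_mem
    rintro _ ⟨a, ha, rfl⟩
    have hmem : y * (a : G) * y⁻¹ ∈ A := hnormA y hy a a.2
    have hgoal : (⟨y * (a : G) * y⁻¹, hmem⟩ : A) ∈ W := by
      rw [hWmem]
      intro b
      have hb' : y⁻¹ * (b : G) * y ∈ A := hnormA' y hy b b.2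
      have e : (⁅(⟨y * (a : G) * y⁻¹, hmem⟩ : A), b⁆ : A) = ⁅a, (⟨y⁻¹ * (b : G) * y, hb'⟩ : A)⁆ := by
        apply Subtype.ext
        have h1 := comm_fixed P A hP hPA hcop hnc hmin a ⟨y⁻¹ * (b : G) * y, hb'⟩ y hy
        rw [commutatorElement_def] at h1
        show y * (a : G) * y⁻¹ * (b : G) * (y * (a : G) * y⁻¹)⁻¹ * (b : G)⁻¹ =
          (a : G) * (y⁻¹ * (b : G) * y) * (a : G)⁻¹ * (y⁻¹ * (b : G) * y)⁻¹
        rw [← h1]; group
      rw [e]
      exact (hWmem a).mp ha _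
    exact (hmemW' _).mpr hgoal
  have hW'ne : W' ≠ A := by
    intro h
    have : (g₀ : G) ∈ W' := by rw [h]; exact g₀.2
    rw [hmemW'] at this
    exact hgh (this h₀)
  have hcW := hmin W' hW'A hW'ne hPW
  have hex : ∃ y₀ ∈ P, ∃ a₀ ∈ A, a₀ * y₀ ≠ y₀ * a₀ := by
    by_contra hcon
    push_neg at hcon
    apply hnc
    intro y hy
    rw [Subgroup.mem_centralizer_iff]
    intro a ha
    exact hcon y hy a ha
  obtain ⟨y₀, hy₀, a₀, ha₀, hne₀⟩ := hex
  have hclaim : ∀ y ∈ P, a₀⁻¹ * (y * a₀ * y⁻¹) ∈ W' → y = 1 := by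
    intro y hy hw
    by_contra hy1
    have h3 := hcW hy
    rw [Subgroup.mem_centralizer_iff] at h3
    have h4 := conj_eq_of_commute P A hP hcop hy (hW'A hw) (h3 _ hw).symm
    have h5 : a₀ * y = y * a₀ := by
      have : a₀ * y = (y * a₀ * y⁻¹) * y := by rw [h4]
      rw [this]; group
    exact hne₀ (huni y hy hy1 a₀ ha₀ h5 y₀ hy₀)
  have ha₀W : a₀ ∉ W' := by
    intro h
    have h3 := hcW hy₀
    rw [Subgroup.mem_centralizer_iff] at h3
    exact hne₀ (h3 a₀ h)
  let f : Option P → A ⧸ W := fun o =>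
    match o with
    | none => ((1 : A) : A ⧸ W)
    | some y => ((⟨(y : G) * a₀ * (y : G)⁻¹, hnormA y y.2 a₀ ha₀⟩ : A) : A ⧸ W)
  have hnone : ∀ y : P, ((1 : A) : A ⧸ W) ≠
      ((⟨(y : G) * a₀ * (y : G)⁻¹, hnormA y y.2 a₀ ha₀⟩ : A) : A ⧸ W) := by
    intro y h1
    rw [QuotientGroup.eq, inv_one, one_mul, ← hmemW'] at h1
    have h1' : (y : G) * a₀ * (y : G)⁻¹ ∈ W' := h1
    have h3 := hcW y.2
    rw [Subgroup.mem_centralizer_iff] at h3
    have h4 := h3 _ h1'
    have h5 : a₀ = (y : G) * a₀ * (y : G)⁻¹ := by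
      have : (y : G) * a₀ = (y : G) * ((y : G) * a₀ * (y : G)⁻¹) := by rw [← h4]; group
      exact mul_left_cancel this
    apply ha₀W; rw [h5]; exact h1'
  have hf : Function.Injective f := by
    intro o₁ o₂ h
    rcases o₁ with _ | y₁ <;> rcases o₂ with _ | y₂
    · rfl
    · exact absurd h (hnone y₂)
    · exact absurd h.symm (hnone y₁)
    · have h1 : ((⟨(y₁ : G) * a₀ * (y₁ : G)⁻¹, hnormA y₁ y₁.2 a₀ ha₀⟩ : A) : A ⧸ W) =
          ((⟨(y₂ : G) * a₀ * (y₂ : G)⁻¹, hnormA y₂ y₂.2 a₀ ha₀⟩ : A) : A ⧸ W) := h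
      rw [QuotientGroup.eq, ← hmemW'] at h1
      have hw : ((y₁ : G) * a₀ * (y₁ : G)⁻¹)⁻¹ * ((y₂ : G) * a₀ * (y₂ : G)⁻¹) ∈ W' := h1
      have h3 := hcW y₁.2
      rw [Subgroup.mem_centralizer_iff] at h3
      have h4 := h3 _ hw
      have h5 : a₀⁻¹ * (((y₁ : G)⁻¹ * y₂) * a₀ * ((y₁ : G)⁻¹ * y₂)⁻¹) =
          ((y₁ : G) * a₀ * (y₁ : G)⁻¹)⁻¹ * ((y₂ : G) * a₀ * (y₂ : G)⁻¹) := by
        have : a₀⁻¹ * (((y₁ : G)⁻¹ * y₂) * a₀ * ((y₁ : G)⁻¹ * y₂)⁻¹) =
            (y₁ : G)⁻¹ * (((y₁ : G) * a₀ * (y₁ : G)⁻¹)⁻¹ * ((y₂ : G) * a₀ * (y₂ : G)⁻¹) * y₁) := by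
          group
        rw [this, h4]; group
      have h6 := hclaim _ (P.mul_mem (P.inv_mem y₁.2) y₂.2) (by rw [h5]; exact hw)
      congr 1
      apply Subtype.ext
      exact inv_mul_eq_one.mp h6
  have hcard1 : Nat.card P + 1 ≤ W.index := by
    have h1 := Nat.card_le_card_of_injective f hf
    rw [Finite.card_option] at h1
    exact h1
  have hcard2 : W.index * Nat.card W = Nat.card A := Subgroup.index_mul_card W
  have hWpos : 0 < Nat.card W := Nat.card_pos
  have hfin : (Nat.card P + 1) * Nat.card W ≤ d ^ 2 * Nat.card W := by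
    have h1 : (Nat.card P + 1) * Nat.card W ≤ Nat.card A := by
      rw [← hcard2]; exact Nat.mul_le_mul_right _ hcard1
    have h2 : Nat.card A ≤ d ^ 2 * Nat.card W := by
      have : (Nat.card A : ℝ) ≤ ((d ^ 2 * Nat.card W : ℕ) : ℝ) := by
        push_cast; linarith [hle]
      exact_mod_cast this
    exact h1.trans h2
  exact Nat.le_of_mul_le_mul_right hfin hWpos

end minimal

end Cfsg.Agent.Lib.Helper10.TISolv
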